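import Mathlib

/-!
# Coprime action tools for the four primes theorem
-/

set_option autoImplicit false
set_option linter.style.haveILetI false
set_option linter.unusedSectionVars false

namespace Cfsg.Agent.Lib.S3814

open Finset

section base

variable {V : Type*} [CommGroup V]

theorem norm_fix (g : MulAut V) {n : ℕ} (hn : g ^ n = 1) (W : Subgroup V)
    (hgW : ∀ v ∈ W, g v ∈ W) (hfp : ∀ v ∈ W, g v = v → v = 1) {v : V} (hv : v ∈ W) :
    ∏ i ∈ range n, (g ^ i) v = 1 := by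
  have hpow : ∀ i : ℕ, ∀ u ∈ W, (g ^ i) u ∈ W := by
    intro i
    induction i with
    | zero => intro u hu; simpa using hu
    | succ k ih =>
      intro u hu
      rw [pow_succ', MulAut.mul_apply]
      exact hgW _ (ih u hu)
  apply hfp
  · exact Subgroup.prod_mem _ (fun i _ => hpow i v hv)
  · rw [map_prod]
    have h1 : ∏ x ∈ range n, g ((g ^ x) v) = ∏ x ∈ range n, (g ^ (x + 1)) v := by
      refine Finset.prod_congr rfl (fun x _ => ?_)
      rw [pow_succ', MulAut.mul_apply]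
    rw [h1]
    have h2 := Finset.prod_range_succ (fun x => (g ^ x) v) n
    have h3 := Finset.prod_range_succ' (fun x => (g ^ x) v) n
    rw [h2, hn] at h3
    simp only [pow_zero, MulAut.one_apply] at h3
    exact (mul_right_cancel h3).symm

theorem pow_eq_one_of_coprime {G : Type*} [Group G] {x : G} {m n : ℕ} (h : m.Coprime n)
    (hm : x ^ m = 1) (hn : x ^ n = 1) : x = 1 := by
  have := (pow_gcd_eq_one (a := x) (m := m) (n := n)).mpr ⟨hm, hn⟩
  rwa [h, pow_one] at this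

/-- The central averaging lemma. -/
theorem pstar [Finite V] (R : Subgroup (MulAut V)) (b : MulAut V) {n : ℕ} (hn0 : 0 < n)
    (hb : b ^ n = 1) (hbR : ∀ r ∈ R, b * r * b⁻¹ ∈ R)
    (hfree : ∀ i, 0 < i → i < n → ∀ r ∈ R, r * b ^ i = b ^ i * r → r = 1)
    (W : Subgroup V) (hWb : ∀ v ∈ W, b v ∈ W) (hWR : ∀ r ∈ R, ∀ v ∈ W, r v ∈ W)
    (hfp : ∀ v ∈ W, b v = v → v = 1) (hcop : (Nat.card R).Coprime (Nat.card V)) :
    ∀ r ∈ R, ∀ v ∈ W, r v = v := by
  classical
  haveI : Finite (MulAut V) := Finite.of_injective (fun f : MulAut V => (f : V → V))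
    (fun f g h => MulEquiv.ext (congrFun h))
  haveI : Fintype R := Fintype.ofFinite R
  have hbpowR : ∀ i : ℕ, ∀ r ∈ R, b ^ i * r * (b ^ i)⁻¹ ∈ R := by
    intro i
    induction i with
    | zero => intro r hr; simpa using hr
    | succ k ih =>
      intro r hr
      have : b ^ (k + 1) * r * (b ^ (k + 1))⁻¹ = b * (b ^ k * r * (b ^ k)⁻¹) * b⁻¹ := by
        rw [pow_succ']; group
      rw [this]
      exact hbR _ (ih r hr)
  let S : ℕ → R → R := fun i r =>
    ⟨r.1 * (b ^ i * r.1⁻¹ * (b ^ i)⁻¹), R.mul_mem r.2 (hbpowR i _ (R.inv_mem r.2))⟩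
  have hSinj : ∀ i, 0 < i → i < n → Function.Injective (S i) := by
    intro i hi0 hin r r' h
    have h0 : r.1 * (b ^ i * r.1⁻¹ * (b ^ i)⁻¹) = r'.1 * (b ^ i * r'.1⁻¹ * (b ^ i)⁻¹) :=
      congrArg Subtype.val h
    have hc : (r'.1⁻¹ * r.1) * b ^ i = b ^ i * (r'.1⁻¹ * r.1) := by
      have h1 : r'.1⁻¹ * r.1 = b ^ i * r'.1⁻¹ * r.1 * (b ^ i)⁻¹ := by
        have h2 : r'.1⁻¹ * (r.1 * (b ^ i * r.1⁻¹ * (b ^ i)⁻¹)) * (b ^ i * r.1 * (b ^ i)⁻¹)
            = r'.1⁻¹ * (r'.1 * (b ^ i * r'.1⁻¹ * (b ^ i)⁻¹)) * (b ^ i * r.1 * (b ^ i)⁻¹) := by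
          rw [h0]
        have h3 : r'.1⁻¹ * (r.1 * (b ^ i * r.1⁻¹ * (b ^ i)⁻¹)) * (b ^ i * r.1 * (b ^ i)⁻¹)
            = r'.1⁻¹ * r.1 := by group
        have h4 : r'.1⁻¹ * (r'.1 * (b ^ i * r'.1⁻¹ * (b ^ i)⁻¹)) * (b ^ i * r.1 * (b ^ i)⁻¹)
            = b ^ i * r'.1⁻¹ * r.1 * (b ^ i)⁻¹ := by group
        rw [h3, h4] at h2
        exact h2
      calc (r'.1⁻¹ * r.1) * b ^ i = (b ^ i * r'.1⁻¹ * r.1 * (b ^ i)⁻¹) * b ^ i := by rw [← h1]
        _ = b ^ i * (r'.1⁻¹ * r.1) := by group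
    have := hfree i hi0 hin _ (R.mul_mem (R.inv_mem r'.2) r.2) hc
    apply Subtype.ext
    have h5 : r.1 = r'.1 * (r'.1⁻¹ * r.1) := by group
    rw [h5, this, mul_one]
  let E : V → V := fun x => ∏ s : R, (s.1 : MulAut V) x
  have hES : ∀ i, 0 < i → i < n → ∀ x, ∏ r : R, ((S i r).1 : MulAut V) x = E x := by
    intro i hi0 hin x
    have hbij : Function.Bijective (S i) := Finite.injective_iff_bijective.mp (hSinj i hi0 hin)
    exact Function.Bijective.prod_comp hbij (fun s : R => (s.1 : MulAut V) x)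
  have hEmul : ∀ (s : Finset ℕ) (f : ℕ → V), E (∏ i ∈ s, f i) = ∏ i ∈ s, E (f i) := by
    intro s f
    simp only [E, map_prod]
    exact Finset.prod_comm
  have hgen : ∀ v ∈ W, E v = v ^ Nat.card R := by
    intro v hv
    have hnb : ∏ i ∈ range n, (b ^ i) v = 1 := norm_fix b hb W hWb hfp hv
    have hR : ∀ r : R, ∏ i ∈ range n, ((S i r).1 : MulAut V) ((b ^ i) v) = 1 := by
      intro r
      have hg : (r.1 * b * r.1⁻¹) ^ n = 1 := by
        rw [conj_pow, hb]; simp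
      have hgW : ∀ u ∈ W, (r.1 * b * r.1⁻¹) u ∈ W := by
        intro u hu
        simp only [MulAut.mul_apply]
        exact hWR _ r.2 _ (hWb _ (hWR _ (R.inv_mem r.2) _ hu))
      have hgfp : ∀ u ∈ W, (r.1 * b * r.1⁻¹) u = u → u = 1 := by
        intro u hu h
        have h1 : b (r.1⁻¹ u) = r.1⁻¹ u := by
          apply r.1.injective
          have h0 : r.1 (r.1⁻¹ u) = u := by simp
          rw [h0]; exact h
        have h2 := hfp _ (hWR _ (R.inv_mem r.2) _ hu) h1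
        have h3 : r.1 (r.1⁻¹ u) = r.1 1 := by rw [h2]
        simpa using h3
      have := norm_fix _ hg W hgW hgfp hv
      rw [← this]
      refine Finset.prod_congr rfl (fun i _ => ?_)
      rw [conj_pow]
      have : r.1 * b ^ i * r.1⁻¹ = (S i r).1 * b ^ i := by
        simp only [S]; group
      rw [this]; rfl
    have hall : ∏ r : R, ∏ i ∈ range n, ((S i r).1 : MulAut V) ((b ^ i) v) = 1 :=
      Finset.prod_eq_one (fun r _ => hR r)
    rw [Finset.prod_comm] at hall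
    obtain ⟨m, rfl⟩ : ∃ m, n = m + 1 := ⟨n - 1, by omega⟩
    rw [Finset.prod_range_succ'] at hall
    have hfirst : ∏ r : R, ((S 0 r).1 : MulAut V) ((b ^ 0) v) = v ^ Nat.card R := by
      have : ∀ r : R, ((S 0 r).1 : MulAut V) ((b ^ 0) v) = v := by
        intro r
        simp [S]
      simp only [this]
      simp [Nat.card_eq_fintype_card]
    rw [hfirst] at hall
    have hrest : ∏ i ∈ range m, ∏ r : R, ((S (i + 1) r).1 : MulAut V) ((b ^ (i + 1)) v)
        = E (∏ i ∈ range m, (b ^ (i + 1)) v) := by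
      rw [hEmul]
      refine Finset.prod_congr rfl (fun i hi => ?_)
      exact hES (i + 1) (by omega) (by have := Finset.mem_range.mp hi; omega) _
    rw [hrest] at hall
    rw [Finset.prod_range_succ'] at hnb
    simp only [pow_zero, MulAut.one_apply] at hnb
    have hinv : ∏ i ∈ range m, (b ^ (i + 1)) v = v⁻¹ := eq_inv_of_mul_eq_one_left hnb
    rw [hinv] at hall
    have hEinv : E v⁻¹ = (E v)⁻¹ := by
      simp only [E, map_inv, Finset.prod_inv_distrib]
    rw [hEinv] at hall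
    exact (inv_eq_of_mul_eq_one_right (a := (E v)⁻¹) (by rwa [mul_comm] at hall)).symm ▸ by
      simp
  intro s₀ hs₀ v hv
  have h1 : s₀ (E v) = E v := by
    simp only [E, map_prod]
    have : ∀ s : R, s₀ ((s.1 : MulAut V) v) = ((⟨s₀, hs₀⟩ * s).1 : MulAut V) v := fun s => rfl
    simp only [this]
    exact Function.Bijective.prod_comp (Group.mulLeft_bijective (⟨s₀, hs₀⟩ : R))
      (fun s : R => (s.1 : MulAut V) v)
  rw [hgen v hv, map_pow] at h1
  have h2 : (s₀ v * v⁻¹) ^ Nat.card R = 1 := by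
    rw [mul_pow, h1, inv_pow, mul_inv_cancel]
  have h3 : (s₀ v * v⁻¹) ^ Nat.card V = 1 := pow_card_eq_one'
  have h4 := pow_eq_one_of_coprime hcop h2 h3
  exact mul_inv_eq_one.mp h4

/-- A power of an element of prime exponent that is prime to `w` generates it. -/
theorem exists_pow_pow_eq {G : Type*} [Group G] {b : G} {w i : ℕ} (hw : 1 < w) (hb : b ^ w = 1)
    (hi : i.Coprime w) : ∃ m, (b ^ i) ^ m = b := by
  obtain ⟨m, hm⟩ := Nat.exists_mul_mod_eq_one_of_coprime hi hw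
  refine ⟨m, ?_⟩
  rw [← pow_mul, pow_eq_pow_mod _ hb, hm.2, pow_one]

theorem p2_base [Finite V] (R : Subgroup (MulAut V)) (hRc : ∀ x ∈ R, ∀ y ∈ R, x * y = y * x)
    (b : MulAut V) {w : ℕ} (hw : w.Prime) (hb : b ^ w = 1) (hbR : ∀ r ∈ R, b * r * b⁻¹ ∈ R)
    (hc1 : (Nat.card R).Coprime w) (hc2 : (Nat.card R).Coprime (Nat.card V))
    (W : Subgroup V) (hWb : ∀ v ∈ W, b v ∈ W) (hWR : ∀ r ∈ R, ∀ v ∈ W, r v ∈ W)
    (hfp : ∀ v ∈ W, b v = v → v = 1) :
    ∀ r ∈ R, ∀ v ∈ W, (b * r * b⁻¹ * r⁻¹) v = v := by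
  classical
  haveI : Finite (MulAut V) := Finite.of_injective (fun f : MulAut V => (f : V → V))
    (fun f g h => MulEquiv.ext (congrFun h))
  let R₁ : Subgroup (MulAut V) :=
    { carrier := {x | ∃ c ∈ R, x = b * c * b⁻¹ * c⁻¹}
      one_mem' := ⟨1, R.one_mem, by group⟩
      mul_mem' := by
        rintro _ _ ⟨c, hc, rfl⟩ ⟨d, hd, rfl⟩
        refine ⟨c * d, R.mul_mem hc hd, ?_⟩
        have h1 := hRc _ (R.inv_mem hc) _ (hbR d hd)
        have h2 := hRc _ hc _ hd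
        calc b * c * b⁻¹ * c⁻¹ * (b * d * b⁻¹ * d⁻¹)
            = b * c * b⁻¹ * (c⁻¹ * (b * d * b⁻¹)) * d⁻¹ := by group
          _ = b * c * b⁻¹ * ((b * d * b⁻¹) * c⁻¹) * d⁻¹ := by rw [h1]
          _ = b * (c * d) * b⁻¹ * (c⁻¹ * d⁻¹) := by group
          _ = b * (c * d) * b⁻¹ * (d * c)⁻¹ := by rw [mul_inv_rev]
          _ = b * (c * d) * b⁻¹ * (c * d)⁻¹ := by rw [h2]
      inv_mem' := by
        rintro _ ⟨c, hc, rfl⟩
        refine ⟨c⁻¹, R.inv_mem hc, ?_⟩
        have h1 := hRc _ (R.inv_mem (hbR c hc)) _ hc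
        calc (b * c * b⁻¹ * c⁻¹)⁻¹ = c * (b * c * b⁻¹)⁻¹ := by group
          _ = (b * c * b⁻¹)⁻¹ * c := h1.symm
          _ = b * c⁻¹ * b⁻¹ * c⁻¹⁻¹ := by group }
  have hR₁R : R₁ ≤ R := by
    rintro _ ⟨c, hc, rfl⟩
    exact R.mul_mem (hbR c hc) (R.inv_mem hc)
  have hcard : Nat.card R₁ ∣ Nat.card R := Subgroup.card_dvd_of_le hR₁R
  have hgoal := pstar R₁ b hw.pos hb (by
      rintro _ ⟨c, hc, rfl⟩
      exact ⟨b * c * b⁻¹, hbR c hc, by group⟩)
    (by
      intro i hi0 hiw x hx hcomm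
      have hcop : i.Coprime w := by
        rw [Nat.coprime_comm]
        exact (Nat.Prime.coprime_iff_not_dvd hw).mpr (fun h => by
          have := Nat.le_of_dvd hi0 h; omega)
      obtain ⟨m, hm⟩ := exists_pow_pow_eq hw.one_lt hb hcop
      have hxb : Commute x b := by
        have : Commute x (b ^ i) := hcomm
        rw [← hm]
        exact this.pow_right m
      obtain ⟨c, hc, rfl⟩ := hx
      set x := b * c * b⁻¹ * c⁻¹ with hxdef
      have hpow : ∀ m : ℕ, x ^ m = b ^ m * c * (b ^ m)⁻¹ * c⁻¹ := by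
        intro m
        induction m with
        | zero => simp
        | succ k ih =>
          have h1 : x = b ^ k * x * (b ^ k)⁻¹ := by
            have := (hxb.pow_right k).eq
            rw [← this]; group
          calc x ^ (k + 1) = x * x ^ k := pow_succ' x k
            _ = (b ^ k * x * (b ^ k)⁻¹) * (b ^ k * c * (b ^ k)⁻¹ * c⁻¹) := by rw [← h1, ih]
            _ = b ^ (k + 1) * c * (b ^ (k + 1))⁻¹ * c⁻¹ := by
              rw [hxdef, pow_succ']; group
      have h1 : x ^ w = 1 := by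
        rw [hpow, hb]; group
      have hxR : x ∈ R := hR₁R ⟨c, hc, rfl⟩
      have h2 : x ^ Nat.card R = 1 := by
        have h : ((⟨x, hxR⟩ : R) ^ Nat.card R : R).1 = (1 : R).1 := congrArg _ pow_card_eq_one'
        exact h
      exact pow_eq_one_of_coprime hc1 h2 h1)
    W hWb (fun r hr v hv => hWR r (hR₁R hr) v hv) hfp
    (Nat.Coprime.coprime_dvd_left hcard hc2)
  intro r hr v hv
  exact hgoal _ ⟨r, hr, rfl⟩ v hv

theorem pprime_base [Finite V] (a b : MulAut V) {t : ℕ} (ht : t.Prime) (hab : a * b = b * a)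
    (ha : a ^ t = 1) (hb : b ^ t = 1) (hcop : t.Coprime (Nat.card V)) (W : Subgroup V)
    (hWa : ∀ v ∈ W, a v ∈ W) (hWb : ∀ v ∈ W, b v ∈ W) (hW : W ≠ ⊥) :
    (∃ v ∈ W, v ≠ 1 ∧ b v = v) ∨ ∃ j : ℕ, ∃ v ∈ W, v ≠ 1 ∧ (a * b ^ j) v = v := by
  classical
  by_contra hcon
  push Not at hcon
  obtain ⟨h1, h2⟩ := hcon
  apply hW
  rw [eq_bot_iff]
  intro v hv
  have hbpowW : ∀ i : ℕ, ∀ u ∈ W, (b ^ i) u ∈ W := by
    intro i
    induction i with
    | zero => intro u hu; simpa using hu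
    | succ k ih =>
      intro u hu
      rw [pow_succ', MulAut.mul_apply]
      exact hWb _ (ih u hu)
  have hcomm : Commute a b := hab
  have key : ∀ j : ℕ, ∏ i ∈ range t, ((a * b ^ j) ^ i) v = 1 := by
    intro j
    refine norm_fix (a * b ^ j) ?_ W ?_ ?_ hv
    · rw [(hcomm.pow_right j).mul_pow, ha, ← pow_mul, mul_comm, pow_mul, hb, one_pow, one_mul]
    · intro u hu
      simp only [MulAut.mul_apply]
      exact hWa _ (hbpowW j u hu)
    · intro u hu h
      by_contra hu1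
      exact h2 j u hu hu1 h
  have hall : ∏ j ∈ range t, ∏ i ∈ range t, ((a * b ^ j) ^ i) v = 1 :=
    Finset.prod_eq_one (fun j _ => key j)
  rw [Finset.prod_comm] at hall
  obtain ⟨m, hm⟩ : ∃ m, t = m + 1 := ⟨t - 1, by have := ht.pos; omega⟩
  have hterm : ∀ i ∈ range m, ∏ j ∈ range t, ((a * b ^ j) ^ (i + 1)) v = 1 := by
    intro i hi
    have hilt : i + 1 < t := by have := Finset.mem_range.mp hi; omega
    have hcop' : (i + 1).Coprime t := by
      rw [Nat.coprime_comm]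
      exact (Nat.Prime.coprime_iff_not_dvd ht).mpr (fun h => by
        have := Nat.le_of_dvd (by omega) h; omega)
    obtain ⟨e, he⟩ := exists_pow_pow_eq ht.one_lt hb hcop'
    have hfpi : ∀ u ∈ W, (b ^ (i + 1)) u = u → u = 1 := by
      intro u hu h
      have h3 : ∀ e : ℕ, ((b ^ (i + 1)) ^ e) u = u := by
        intro e
        induction e with
        | zero => simp
        | succ k ih => rw [pow_succ, MulAut.mul_apply, h, ih]
      by_contra hu1
      refine h1 u hu hu1 ?_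
      have := h3 e
      rwa [he] at this
    have hn := norm_fix (b ^ (i + 1)) (n := t)
      (by rw [← pow_mul, mul_comm, pow_mul, hb, one_pow]) W (fun u hu => hbpowW _ u hu) hfpi hv
    have h4 : ∀ j ∈ range t, ((a * b ^ j) ^ (i + 1)) v = (a ^ (i + 1)) (((b ^ (i + 1)) ^ j) v) := by
      intro j _
      rw [(hcomm.pow_right j).mul_pow, MulAut.mul_apply, ← pow_mul, ← pow_mul, mul_comm j]
    rw [Finset.prod_congr rfl h4, ← map_prod, hn, map_one]
  nth_rewrite 1 [hm] at hall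
  rw [Finset.prod_range_succ', Finset.prod_eq_one hterm, one_mul] at hall
  simp only [pow_zero, MulAut.one_apply, Finset.prod_const, Finset.card_range] at hall
  have h3 : v ^ Nat.card V = 1 := pow_card_eq_one'
  exact pow_eq_one_of_coprime hcop hall h3

end base

section hom

variable {V Γ : Type*} [Group V] [Group Γ]

theorem pstar_hom [Finite V] (hc : ∀ x y : V, x * y = y * x) (R : Subgroup (MulAut V))
    (b : MulAut V) {n : ℕ} (hn0 : 0 < n)
    (hb : b ^ n = 1) (hbR : ∀ r ∈ R, b * r * b⁻¹ ∈ R)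
    (hfree : ∀ i, 0 < i → i < n → ∀ r ∈ R, r * b ^ i = b ^ i * r → r = 1)
    (W : Subgroup V) (hWb : ∀ v ∈ W, b v ∈ W) (hWR : ∀ r ∈ R, ∀ v ∈ W, r v ∈ W)
    (hfp : ∀ v ∈ W, b v = v → v = 1) (hcop : (Nat.card R).Coprime (Nat.card V)) :
    ∀ r ∈ R, ∀ v ∈ W, r v = v := by
  letI : CommGroup V := { ‹Group V› with mul_comm := hc }
  exact pstar R b hn0 hb hbR hfree W hWb hWR hfp hcop

/-- Hom form of the commutator lemma. -/
theorem p2 [Finite V] (hc : ∀ x y : V, x * y = y * x) (ρ : Γ →* MulAut V) (R : Subgroup Γ)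
    [Finite R]
    (hRc : ∀ x ∈ R, ∀ y ∈ R, ρ x * ρ y = ρ y * ρ x) (b : Γ) {w : ℕ} (hw : w.Prime)
    (hb : ρ b ^ w = 1) (hbR : ∀ r ∈ R, b * r * b⁻¹ ∈ R)
    (hc1 : (Nat.card R).Coprime w) (hc2 : (Nat.card R).Coprime (Nat.card V))
    (W : Subgroup V) (hWb : ∀ v ∈ W, ρ b v ∈ W) (hWR : ∀ r ∈ R, ∀ v ∈ W, ρ r v ∈ W)
    (hfp : ∀ v ∈ W, ρ b v = v → v = 1) :
    ∀ r ∈ R, ∀ v ∈ W, ρ (b * r * b⁻¹ * r⁻¹) v = v := by
  letI : CommGroup V := { ‹Group V› with mul_comm := hc }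
  have hdvd : Nat.card (R.map ρ) ∣ Nat.card R := Subgroup.card_map_dvd R ρ
  intro r hr v hv
  have := p2_base (R.map ρ) (by
      rintro _ ⟨x, hx, rfl⟩ _ ⟨y, hy, rfl⟩
      exact hRc x hx y hy) (ρ b) hw hb (by
      rintro _ ⟨x, hx, rfl⟩
      exact ⟨b * x * b⁻¹, hbR x hx, by simp⟩)
    (Nat.Coprime.coprime_dvd_left hdvd hc1) (Nat.Coprime.coprime_dvd_left hdvd hc2)
    W hWb (by
      rintro _ ⟨x, hx, rfl⟩ v hv
      exact hWR x hx v hv) hfp (ρ r) ⟨r, hr, rfl⟩ v hv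
  simpa using this

/-- Hom form of the rank two lemma. -/
theorem pprime [Finite V] (hc : ∀ x y : V, x * y = y * x) (ρ : Γ →* MulAut V) {a b : Γ} {t : ℕ}
    (ht : t.Prime) (hab : a * b = b * a) (ha : orderOf a = t) (hb : orderOf b = t)
    (hba : b ∉ Subgroup.zpowers a) (hcop : t.Coprime (Nat.card V)) (W : Subgroup V)
    (hWa : ∀ v ∈ W, ρ a v ∈ W) (hWb : ∀ v ∈ W, ρ b v ∈ W) (hW : W ≠ ⊥) :
    ∃ c ∈ Subgroup.closure ({a, b} : Set Γ), orderOf c = t ∧ ∃ v ∈ W, v ≠ 1 ∧ ρ c v = v := by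
  letI : CommGroup V := { ‹Group V› with mul_comm := hc }
  have hat : a ^ t = 1 := ha ▸ pow_orderOf_eq_one a
  have hbt : b ^ t = 1 := hb ▸ pow_orderOf_eq_one b
  have hamem : a ∈ Subgroup.closure ({a, b} : Set Γ) := Subgroup.subset_closure (by simp)
  have hbmem : b ∈ Subgroup.closure ({a, b} : Set Γ) := Subgroup.subset_closure (by simp)
  rcases pprime_base (ρ a) (ρ b) ht (by rw [← map_mul, hab, map_mul]) (by rw [← map_pow, hat, map_one])
    (by rw [← map_pow, hbt, map_one]) hcop W hWa hWb hW with ⟨v, hv, hv1, h⟩ | ⟨j, v, hv, hv1, h⟩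
  · exact ⟨b, hbmem, hb, v, hv, hv1, h⟩
  · refine ⟨a * b ^ j, Subgroup.mul_mem _ hamem (Subgroup.pow_mem _ hbmem j), ?_, v, hv, hv1, ?_⟩
    · have hcm : Commute a b := hab
      haveI := Fact.mk ht
      apply orderOf_eq_prime
      · rw [(hcm.pow_right j).mul_pow, hat, ← pow_mul, mul_comm, pow_mul, hbt, one_pow, one_mul]
      · intro h1
        have hj : ¬ t ∣ j := by
          intro hd
          obtain ⟨k, rfl⟩ := hd
          rw [pow_mul, hbt, one_pow, mul_one] at h1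
          rw [h1] at ha
          simp at ha
          exact ht.one_lt.ne ha
        have hcop' : j.Coprime t := by
          rw [Nat.coprime_comm]
          exact (Nat.Prime.coprime_iff_not_dvd ht).mpr hj
        obtain ⟨e, he⟩ := exists_pow_pow_eq ht.one_lt hbt hcop'
        apply hba
        have : b ^ j = a⁻¹ := eq_inv_of_mul_eq_one_right h1
        rw [← he, this]
        exact Subgroup.pow_mem _ (Subgroup.inv_mem _ (Subgroup.mem_zpowers a)) e
    · simpa using h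

end hom

section amb

variable {Γ : Type*} [Group Γ]

/-- Ambient form of the commutator lemma. -/
theorem p2_amb [Finite Γ] (W R : Subgroup Γ) (hWc : ∀ x ∈ W, ∀ y ∈ W, x * y = y * x)
    (hRN : R ≤ Subgroup.normalizer (W : Set Γ))
    (hRc : ∀ x ∈ R, ∀ y ∈ R, ∀ v ∈ W, (x * y) * v * (x * y)⁻¹ = (y * x) * v * (y * x)⁻¹)
    (b : Γ) (hbW : b ∈ Subgroup.normalizer (W : Set Γ)) {w : ℕ} (hw : w.Prime) (hb : b ^ w = 1)
    (hbR : ∀ r ∈ R, b * r * b⁻¹ ∈ R)
    (hc1 : (Nat.card R).Coprime w) (hc2 : (Nat.card R).Coprime (Nat.card W))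
    (hfp : ∀ v ∈ W, b * v * b⁻¹ = v → v = 1) :
    ∀ r ∈ R, ∀ v ∈ W, (b * r * b⁻¹ * r⁻¹) * v * (b * r * b⁻¹ * r⁻¹)⁻¹ = v := by
  let Nm := Subgroup.normalizer (W : Set Γ)
  let ρ : Nm →* MulAut W := W.normalizerMonoidHom
  have hρ : ∀ (g : Nm) (v : W), ((ρ g v : W) : Γ) = g.1 * v.1 * g.1⁻¹ := fun g v => rfl
  let R' : Subgroup Nm := R.subgroupOf Nm
  have hcard : Nat.card R' = Nat.card R := Nat.card_congr (Subgroup.subgroupOfEquivOfLe hRN).toEquiv
  let b' : Nm := ⟨b, hbW⟩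
  have key := p2 (V := W) (fun x y => Subtype.ext (hWc _ x.2 _ y.2)) ρ R' (by
      intro x hx y hy
      apply MulEquiv.ext
      intro v
      apply Subtype.ext
      have hx' : x.1 ∈ R := hx
      have hy' : y.1 ∈ R := hy
      show x.1 * (y.1 * v.1 * y.1⁻¹) * x.1⁻¹ = y.1 * (x.1 * v.1 * x.1⁻¹) * y.1⁻¹
      have h := hRc _ hx' _ hy' _ v.2
      simpa [mul_assoc] using h)
    b' hw (by
      rw [← map_pow]
      have : b' ^ w = 1 := Subtype.ext (by simpa [b'] using hb)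
      rw [this, map_one])
    (by
      intro r hr
      exact hbR r.1 hr)
    (by rw [hcard]; exact hc1) (by rw [hcard]; exact hc2) ⊤ (fun _ _ => trivial) (fun _ _ _ _ => trivial)
    (by
      intro v _ h
      apply Subtype.ext
      exact hfp v.1 v.2 (congrArg Subtype.val h))
  intro r hr v hv
  have hrN : r ∈ Nm := hRN hr
  have := key ⟨r, hrN⟩ hr ⟨v, hv⟩ trivial
  exact congrArg Subtype.val this

/-- Ambient form of the rank two lemma. -/
theorem pprime_amb [Finite Γ] (W : Subgroup Γ) (hWc : ∀ x ∈ W, ∀ y ∈ W, x * y = y * x) {a b : Γ}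
    (haW : a ∈ Subgroup.normalizer (W : Set Γ)) (hbW : b ∈ Subgroup.normalizer (W : Set Γ))
    {t : ℕ} (ht : t.Prime) (hab : a * b = b * a) (ha : orderOf a = t) (hb : orderOf b = t)
    (hba : b ∉ Subgroup.zpowers a) (hcop : t.Coprime (Nat.card W)) (hW : W ≠ ⊥) :
    ∃ c ∈ Subgroup.closure ({a, b} : Set Γ), orderOf c = t ∧ ∃ v ∈ W, v ≠ 1 ∧ c * v = v * c := by
  let Nm := Subgroup.normalizer (W : Set Γ)
  let ρ : Nm →* MulAut W := W.normalizerMonoidHom
  let a' : Nm := ⟨a, haW⟩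
  let b' : Nm := ⟨b, hbW⟩
  have hW' : (⊤ : Subgroup W) ≠ ⊥ := by
    intro h
    apply hW
    rw [eq_bot_iff]
    intro x hx
    have : (⟨x, hx⟩ : W) ∈ (⊥ : Subgroup W) := h ▸ Subgroup.mem_top _
    have := Subgroup.mem_bot.mp this
    simpa using congrArg Subtype.val this
  obtain ⟨c, hc, hco, v, -, hv1, hv⟩ := pprime (V := W) (fun x y => Subtype.ext (hWc _ x.2 _ y.2)) ρ
    (a := a') (b := b') ht (Subtype.ext hab)
    (by rw [Subgroup.orderOf_mk]; exact ha) (by rw [Subgroup.orderOf_mk]; exact hb)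
    (by
      intro h
      apply hba
      obtain ⟨k, hk⟩ := Subgroup.mem_zpowers_iff.mp h
      exact Subgroup.mem_zpowers_iff.mpr ⟨k, by simpa [a', b'] using congrArg Subtype.val hk⟩)
    hcop ⊤ (fun _ _ => trivial) (fun _ _ => trivial) hW'
  refine ⟨c.1, ?_, ?_, v.1, v.2, ?_, ?_⟩
  · have : c ∈ (Subgroup.closure ({a, b} : Set Γ)).subgroupOf Nm := by
      have hle : Subgroup.closure ({a', b'} : Set Nm) ≤ (Subgroup.closure ({a, b} : Set Γ)).subgroupOf Nm := by
        rw [Subgroup.closure_le]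
        rintro x (rfl | rfl)
        · exact Subgroup.subset_closure (by simp [a'])
        · exact Subgroup.subset_closure (by simp [b'])
      exact hle hc
    exact this
  · rw [← hco, Subgroup.orderOf_coe]
  · intro h
    exact hv1 (Subtype.ext h)
  · have h := congrArg Subtype.val hv
    have h2 : c.1 * v.1 * c.1⁻¹ = v.1 := h
    exact mul_inv_eq_iff_eq_mul.mp h2

end amb

end Cfsg.Agent.Lib.S3814
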