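import Mathlib
import Cfsg.Agent.Lib.S3814.Tools
import Cfsg.Agent.Lib.Solvable.Hall
import Cfsg.Agent.Lib.Solvable.MinimalNormal
import Cfsg.Agent.Lib.Coprime.InvHall
import Cfsg.Agent.Lib.Nilpotent.Fitting

/-!
# Lucido's three primes lemma for solvable groups
-/

set_option autoImplicit false
set_option linter.style.haveILetI false
set_option linter.unusedSectionVars false
set_option linter.style.longLine false
set_option linter.unusedVariables false

namespace Cfsg.Agent.Lib.S3814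

open Cfsg

universe u

/-- Commuting elements of prime orders `p`, `q`. -/
def Edge (K : Type*) [Group K] (p q : ℕ) : Prop :=
  ∃ x y : K, orderOf x = p ∧ orderOf y = q ∧ x * y = y * x

/-- Commuting elements of the same order `t` generating distinct cyclic groups. -/
def Rk2 (K : Type*) [Group K] (t : ℕ) : Prop :=
  ∃ a b : K, orderOf a = t ∧ orderOf b = t ∧ a * b = b * a ∧ b ∉ Subgroup.zpowers a

theorem Edge.symm {K : Type*} [Group K] {p q : ℕ} (h : Edge K p q) : Edge K q p := by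
  obtain ⟨x, y, hx, hy, hxy⟩ := h
  exact ⟨y, x, hy, hx, hxy.symm⟩

theorem edge_of_element {K : Type*} [Group K] [Finite K] {p q : ℕ} (hpq : p ≠ q) (hp : p.Prime)
    (hq : q.Prime) (g : K) (h : p * q ∣ orderOf g) : Edge K p q := by
  have hcop : p.Coprime q := (Nat.coprime_primes hp hq).mpr hpq
  have h0 : orderOf g ≠ 0 := (orderOf_pos g).ne'
  refine ⟨g ^ (orderOf g / p), g ^ (orderOf g / q), ?_, ?_, ?_⟩
  · exact orderOf_pow_orderOf_div h0 (dvd_trans (Dvd.intro _ rfl) h)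
  · exact orderOf_pow_orderOf_div h0 (dvd_trans (Dvd.intro_left _ rfl) h)
  · exact ((Commute.refl g).pow_pow _ _).eq

theorem element_of_edge {K : Type*} [Group K] {p q : ℕ} (hcop : p.Coprime q) (h : Edge K p q) :
    ∃ g : K, orderOf g = p * q := by
  obtain ⟨x, y, hx, hy, hxy⟩ := h
  refine ⟨x * y, ?_⟩
  have hc : Commute x y := hxy
  rw [hc.orderOf_mul_eq_mul_orderOf_of_coprime (by rwa [hx, hy]), hx, hy]

theorem edge_of_quotient {K : Type*} [Group K] [Finite K] (L : Subgroup K) [L.Normal] {p q : ℕ}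
    (hpq : p ≠ q) (hp : p.Prime) (hq : q.Prime) (h : Edge (K ⧸ L) p q) : Edge K p q := by
  have hcop : p.Coprime q := (Nat.coprime_primes hp hq).mpr hpq
  obtain ⟨g, hg⟩ := element_of_edge hcop h
  obtain ⟨g', rfl⟩ := QuotientGroup.mk'_surjective L g
  refine edge_of_element hpq hp hq g' ?_
  rw [← hg]
  exact orderOf_map_dvd _ _

/-- The basic module step: a normal elementary abelian subgroup. -/
theorem t1_module_aux {K V : Type*} [Group K] [Finite K] [Group V] [Finite V]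
    (hc : ∀ x y : V, x * y = y * x) (ρ : K →* MulAut V) {u w : ℕ} (hu : u.Prime) (hw : w.Prime)
    (huw : u ≠ w) (hcop : (Nat.card K).Coprime (Nat.card V)) (W : Subgroup V)
    (hWK : ∀ g : K, ∀ v ∈ W, ρ g v ∈ W) (hW : W ≠ ⊥)
    (X : Subgroup K) (hXn : X.Normal) (hXb : X ≠ ⊥) (hXc : ∀ x ∈ X, ∀ y ∈ X, x * y = y * x)
    (hXe : ∀ x ∈ X, x ^ u = 1) (hwd : w ∣ Nat.card K) :
    (∃ x y : K, orderOf x = u ∧ orderOf y = w ∧ x * y = y * x) ∨
      ∃ g : K, (orderOf g = u ∨ orderOf g = w) ∧ ∃ v ∈ W, v ≠ 1 ∧ ρ g v = v := by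
  classical
  by_contra hcon
  push Not at hcon
  obtain ⟨h1, h2⟩ := hcon
  haveI := Fact.mk hu
  haveI := Fact.mk hw
  obtain ⟨x, hxX, hx1⟩ := (Subgroup.ne_bot_iff_exists_ne_one.mp hXb) |>.imp (fun x hx => hx) |> fun ⟨x, hx⟩ => (⟨x.1, x.2, fun h => hx (Subtype.ext h)⟩ : ∃ x, x ∈ X ∧ x ≠ 1)
  have hordX : ∀ y ∈ X, y ≠ 1 → orderOf y = u := fun y hy hy1 => orderOf_eq_prime (hXe y hy) hy1
  have hxo := hordX x hxX hx1
  -- X is cyclic
  have hXle : X ≤ Subgroup.zpowers x := by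
    intro b hb
    by_contra hbx
    have hb1 : b ≠ 1 := fun h => hbx (h ▸ Subgroup.one_mem _)
    obtain ⟨c, -, hco, v, hv, hv1, hvc⟩ := pprime hc ρ hu (hXc x hxX b hb) hxo (hordX b hb hb1) hbx
      (hcop.coprime_dvd_left (orderOf_dvd_natCard x |> (hxo ▸ ·))) W (hWK x) (hWK b) hW
    exact h2 c (Or.inl hco) v hv hv1 hvc
  have hXeq : X = Subgroup.zpowers x :=
    le_antisymm hXle ((Subgroup.zpowers_le).mpr hxX)
  have hXcard : Nat.card X = u := by rw [hXeq, Nat.card_zpowers, hxo]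
  obtain ⟨z, hz⟩ := exists_prime_orderOf_dvd_card' w hwd
  have key := p2 hc ρ X (by
      intro a ha b hb
      rw [← map_mul, ← map_mul, hXc a ha b hb]) z hw
    (by rw [← map_pow, ← hz, pow_orderOf_eq_one, map_one])
    (by
      intro r hr
      exact hXn.conj_mem r hr z)
    (by rw [hXcard]; exact (Nat.coprime_primes hu hw).mpr huw)
    (by
      apply Nat.Coprime.coprime_dvd_left _ hcop
      exact Subgroup.card_subgroup_dvd_card X)
    W (hWK z) (fun r _ => hWK r)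
    (by
      intro v hv h
      by_contra hv1
      exact h2 z (Or.inr hz) v hv hv1 h)
    x hxX
  set c := z * x * z⁻¹ * x⁻¹ with hcdef
  have hcX : c ∈ X := X.mul_mem (hXn.conj_mem x hxX z) (X.inv_mem hxX)
  by_cases hc1 : c = 1
  · refine h1 x z hxo hz ?_
    have : z * x * z⁻¹ = x := by
      have := mul_inv_eq_one.mp hc1
      exact this
    rw [mul_inv_eq_iff_eq_mul] at this
    exact this.symm
  · have hco := hordX c hcX hc1
    obtain ⟨v, hv, hv1⟩ := (Subgroup.ne_bot_iff_exists_ne_one.mp hW) |> fun ⟨v, hv⟩ => (⟨v.1, v.2, fun h => hv (Subtype.ext h)⟩ : ∃ v, v ∈ W ∧ v ≠ 1)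
    exact h2 c (Or.inl hco) v hv hv1 (key v hv)

/-- `T1_module`. -/
theorem t1_module {K V : Type u} [Group K] [Finite K] [Group.IsSolvable K] [Group V] [Finite V]
    (hc : ∀ x y : V, x * y = y * x) (ρ : K →* MulAut V) {u' w : ℕ} (hu : u'.Prime) (hw : w.Prime)
    (huw : u' ≠ w) (hcop : (Nat.card K).Coprime (Nat.card V)) (W : Subgroup V)
    (hWK : ∀ g : K, ∀ v ∈ W, ρ g v ∈ W) (hW : W ≠ ⊥)
    (hprimes : ∀ q : ℕ, q.Prime → q ∣ Nat.card K → q = u' ∨ q = w)
    (hud : u' ∣ Nat.card K) (hwd : w ∣ Nat.card K) :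
    (∃ x y : K, orderOf x = u' ∧ orderOf y = w ∧ x * y = y * x) ∨
      ∃ g : K, (orderOf g = u' ∨ orderOf g = w) ∧ ∃ v ∈ W, v ≠ 1 ∧ ρ g v = v := by
  haveI : Nontrivial K := by
    apply (Finite.one_lt_card_iff_nontrivial).mp
    have := hu.one_lt
    have h0 : 0 < Nat.card K := Nat.card_pos
    have := Nat.le_of_dvd h0 hud
    omega
  obtain ⟨ℓ, X, hℓ, hXn, hXb, hXp, hXc, hXe⟩ :=
    Cfsg.Agent.Lib.Solvable.Hall.exists_normal_abelian_pSubgroup K
  have hXc' : ∀ x ∈ X, ∀ y ∈ X, x * y = y * x := by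
    intro x hx y hy
    have := mul_comm' (⟨x, hx⟩ : X) ⟨y, hy⟩
    exact congrArg Subtype.val this
  have hℓd : ℓ ∣ Nat.card K := by
    obtain ⟨x, hx⟩ := Subgroup.ne_bot_iff_exists_ne_one.mp hXb
    have hx1 : x.1 ≠ 1 := fun h => hx (Subtype.ext h)
    haveI := Fact.mk hℓ
    have : orderOf x.1 = ℓ := orderOf_eq_prime (hXe x.1 x.2) hx1
    rw [← this]
    exact orderOf_dvd_natCard x.1
  rcases hprimes ℓ hℓ hℓd with rfl | rfl
  · exact t1_module_aux hc ρ hu hw huw hcop W hWK hW X hXn hXb hXc' hXe hwd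
  · rcases t1_module_aux hc ρ hw hu huw.symm hcop W hWK hW X hXn hXb hXc' hXe hud with
      ⟨x, y, hx, hy, hxy⟩ | ⟨g, hg, h⟩
    · exact Or.inl ⟨y, x, hy, hx, hxy.symm⟩
    · exact Or.inr ⟨g, hg.symm, h⟩

/-- A Hall subgroup in handy form. -/
theorem exists_hall_sub {X : Type u} [Group X] [Finite X] (π : Set ℕ) (M : Subgroup X)
    (hM : Group.IsSolvable M) :
    ∃ K : Subgroup X, K ≤ M ∧ (∀ p : ℕ, p.Prime → p ∣ Nat.card K → p ∈ π) ∧
      ∀ p : ℕ, p.Prime → p ∈ π → p ∣ Nat.card M → p ∣ Nat.card K := by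
  obtain ⟨K, hK⟩ := Cfsg.Agent.Lib.Coprime.InvHall.exists_hall π M hM
  refine ⟨K, hK.1, hK.2.1, fun p hp hπ hd => ?_⟩
  have h1 := Cfsg.Agent.Lib.Coprime.InvHall.card_mul_relIndex hK.1
  rw [← h1] at hd
  rcases (Nat.Prime.dvd_mul hp).mp hd with h | h
  · exact h
  · exact absurd h (hK.2.2 p hp hπ)

theorem edge_subgroup {K : Type*} [Group K] {p q : ℕ} (S : Subgroup K) (h : Edge S p q) : Edge K p q := by
  obtain ⟨x, y, hx, hy, hxy⟩ := h
  exact ⟨x.1, y.1, by rw [Subgroup.orderOf_coe]; exact hx, by rw [Subgroup.orderOf_coe]; exact hy,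
    congrArg Subtype.val hxy⟩

theorem t1_step {K : Type u} [Group K] [Finite K] [Group.IsSolvable K] (L : Subgroup K) [L.Normal]
    {ℓ : ℕ} (hℓ : ℓ.Prime) (hLp : IsPGroup ℓ L) (hLc : IsMulCommutative L) (hLe : ∀ x ∈ L, x ^ ℓ = 1)
    {a b c : ℕ} (ha : a.Prime) (hb : b.Prime) (hc : c.Prime) (hab : a ≠ b) (hac : a ≠ c) (hbc : b ≠ c)
    (had : a ∣ Nat.card K) (hbd : b ∣ Nat.card K) (hcd : c ∣ Nat.card K)
    (hnd : ¬ a ∣ Nat.card (K ⧸ L)) : Edge K b c ∨ Edge K a b ∨ Edge K a c := by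
  classical
  have hsplit : Nat.card K = Nat.card (K ⧸ L) * Nat.card L := by
    rw [mul_comm]; exact Subgroup.card_eq_card_quotient_mul_card_subgroup L |>.trans (by ring)
  have haL : a ∣ Nat.card L := by
    rw [hsplit] at had
    exact ((Nat.Prime.dvd_mul ha).mp had).resolve_left hnd
  haveI := Fact.mk hℓ
  have haℓ : a = ℓ := by
    obtain ⟨k, hk⟩ := IsPGroup.iff_card.mp hLp
    rw [hk] at haL
    exact (Nat.prime_dvd_prime_iff_eq ha hℓ).mp (ha.dvd_of_dvd_pow haL)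
  subst haℓ
  haveI : Group.IsSolvable (⊤ : Subgroup K) := by infer_instance
  obtain ⟨K₀, -, hK₀, hK₀d⟩ := exists_hall_sub ({b, c} : Set ℕ) (⊤ : Subgroup K) inferInstance
  have hcardtop : Nat.card (⊤ : Subgroup K) = Nat.card K := Nat.card_congr Subgroup.topEquiv.toEquiv
  haveI : Group.IsSolvable K₀ := inferInstance
  let ρ : K₀ →* MulAut L := (MulAut.conjNormal (H := L)).comp K₀.subtype
  have hρ : ∀ (g : K₀) (v : L), ((ρ g v : L) : K) = g.1 * v.1 * g.1⁻¹ := fun g v => by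
    simp [ρ]
  have hcm : ∀ x y : L, x * y = y * x := fun x y => mul_comm' x y
  have hcop : (Nat.card K₀).Coprime (Nat.card L) := by
    haveI := Fact.mk ha
    obtain ⟨k, hk⟩ := IsPGroup.iff_card.mp hLp
    rw [hk]
    apply Nat.Coprime.pow_right
    apply Nat.Coprime.symm
    apply (Nat.Prime.coprime_iff_not_dvd ha).mpr
    intro h
    rcases hK₀ a ha h with h | h
    · exact hab h
    · exact hac h
  have hLbot : (⊤ : Subgroup L) ≠ ⊥ := by
    haveI := Fact.mk ha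
    intro h
    have hd : a ∣ Nat.card L := haL
    obtain ⟨x, hx⟩ := exists_prime_orderOf_dvd_card' a hd
    have : x ∈ (⊥ : Subgroup L) := h ▸ Subgroup.mem_top x
    rw [Subgroup.mem_bot.mp this] at hx
    simp at hx
    exact ha.one_lt.ne hx
  rcases t1_module hcm ρ hb hc hbc hcop ⊤ (fun _ _ _ => trivial) hLbot
    (by
      intro q hq hd
      rcases hK₀ q hq hd with h | h
      · exact Or.inl h
      · exact Or.inr h)
    (hK₀d b hb (by simp) (by rwa [hcardtop]))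
    (hK₀d c hc (by simp) (by rwa [hcardtop])) with
    ⟨x, y, hx, hy, hxy⟩ | ⟨g, hg, v, -, hv1, hv⟩
  · exact Or.inl (edge_subgroup K₀ ⟨x, y, hx, hy, hxy⟩)
  · haveI := Fact.mk ha
    have hvo : orderOf v.1 = a := orderOf_eq_prime (hLe v.1 v.2) (fun h => hv1 (Subtype.ext h))
    have hcomm : v.1 * g.1 = g.1 * v.1 := by
      have h := congrArg Subtype.val hv
      rw [hρ] at h
      exact (mul_inv_eq_iff_eq_mul.mp h).symm
    rcases hg with hg | hg
    · exact Or.inr (Or.inl ⟨v.1, g.1, hvo, by rw [Subgroup.orderOf_coe]; exact hg, hcomm⟩)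
    · exact Or.inr (Or.inr ⟨v.1, g.1, hvo, by rw [Subgroup.orderOf_coe]; exact hg, hcomm⟩)

/-- Lucido's three primes lemma. -/
theorem t1 : ∀ (n : ℕ) {K : Type u} [Group K] [Finite K] [Group.IsSolvable K], Nat.card K = n →
    ∀ {q r s : ℕ}, q.Prime → r.Prime → s.Prime → q ≠ r → q ≠ s → r ≠ s →
      q ∣ Nat.card K → r ∣ Nat.card K → s ∣ Nat.card K →
      Edge K q r ∨ Edge K q s ∨ Edge K r s := by
  intro n
  induction n using Nat.strong_induction_on with
  | _ n ih =>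
  intro K _ _ _ hn q r s hq hr hs hqr hqs hrs hqd hrd hsd
  haveI : Nontrivial K := by
    apply (Finite.one_lt_card_iff_nontrivial).mp
    have := hq.one_lt
    have h0 : 0 < Nat.card K := Nat.card_pos
    have := Nat.le_of_dvd h0 hqd
    omega
  obtain ⟨ℓ, L, hℓ, hLn, hLb, hLp, hLc, hLe⟩ :=
    Cfsg.Agent.Lib.Solvable.Hall.exists_normal_abelian_pSubgroup K
  haveI := hLn
  by_cases h1 : q ∣ Nat.card (K ⧸ L)
  · by_cases h2 : r ∣ Nat.card (K ⧸ L)
    · by_cases h3 : s ∣ Nat.card (K ⧸ L)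
      · have hlt : Nat.card (K ⧸ L) < n := by
          rw [← hn]
          exact Cfsg.Agent.Lib.Solvable.MinimalNormal.card_quotient_lt L hLb
        rcases ih _ hlt rfl hq hr hs hqr hqs hrs h1 h2 h3 with h | h | h
        · exact Or.inl (edge_of_quotient L hqr hq hr h)
        · exact Or.inr (Or.inl (edge_of_quotient L hqs hq hs h))
        · exact Or.inr (Or.inr (edge_of_quotient L hrs hr hs h))
      · rcases t1_step L hℓ hLp hLc hLe hs hq hr hqs.symm hrs.symm hqr hsd hqd hrd h3 with h | h | h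
        · exact Or.inl h
        · exact Or.inr (Or.inl h.symm)
        · exact Or.inr (Or.inr h.symm)
    · rcases t1_step L hℓ hLp hLc hLe hr hq hs hqr.symm hrs hqs hrd hqd hsd h2 with h | h | h
      · exact Or.inr (Or.inl h)
      · exact Or.inl h.symm
      · exact Or.inr (Or.inr h)
  · rcases t1_step L hℓ hLp hLc hLe hq hr hs hqr hqs hrs hqd hrd hsd h1 with h | h | h
    · exact Or.inr (Or.inr h)
    · exact Or.inl h
    · exact Or.inr (Or.inl h)

end Cfsg.Agent.Lib.S3814
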