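import Mathlib
import Cfsg.Agent.Lib.S3814.Lucido
import Cfsg.Agent.Lib.PGroup.CyclicMax2
import Cfsg.Agent.Lib.Basic.SylowUtil
import Cfsg.Agent.Lib.Coprime.Three

/-!
# Elementary facts for the four primes theorem
-/

set_option autoImplicit false
set_option linter.style.haveILetI false
set_option linter.unusedSectionVars false
set_option linter.style.longLine false
set_option linter.unusedVariables false

namespace Cfsg.Agent.Lib.S3814

open Cfsg

universe u

section elem

variable {K : Type*} [Group K]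

theorem mem_cz {g x : K} : g ∈ Subgroup.centralizer ({x} : Set K) ↔ g * x = x * g :=
  Subgroup.mem_centralizer_singleton_iff

theorem commute_of_mem_zpowers {g x y : K} (hy : y ∈ Subgroup.zpowers x) (h : g * x = x * g) :
    g * y = y * g := by
  have hle : Subgroup.zpowers x ≤ Subgroup.centralizer ({g} : Set K) := by
    rw [Subgroup.zpowers_le]
    exact mem_cz.mpr h.symm
  exact (mem_cz.mp (hle hy)).symm

/-- A nontrivial element of a cyclic group of prime order generates it. -/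
theorem mem_zpowers_of_prime {r c : K} {t : ℕ} (ht : t.Prime) (hr : orderOf r = t)
    (hc : c ∈ Subgroup.zpowers r) (hc1 : c ≠ 1) : r ∈ Subgroup.zpowers c := by
  haveI := Fact.mk ht
  obtain ⟨k, rfl⟩ := Subgroup.mem_zpowers_iff.mp hc
  have hr1 : r ^ t = 1 := hr ▸ pow_orderOf_eq_one r
  obtain ⟨m, hm⟩ : ∃ m : ℕ, r ^ k = r ^ m := by
    refine ⟨(k % t).toNat, ?_⟩
    have hpos : (0 : ℤ) ≤ k % t := Int.emod_nonneg _ (by exact_mod_cast ht.ne_zero)
    have h1 : r ^ k = r ^ (k % (t : ℤ)) := by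
      conv_lhs => rw [← Int.mul_ediv_add_emod k t, zpow_add, zpow_mul]
      simp [hr1]
    rw [h1]
    rw [← zpow_natCast, Int.toNat_of_nonneg hpos]
  rw [hm] at hc1 ⊢
  have hnd : m.Coprime t := by
    rw [Nat.coprime_comm]
    refine (Nat.Prime.coprime_iff_not_dvd ht).mpr (fun hd => hc1 ?_)
    obtain ⟨e, rfl⟩ := hd
    rw [pow_mul, hr1, one_pow]
  obtain ⟨e, he⟩ := exists_pow_pow_eq ht.one_lt hr1 hnd
  have h9 : (r ^ m) ^ e ∈ Subgroup.zpowers (r ^ m) := Subgroup.pow_mem _ (Subgroup.mem_zpowers _) e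
  rwa [he] at h9

theorem pow_ne_one_order_prime [Finite K] {x : K} {p : ℕ} (hp : p.Prime) (hx : p ∣ orderOf x) :
    orderOf (x ^ (orderOf x / p)) = p :=
  orderOf_pow_orderOf_div (orderOf_pos x).ne' hx

/-- A nontrivial element of a `p`-subgroup has a power of order `p`. -/
theorem exists_pow_order [Finite K] {P : Subgroup K} {p : ℕ} (hp : p.Prime) (hP : IsPGroup p P)
    {x : K} (hx : x ∈ P) (hx1 : x ≠ 1) : ∃ m : ℕ, orderOf (x ^ m) = p := by
  haveI := Fact.mk hp
  obtain ⟨k, hk⟩ := (IsPGroup.iff_orderOf.mp hP) ⟨x, hx⟩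
  rw [Subgroup.orderOf_mk] at hk
  have hd : p ∣ orderOf x := by
    rw [hk]
    apply dvd_pow_self
    rintro rfl
    apply hx1
    rw [pow_zero] at hk
    exact orderOf_eq_one_iff.mp hk
  exact ⟨_, pow_ne_one_order_prime hp hd⟩

/-- Same, but the power stays in any subgroup containing the element. -/
theorem exists_mem_order [Finite K] {P : Subgroup K} {p : ℕ} (hp : p.Prime) (hP : IsPGroup p P)
    {x : K} (hx : x ∈ P) (hx1 : x ≠ 1) : ∃ y ∈ Subgroup.zpowers x, orderOf y = p ∧ y ∈ P := by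
  obtain ⟨m, hm⟩ := exists_pow_order hp hP hx hx1
  exact ⟨x ^ m, Subgroup.pow_mem _ (Subgroup.mem_zpowers x) m, hm, P.pow_mem hx m⟩

/-- A `t`-element normalizing a cyclic subgroup of order `t` centralizes it. -/
theorem commute_of_normalize_prime {r a : K} {t k : ℕ} (ht : t.Prime) (hr : orderOf r = t)
    (ha : a ^ (t ^ k) = 1) (hn : a * r * a⁻¹ ∈ Subgroup.zpowers r) : a * r = r * a := by
  haveI := Fact.mk ht
  have hr1 : r ^ t = 1 := hr ▸ pow_orderOf_eq_one r
  obtain ⟨e, he⟩ := Subgroup.mem_zpowers_iff.mp hn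
  -- conjugation by powers of `a`
  have hpow : ∀ j : ℕ, a ^ j * r * (a ^ j)⁻¹ = r ^ (e ^ j) := by
    intro j
    induction j with
    | zero => simp
    | succ j ih =>
      have hz : a * r ^ (e ^ j) * a⁻¹ = (a * r * a⁻¹) ^ (e ^ j) := by
        rw [conj_zpow]
      calc a ^ (j + 1) * r * (a ^ (j + 1))⁻¹ = a * (a ^ j * r * (a ^ j)⁻¹) * a⁻¹ := by
            rw [pow_succ']; group
        _ = a * r ^ (e ^ j) * a⁻¹ := by rw [ih]
        _ = (a * r * a⁻¹) ^ (e ^ j) := hz
        _ = (r ^ e) ^ (e ^ j) := by rw [he]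
        _ = r ^ (e ^ (j + 1)) := by rw [← zpow_mul, pow_succ']
  have h1 : r ^ (e ^ (t ^ k)) = r := by
    rw [← hpow, ha]; simp
  have h2 : (t : ℤ) ∣ e ^ (t ^ k) - 1 := by
    have : orderOf r ∣ (e ^ (t ^ k) - 1 : ℤ).toNat ∨ True := Or.inr trivial
    have h3 : r ^ (e ^ (t ^ k) - 1) = 1 := by
      rw [zpow_sub, h1]; simp
    have := orderOf_dvd_iff_zpow_eq_one.mpr h3
    rwa [hr] at this
  have h3 : (t : ℤ) ∣ e - 1 := by
    have h4 : ((e : ZMod t)) ^ (t ^ k) = 1 := by
      have := (ZMod.intCast_zmod_eq_zero_iff_dvd (e ^ (t ^ k) - 1) t).mpr h2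
      push_cast at this
      exact sub_eq_zero.mp this
    have h5 : (e : ZMod t) = 1 := by
      have := ZMod.pow_card_pow (p := t) (n := k) (x := (e : ZMod t))
      rw [this] at h4
      exact h4
    have := (ZMod.intCast_zmod_eq_zero_iff_dvd (e - 1) t).mp (by push_cast; rw [h5]; simp)
    exact this
  obtain ⟨c, hc⟩ := h3
  have h6 : e = 1 + t * c := by linarith
  have h7 : a * r * a⁻¹ = r := by
    rw [← he, h6, zpow_add, zpow_mul]
    simp [hr1]
  exact mul_inv_eq_iff_eq_mul.mp h7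

/-- An element of prime order `w` moving an element of prime order `u` while normalizing
its cyclic group forces `w ∣ u - 1`. -/
theorem dvd_sub_one_of_moves {y z : K} {u w : ℕ} (hu : u.Prime) (hw : w.Prime) (hy : orderOf y = u)
    (hz : z ^ w = 1) (hn : z * y * z⁻¹ ∈ Subgroup.zpowers y) (hm : z * y ≠ y * z) : w ∣ u - 1 := by
  haveI := Fact.mk hu
  have hr1 : y ^ u = 1 := hy ▸ pow_orderOf_eq_one y
  obtain ⟨e, he⟩ := Subgroup.mem_zpowers_iff.mp hn
  have hpow : ∀ j : ℕ, z ^ j * y * (z ^ j)⁻¹ = y ^ (e ^ j) := by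
    intro j
    induction j with
    | zero => simp
    | succ j ih =>
      calc z ^ (j + 1) * y * (z ^ (j + 1))⁻¹ = z * (z ^ j * y * (z ^ j)⁻¹) * z⁻¹ := by
            rw [pow_succ']; group
        _ = z * y ^ (e ^ j) * z⁻¹ := by rw [ih]
        _ = (z * y * z⁻¹) ^ (e ^ j) := by rw [conj_zpow]
        _ = (y ^ e) ^ (e ^ j) := by rw [he]
        _ = y ^ (e ^ (j + 1)) := by rw [← zpow_mul, pow_succ']
  have h1 : y ^ (e ^ w) = y := by
    rw [← hpow, hz]; simp
  have h2 : (u : ℤ) ∣ e ^ w - 1 := by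
    have h3 : y ^ (e ^ w - 1) = 1 := by
      rw [zpow_sub, h1]; simp
    have := orderOf_dvd_iff_zpow_eq_one.mpr h3
    rwa [hy] at this
  have h4 : ((e : ZMod u)) ^ w = 1 := by
    have := (ZMod.intCast_zmod_eq_zero_iff_dvd (e ^ w - 1) u).mpr h2
    push_cast at this
    exact sub_eq_zero.mp this
  have he1 : (e : ZMod u) ≠ 1 := by
    intro h5
    have h6 := (ZMod.intCast_zmod_eq_zero_iff_dvd (e - 1) u).mp (by push_cast; rw [h5]; simp)
    obtain ⟨c, hc⟩ := h6
    have h7 : e = 1 + u * c := by linarith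
    apply hm
    have h8 : z * y * z⁻¹ = y := by
      rw [← he, h7, zpow_add, zpow_mul]
      simp [hr1]
    exact mul_inv_eq_iff_eq_mul.mp h8
  have h0 : (e : ZMod u) ≠ 0 := by
    intro h5
    rw [h5, zero_pow hw.ne_zero] at h4
    exact zero_ne_one h4
  let a : (ZMod u)ˣ := Units.mk0 _ h0
  have ha : a ^ w = 1 := by
    ext
    simpa [a] using h4
  have ha1 : a ≠ 1 := by
    intro h
    apply he1
    have := congrArg Units.val h
    simpa [a] using this
  haveI := Fact.mk hw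
  have ho : orderOf a = w := orderOf_eq_prime ha ha1
  rw [← ho]
  have := ZMod.card_units u
  rw [← this, ← Nat.card_eq_fintype_card]
  exact orderOf_dvd_natCard a

/-- Commuting elements with `x ^ t = 1` generate a group of exponent `t` which is abelian. -/
theorem closure_pair {a b : K} {t : ℕ} (hab : a * b = b * a) (ha : a ^ t = 1) (hb : b ^ t = 1) :
    (∀ x ∈ Subgroup.closure ({a, b} : Set K), ∀ y ∈ Subgroup.closure ({a, b} : Set K), x * y = y * x) ∧
      ∀ x ∈ Subgroup.closure ({a, b} : Set K), x ^ t = 1 := by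
  have hS : ∀ x ∈ ({a, b} : Set K), ∀ y ∈ ({a, b} : Set K), x * y = y * x := by
    rintro x (rfl | rfl) y (rfl | rfl)
    · rfl
    · exact hab
    · exact hab.symm
    · rfl
  have hc : ∀ x ∈ Subgroup.closure ({a, b} : Set K), ∀ y ∈ Subgroup.closure ({a, b} : Set K), x * y = y * x := by
    intro x hx
    have h1 : Subgroup.closure ({a, b} : Set K) ≤ Subgroup.centralizer (Subgroup.closure ({a, b} : Set K) : Set K) := by
      rw [Subgroup.closure_le]
      intro s hs
      rw [SetLike.mem_coe, Subgroup.mem_centralizer_iff]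
      intro h hh
      have h2 : Subgroup.closure ({a, b} : Set K) ≤ Subgroup.centralizer ({s} : Set K) := by
        rw [Subgroup.closure_le]
        intro s' hs'
        exact mem_cz.mpr (hS s' hs' s hs)
      exact (mem_cz.mp (h2 hh))
    intro y hy
    have := Subgroup.mem_centralizer_iff.mp (h1 hx) y hy
    exact this.symm
  refine ⟨hc, ?_⟩
  intro x hx
  induction hx using Subgroup.closure_induction with
  | mem x hx =>
    rcases hx with rfl | rfl
    · exact ha
    · exact hb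
  | one => simp
  | mul x y hx hy h1 h2 =>
    have hcm : Commute x y := hc x hx y hy
    rw [hcm.mul_pow, h1, h2, one_mul]
  | inv x hx h1 => rw [inv_pow, h1, inv_one]

/-- Pairwise commuting elements of exponent `t`. -/
theorem closure_comm_exp {S : Set K} {t : ℕ} (hS : ∀ x ∈ S, ∀ y ∈ S, x * y = y * x) (he : ∀ x ∈ S, x ^ t = 1) :
    (∀ x ∈ Subgroup.closure S, ∀ y ∈ Subgroup.closure S, x * y = y * x) ∧
      ∀ x ∈ Subgroup.closure S, x ^ t = 1 := by
  have hc : ∀ x ∈ Subgroup.closure S, ∀ y ∈ Subgroup.closure S, x * y = y * x := by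
    intro x hx
    have h1 : Subgroup.closure S ≤ Subgroup.centralizer (Subgroup.closure S : Set K) := by
      rw [Subgroup.closure_le]
      intro s hs
      rw [SetLike.mem_coe, Subgroup.mem_centralizer_iff]
      intro h hh
      have h2 : Subgroup.closure S ≤ Subgroup.centralizer ({s} : Set K) := by
        rw [Subgroup.closure_le]
        intro s' hs'
        exact mem_cz.mpr (hS s' hs' s hs)
      exact (mem_cz.mp (h2 hh))
    intro y hy
    have := Subgroup.mem_centralizer_iff.mp (h1 hx) y hy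
    exact this.symm
  refine ⟨hc, ?_⟩
  intro x hx
  induction hx using Subgroup.closure_induction with
  | mem x hx => exact he x hx
  | one => simp
  | mul x y hx hy h1 h2 =>
    have hcm : Commute x y := hc x hx y hy
    rw [hcm.mul_pow, h1, h2, one_mul]
  | inv x hx h1 => rw [inv_pow, h1, inv_one]

theorem sup_comm_exp (B C : Subgroup K) {t : ℕ} (hB : ∀ x ∈ B, ∀ y ∈ B, x * y = y * x)
    (hC : ∀ x ∈ C, ∀ y ∈ C, x * y = y * x) (hBC : ∀ x ∈ B, ∀ y ∈ C, x * y = y * x)
    (he : ∀ x ∈ B, x ^ t = 1) (he' : ∀ x ∈ C, x ^ t = 1) :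
    (∀ x ∈ B ⊔ C, ∀ y ∈ B ⊔ C, x * y = y * x) ∧ ∀ x ∈ B ⊔ C, x ^ t = 1 := by
  have h := Subgroup.closure_union (B : Set K) (C : Set K)
  rw [Subgroup.closure_eq, Subgroup.closure_eq] at h
  rw [← h]
  apply closure_comm_exp
  · rintro x (hx | hx) y (hy | hy)
    · exact hB x hx y hy
    · exact hBC x hx y hy
    · exact (hBC y hy x hx).symm
    · exact hC x hx y hy
  · rintro x (hx | hx)
    · exact he x hx
    · exact he' x hx

/-- A `t`-subgroup all of whose elements of order `t` lie in one cyclic group of order `t` is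
cyclic, for odd `t`. -/
theorem cyc_of_unique [Finite K] (P : Subgroup K) {t : ℕ} (ht : t.Prime) (hP : IsPGroup t P) (ht2 : t ≠ 2)
    {r : K} (hr : orderOf r = t) (h : ∀ x ∈ P, orderOf x = t → x ∈ Subgroup.zpowers r) : IsCyclic P := by
  haveI := Fact.mk ht
  have hu : Cfsg.Agent.Lib.PGroup.CyclicMax2.UniqueP t P := by
    intro y z hy hz hy1 hz1
    have hyo : orderOf y = t := orderOf_eq_prime hy hy1
    have hzo : orderOf z = t := orderOf_eq_prime hz hz1
    have hy2 := h y.1 y.2 (by rw [Subgroup.orderOf_coe]; exact hyo)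
    have hz2 := h z.1 z.2 (by rw [Subgroup.orderOf_coe]; exact hzo)
    have hz3 : r ∈ Subgroup.zpowers z.1 := mem_zpowers_of_prime ht hr hz2 (fun h3 => hz1 (Subtype.ext h3))
    have hy3 : y.1 ∈ Subgroup.zpowers z.1 := (Subgroup.zpowers_le.mpr hz3) hy2
    obtain ⟨k, hk⟩ := Subgroup.mem_zpowers_iff.mp hy3
    exact Subgroup.mem_zpowers_iff.mpr ⟨k, Subtype.ext (by simpa using hk)⟩
  rcases Cfsg.Agent.Lib.PGroup.CyclicMax2.cyclic_or_quaternion hP hu with h1 | h1
  · exact h1
  · exact absurd h1.1 ht2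

theorem comm_of_unique [Finite K] (P : Subgroup K) {t : ℕ} (ht : t.Prime) (hP : IsPGroup t P) (ht2 : t ≠ 2)
    {r : K} (hr : orderOf r = t) (h : ∀ x ∈ P, orderOf x = t → x ∈ Subgroup.zpowers r) :
    ∀ x ∈ P, ∀ y ∈ P, x * y = y * x := by
  haveI := cyc_of_unique P ht hP ht2 hr h
  intro x hx y hy
  letI : CommGroup P := IsCyclic.commGroup
  have := mul_comm (⟨x, hx⟩ : P) ⟨y, hy⟩
  exact congrArg Subtype.val this

/-- A nonabelian `p`-group has an element of class two outside the centre. -/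
theorem exists_second_center {P : Type*} [Group P] [Finite P] {t : ℕ} [Fact t.Prime] (hP : IsPGroup t P)
    (hnc : ∃ a b : P, a * b ≠ b * a) :
    ∃ e : P, e ∉ Subgroup.center P ∧ ∀ g, e * g * e⁻¹ * g⁻¹ ∈ Subgroup.center P := by
  classical
  have hQ : IsPGroup t (P ⧸ Subgroup.center P) := hP.to_quotient _
  haveI : Nontrivial (P ⧸ Subgroup.center P) := by
    by_contra hcon
    rw [not_nontrivial_iff_subsingleton] at hcon
    obtain ⟨a, b, hab⟩ := hnc
    apply hab
    have h1 : (a : P ⧸ Subgroup.center P) = 1 := Subsingleton.elim _ _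
    have h2 : a ∈ Subgroup.center P := (QuotientGroup.eq_one_iff a).mp h1
    exact (Subgroup.mem_center_iff.mp h2 b).symm
  haveI := hQ.center_nontrivial
  obtain ⟨c, hc⟩ := exists_ne (1 : Subgroup.center (P ⧸ Subgroup.center P))
  obtain ⟨e, he⟩ := QuotientGroup.mk'_surjective (Subgroup.center P) c.1
  have he' : (e : P ⧸ Subgroup.center P) = c.1 := he
  refine ⟨e, ?_, ?_⟩
  · intro h
    apply hc
    apply Subtype.ext
    rw [← he']
    exact (QuotientGroup.eq_one_iff e).mpr h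
  · intro g
    have h1 := Subgroup.mem_center_iff.mp c.2 (g : P ⧸ Subgroup.center P)
    rw [← he'] at h1
    have h2 : ((e * g * e⁻¹ * g⁻¹ : P) : P ⧸ Subgroup.center P) = 1 := by
      rw [QuotientGroup.mk_mul, QuotientGroup.mk_mul, QuotientGroup.mk_mul, QuotientGroup.mk_inv, QuotientGroup.mk_inv, ← h1]
      group
    exact (QuotientGroup.eq_one_iff _).mp h2

/-- The commutator of two elements centralizes a cyclic normal subgroup. -/
theorem comm_centralizes_cyclic [Finite K] (Q : Subgroup K) (hQn : Q.Normal) (hc : IsCyclic Q) (g g' : K) :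
    ∀ x ∈ Q, (g * g' * g⁻¹ * g'⁻¹) * x = x * (g * g' * g⁻¹ * g'⁻¹) := by
  obtain ⟨q, hq⟩ := hc
  have hgen : ∀ x ∈ Q, ∃ k : ℤ, q.1 ^ k = x := by
    intro x hx
    obtain ⟨k, hk⟩ := Subgroup.mem_zpowers_iff.mp (hq ⟨x, hx⟩)
    exact ⟨k, by simpa using congrArg Subtype.val hk⟩
  obtain ⟨m, hm⟩ := hgen _ (hQn.conj_mem q.1 q.2 g)
  obtain ⟨n, hn⟩ := hgen _ (hQn.conj_mem q.1 q.2 g')
  have hkey : ∀ x ∈ Q, (g * g') * x * (g * g')⁻¹ = (g' * g) * x * (g' * g)⁻¹ := by
    intro x hx
    obtain ⟨i, rfl⟩ := hgen x hx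
    have h1 : ∀ h : K, ∀ e : ℤ, h * q.1 ^ e * h⁻¹ = (h * q.1 * h⁻¹) ^ e := fun h e => conj_zpow.symm
    have h2 : (g * g') * q.1 ^ i * (g * g')⁻¹ = g * (g' * q.1 ^ i * g'⁻¹) * g⁻¹ := by group
    have h3 : (g' * g) * q.1 ^ i * (g' * g)⁻¹ = g' * (g * q.1 ^ i * g⁻¹) * g'⁻¹ := by group
    rw [h2, h3, h1 g' i, h1 g i, ← hm, ← hn, ← zpow_mul, ← zpow_mul, h1 g (n * i), h1 g' (m * i), ← hm, ← hn,
      ← zpow_mul, ← zpow_mul]
    congr 1
    ring
  intro x hx
  have hx1 : (g' * g)⁻¹ * x * (g' * g) ∈ Q := by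
    have := hQn.conj_mem x hx (g' * g)⁻¹
    simpa using this
  have h4 := hkey _ hx1
  have h5 : (g' * g) * ((g' * g)⁻¹ * x * (g' * g)) * (g' * g)⁻¹ = x := by group
  rw [h5] at h4
  calc (g * g' * g⁻¹ * g'⁻¹) * x
      = ((g * g') * ((g' * g)⁻¹ * x * (g' * g)) * (g * g')⁻¹) * (g * g' * g⁻¹ * g'⁻¹) := by group
    _ = x * (g * g' * g⁻¹ * g'⁻¹) := by rw [h4]

theorem closure_pair_isPGroup {a b : K} {t : ℕ} (hab : a * b = b * a) (ha : a ^ t = 1) (hb : b ^ t = 1) :
    IsPGroup t (Subgroup.closure ({a, b} : Set K)) := by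
  intro x
  refine ⟨1, ?_⟩
  apply Subtype.ext
  simpa using (closure_pair hab ha hb).2 x.1 x.2

/-- A commuting pair in a subgroup from two elements generating different cyclic groups. -/
theorem exists_comm_pair [Finite K] (P : Subgroup K) {p : ℕ} (hp : p.Prime) (hP : IsPGroup p P) {y z : K}
    (hy : y ∈ P) (hz : z ∈ P) (hyo : orderOf y = p) (hzo : orderOf z = p)
    (hyz : y ∉ Subgroup.zpowers z) :
    ∃ a b : K, a ∈ P ∧ b ∈ P ∧ orderOf a = p ∧ orderOf b = p ∧ a * b = b * a ∧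
      b ∉ Subgroup.zpowers a := by
  classical
  haveI := Fact.mk hp
  have hnu : ¬ Cfsg.Agent.Lib.PGroup.CyclicMax2.UniqueP p P := by
    intro h
    have := h ⟨y, hy⟩ ⟨z, hz⟩ (Subtype.ext (by simpa [hyo] using hyo ▸ pow_orderOf_eq_one y))
      (Subtype.ext (by simpa [hzo] using hzo ▸ pow_orderOf_eq_one z))
      (fun h1 => by
        have h2 : y = 1 := congrArg Subtype.val h1
        rw [h2] at hyo
        simp at hyo
        exact hp.one_lt.ne hyo)
      (fun h1 => by
        have h2 : z = 1 := congrArg Subtype.val h1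
        rw [h2] at hzo
        simp at hzo
        exact hp.one_lt.ne hzo)
    apply hyz
    obtain ⟨k, hk⟩ := Subgroup.mem_zpowers_iff.mp this
    exact Subgroup.mem_zpowers_iff.mpr ⟨k, by simpa using congrArg Subtype.val hk⟩
  obtain ⟨E, hEc, hEe⟩ := Cfsg.Agent.Lib.PGroup.CyclicMax2.exists_order_sq_of_not_uniqueP hP hnu
  obtain ⟨hE1, hE2'⟩ := hEe
  have hE2 : ∀ x : E, x ^ p = 1 := fun x => Subtype.ext (hE2' x.1 x.2)
  haveI : IsMulCommutative E := hE1
  haveI : Nontrivial E := by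
    apply (Finite.one_lt_card_iff_nontrivial).mp
    rw [hEc]
    have := hp.two_le
    nlinarith
  obtain ⟨a, ha1⟩ := exists_ne (1 : E)
  have haE : ∀ x : E, x ≠ 1 → orderOf ((x : P) : K) = p := by
    intro x hx
    rw [Subgroup.orderOf_coe, Subgroup.orderOf_coe]
    exact orderOf_eq_prime (hE2 x) hx
  -- the cyclic group generated by `a` is proper
  have hle : Subgroup.zpowers a ≠ ⊤ := by
    intro h
    have h1 : Nat.card (Subgroup.zpowers a) = p := by
      rw [Nat.card_zpowers, orderOf_eq_prime (hE2 a) ha1]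
    rw [h, Subgroup.card_top, hEc] at h1
    have := hp.two_le
    nlinarith
  obtain ⟨b, hb⟩ : ∃ b : E, b ∉ Subgroup.zpowers a := by
    by_contra hcon
    push Not at hcon
    exact hle (eq_top_iff.mpr fun b _ => hcon b)
  have hb1 : b ≠ 1 := fun h => hb (h ▸ Subgroup.one_mem _)
  refine ⟨((a : P) : K), ((b : P) : K), a.1.2, b.1.2, haE a ha1, haE b hb1, ?_, ?_⟩
  · have := mul_comm' a b
    have h2 := congrArg (fun x : E => ((x : P) : K)) this
    simpa using h2
  · intro h
    apply hb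
    obtain ⟨k, hk⟩ := Subgroup.mem_zpowers_iff.mp h
    refine Subgroup.mem_zpowers_iff.mpr ⟨k, ?_⟩
    apply Subtype.ext
    apply Subtype.ext
    simpa using hk

/-- Central order-`p` elementary abelian normal subgroup inside a normal `p`-subgroup. -/
theorem exists_elem_normal [Finite K] (N : Subgroup K) (hNn : N.Normal) {p : ℕ} (hp : p.Prime)
    (hN : IsPGroup p N) (hb : N ≠ ⊥) :
    ∃ A : Subgroup K, A ≤ N ∧ A.Normal ∧ A ≠ ⊥ ∧ (∀ x ∈ A, ∀ y ∈ A, x * y = y * x) ∧
      (∀ x ∈ A, x ^ p = 1) ∧ (∀ x ∈ A, ∀ y ∈ N, x * y = y * x) ∧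
      ∀ x ∈ N, x ^ p = 1 → (∀ y ∈ N, x * y = y * x) → x ∈ A := by
  classical
  haveI := Fact.mk hp
  let A : Subgroup K :=
    { carrier := {x | x ∈ N ∧ x ^ p = 1 ∧ ∀ y ∈ N, x * y = y * x}
      one_mem' := ⟨N.one_mem, one_pow _, fun y _ => by simp⟩
      mul_mem' := by
        rintro x y ⟨hx, hxp, hxc⟩ ⟨hy, hyp, hyc⟩
        refine ⟨N.mul_mem hx hy, ?_, ?_⟩
        · have : Commute x y := hxc y hy
          rw [this.mul_pow, hxp, hyp, one_mul]
        · intro z hz
          rw [mul_assoc, hyc z hz, ← mul_assoc, hxc z hz, mul_assoc]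
      inv_mem' := by
        rintro x ⟨hx, hxp, hxc⟩
        refine ⟨N.inv_mem hx, by rw [inv_pow, hxp, inv_one], ?_⟩
        intro z hz
        have h9 := hxc z hz
        calc x⁻¹ * z = x⁻¹ * (z * x) * x⁻¹ := by group
          _ = x⁻¹ * (x * z) * x⁻¹ := by rw [h9]
          _ = z * x⁻¹ := by group }
  refine ⟨A, fun x hx => hx.1, ?_, ?_, fun x hx y hy => hx.2.2 y hy.1, fun x hx => hx.2.1,
    fun x hx y hy => hx.2.2 y hy, fun x hx h1 h2 => ⟨hx, h1, h2⟩⟩
  · refine ⟨?_⟩
    rintro x ⟨hx, hxp, hxc⟩ g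
    refine ⟨hNn.conj_mem x hx g, ?_, ?_⟩
    · rw [conj_pow, hxp]; group
    · intro y hy
      have h1 := hxc (g⁻¹ * y * g) (by simpa using hNn.conj_mem y hy g⁻¹)
      calc g * x * g⁻¹ * y = g * (x * (g⁻¹ * y * g)) * g⁻¹ := by group
        _ = g * ((g⁻¹ * y * g) * x) * g⁻¹ := by rw [h1]
        _ = y * (g * x * g⁻¹) := by group
  · haveI : Nontrivial N := (Subgroup.nontrivial_iff_ne_bot N).mpr hb
    haveI : Finite N := inferInstance
    haveI := hN.center_nontrivial
    obtain ⟨c, hc⟩ := exists_ne (1 : Subgroup.center N)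
    have hc1 : (c : N).1 ≠ 1 := fun h => hc (Subtype.ext (Subtype.ext h))
    obtain ⟨y, hy, hyo, hyN⟩ := exists_mem_order hp hN (c : N).2 hc1
    intro hA
    have hyA : y ∈ A := by
      refine ⟨hyN, hyo ▸ pow_orderOf_eq_one y, ?_⟩
      intro z hz
      have h1 : (c : N).1 * z = z * (c : N).1 := by
        have := (Subgroup.mem_center_iff.mp c.2 ⟨z, hz⟩)
        exact (congrArg Subtype.val this).symm
      exact (commute_of_mem_zpowers hy h1.symm).symm
    rw [hA, Subgroup.mem_bot] at hyA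
    rw [hyA] at hyo
    simp at hyo
    exact hp.one_lt.ne hyo

/-- Conjugate a commuting pair into a Sylow subgroup. -/
theorem rk2_in_sylow [Finite K] {t : ℕ} (ht : t.Prime) (h : Rk2 K t) (P : Sylow t K) :
    ∃ a b : K, a ∈ (P : Subgroup K) ∧ b ∈ (P : Subgroup K) ∧ orderOf a = t ∧ orderOf b = t ∧
      a * b = b * a ∧ b ∉ Subgroup.zpowers a := by
  classical
  haveI := Fact.mk ht
  obtain ⟨a, b, ha, hb, hab, hba⟩ := h
  have hat : a ^ t = 1 := ha ▸ pow_orderOf_eq_one a
  have hbt : b ^ t = 1 := hb ▸ pow_orderOf_eq_one b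
  obtain ⟨Q, hQ⟩ := (closure_pair_isPGroup hab hat hbt).exists_le_sylow
  obtain ⟨g, hg⟩ := Cfsg.Agent.Lib.Basic.SylowUtil.exists_conj_smul_eq Q P
  have hmem : ∀ x ∈ (Q : Subgroup K), g * x * g⁻¹ ∈ (P : Subgroup K) := by
    intro x hx
    rw [← hg]
    exact ⟨x, hx, rfl⟩
  refine ⟨g * a * g⁻¹, g * b * g⁻¹, hmem a (hQ (Subgroup.subset_closure (by simp))),
    hmem b (hQ (Subgroup.subset_closure (by simp))), ?_, ?_, ?_, ?_⟩
  · rw [← ha]; simpa using MulEquiv.orderOf_eq (MulAut.conj g) a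
  · rw [← hb]; simpa using MulEquiv.orderOf_eq (MulAut.conj g) b
  · calc g * a * g⁻¹ * (g * b * g⁻¹) = g * (a * b) * g⁻¹ := by group
      _ = g * (b * a) * g⁻¹ := by rw [hab]
      _ = g * b * g⁻¹ * (g * a * g⁻¹) := by group
  · intro h
    apply hba
    obtain ⟨k, hk⟩ := Subgroup.mem_zpowers_iff.mp h
    refine Subgroup.mem_zpowers_iff.mpr ⟨k, ?_⟩
    rw [conj_zpow] at hk
    have := mul_left_cancel (mul_right_cancel hk)
    exact this

end elem

section fix

variable {Γ V : Type*} [Group Γ] [Group V]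

/-- The fixed points of an element. -/
def fixSub (ρ : Γ →* MulAut V) (g : Γ) : Subgroup V where
  carrier := {v | ρ g v = v}
  one_mem' := map_one _
  mul_mem' := by
    intro a b ha hb
    simp only [Set.mem_ofPred_eq] at ha hb ⊢
    rw [map_mul, ha, hb]
  inv_mem' := by
    intro a ha
    simp only [Set.mem_ofPred_eq] at ha ⊢
    rw [map_inv, ha]

theorem mem_fixSub {ρ : Γ →* MulAut V} {g : Γ} {v : V} : v ∈ fixSub ρ g ↔ ρ g v = v := Iff.rfl

theorem fixSub_inv {ρ : Γ →* MulAut V} {g h : Γ} (hc : h * g = g * h) {v : V} (hv : v ∈ fixSub ρ g) :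
    ρ h v ∈ fixSub ρ g := by
  rw [mem_fixSub] at hv ⊢
  rw [← MulAut.mul_apply, ← map_mul, ← hc, map_mul, MulAut.mul_apply, hv]

theorem fixSub_ne_bot {ρ : Γ →* MulAut V} {g : Γ} {v : V} (hv1 : v ≠ 1) (hv : ρ g v = v) :
    fixSub ρ g ≠ ⊥ := by
  intro h
  have : v ∈ fixSub ρ g := hv
  rw [h, Subgroup.mem_bot] at this
  exact hv1 this

/-- The stabilizer of a vector. -/
def stabS (ρ : Γ →* MulAut V) (v : V) : Subgroup Γ where
  carrier := {g | ρ g v = v}
  one_mem' := by simp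
  mul_mem' := by
    intro a b ha hb
    simp only [Set.mem_ofPred_eq] at ha hb ⊢
    rw [map_mul, MulAut.mul_apply, hb, ha]
  inv_mem' := by
    intro a ha
    simp only [Set.mem_ofPred_eq] at ha ⊢
    rw [map_inv]
    nth_rewrite 1 [← ha]
    simp

theorem mem_stabS {ρ : Γ →* MulAut V} {g : Γ} {v : V} : g ∈ stabS ρ v ↔ ρ g v = v := Iff.rfl

theorem fix_of_mem_zpowers {ρ : Γ →* MulAut V} {g c : Γ} {v : V} (h : g ∈ Subgroup.zpowers c)
    (hv : ρ c v = v) : ρ g v = v := by
  have hle : Subgroup.zpowers c ≤ stabS ρ v := by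
    rw [Subgroup.zpowers_le]
    exact hv
  exact hle h

/-- Coprime automorphism of an abelian `t`-group fixing all elements of order `t` is trivial. -/
theorem fix_of_omega [Finite V] (hc : ∀ x y : V, x * y = y * x) {g : MulAut V} {w t : ℕ} (ht : t.Prime)
    (hw : w.Coprime t) (hg : g ^ w = 1) (hV : IsPGroup t V)
    (hfix : ∀ v : V, orderOf v = t → g v = v) (x : V) : g x = x := by
  classical
  letI : CommGroup V := { ‹Group V› with mul_comm := hc }
  haveI := Fact.mk ht
  by_contra hne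
  set d := x⁻¹ * g x with hd
  have hd1 : d ≠ 1 := by
    intro h
    apply hne
    have := mul_eq_one_iff_eq_inv.mp (show g x * x⁻¹ = 1 by rw [mul_comm]; exact h)
    rw [this]; simp
  have htd : IsPGroup t (⊤ : Subgroup V) := hV.of_equiv Subgroup.topEquiv.symm
  obtain ⟨m, hm⟩ := exists_pow_order ht htd (Subgroup.mem_top d) hd1
  set e := d ^ m with he
  have hfe : g e = e := hfix e hm
  -- the norm of `d` is trivial
  have hnorm : ∀ k : ℕ, ∏ i ∈ Finset.range k, (g ^ i) d = x⁻¹ * (g ^ k) x := by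
    intro k
    induction k with
    | zero => simp
    | succ k ih =>
      rw [Finset.prod_range_succ, ih, hd, map_mul, map_inv]
      have h1 : (g ^ k) (g x) = (g ^ (k + 1)) x := by
        rw [pow_succ, MulAut.mul_apply]
      rw [h1]
      have h2 : x⁻¹ * (g ^ k) x * (((g ^ k) x)⁻¹ * (g ^ (k + 1)) x) = x⁻¹ * (g ^ (k + 1)) x := by group
      exact h2
  have hn1 : ∏ i ∈ Finset.range w, (g ^ i) d = 1 := by
    rw [hnorm, hg]; simp
  have hne' : ∏ i ∈ Finset.range w, (g ^ i) e = e ^ w := by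
    have : ∀ i : ℕ, (g ^ i) e = e := by
      intro i
      induction i with
      | zero => simp
      | succ k ih => rw [pow_succ', MulAut.mul_apply, ih, hfe]
    simp [this]
  have h2 : e ^ w = 1 := by
    rw [← hne']
    have : ∀ i ∈ Finset.range w, (g ^ i) e = ((g ^ i) d) ^ m := by
      intro i _
      rw [he, map_pow]
    rw [Finset.prod_congr rfl this, Finset.prod_pow, hn1, one_pow]
  have h3 : e ^ t = 1 := hm ▸ pow_orderOf_eq_one e
  have h4 := pow_eq_one_of_coprime hw h2 h3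
  rw [h4] at hm
  simp at hm
  exact ht.one_lt.ne hm

end fix

end Cfsg.Agent.Lib.S3814
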