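import Mathlib
import Cfsg.Agent.Lib.S3814.Elem
import Cfsg.Agent.Lib.PGroup.Basic
import Cfsg.Agent.Lib.Coprime.FrattiniAct
import Cfsg.Agent.Lib.Coprime.CosetFixed

/-!
# Minimal noncentralized invariant subgroups
-/

set_option autoImplicit false
set_option linter.style.haveILetI false
set_option linter.unusedSectionVars false
set_option linter.style.longLine false
set_option linter.unusedVariables false
set_option maxHeartbeats 1000000

namespace Cfsg.Agent.Lib.S3814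

open Cfsg
open scoped commutatorElement

universe u

variable {Γ : Type*} [Group Γ] [Finite Γ]

theorem min_lemma {t : ℕ} (ht : t.Prime) (ht2 : t ≠ 2) (Q : Subgroup Γ) (hQ : IsPGroup t Q) (b : Γ)
    (hb : (orderOf b).Coprime t) (Λ : Subgroup Γ) (hbΛ : b ∈ Λ) (hΛQ : ∀ g ∈ Λ, ∀ x ∈ Q, g * x * g⁻¹ ∈ Q)
    (hΛb : ∀ g ∈ Λ, g * b * g⁻¹ ∈ Subgroup.zpowers b) (hnc : ¬ ∀ x ∈ Q, b * x = x * b) :
    ∃ V₀ : Subgroup Γ, V₀ ≤ Q ∧ (∀ g ∈ Λ, ∀ x ∈ V₀, g * x * g⁻¹ ∈ V₀) ∧ (¬ ∀ x ∈ V₀, b * x = x * b) ∧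
      (∀ x ∈ V₀, x ^ t = 1) ∧
      (∀ x ∈ V₀, ∀ y ∈ V₀, b * (x * y * x⁻¹ * y⁻¹) = (x * y * x⁻¹ * y⁻¹) * b) ∧
      (∀ D : Subgroup Γ, (∀ v ∈ V₀, b * v * b⁻¹ * v⁻¹ ∈ D) → V₀ ≤ D) ∧
      (∀ x ∈ V₀, ∀ y ∈ V₀, ∀ z ∈ V₀, z * (x * y * x⁻¹ * y⁻¹) = (x * y * x⁻¹ * y⁻¹) * z) := by
  classical
  haveI := Fact.mk ht
  let S : Set (Subgroup Γ) := {V | V ≤ Q ∧ (∀ g ∈ Λ, ∀ x ∈ V, g * x * g⁻¹ ∈ V) ∧ ¬ ∀ x ∈ V, b * x = x * b}
  have hS : S.Nonempty := ⟨Q, le_rfl, hΛQ, hnc⟩
  obtain ⟨V₀, hV₀, hmin⟩ : ∃ M ∈ S, ∀ M' ∈ S, Nat.card M ≤ Nat.card M' :=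
    Set.exists_min_image S (fun M : Subgroup Γ => Nat.card M) (Set.toFinite S) hS
  obtain ⟨hV₀Q, hV₀Λ, hV₀b⟩ := hV₀
  have hminle : ∀ V ∈ S, V ≤ V₀ → V = V₀ := fun V hV hle =>
    Subgroup.eq_of_le_of_card_ge hle (hmin V hV)
  have hV₀p : IsPGroup t V₀ := hQ.to_le hV₀Q
  have hbV₀ : ∀ x ∈ V₀, b * x * b⁻¹ ∈ V₀ := hV₀Λ b hbΛ
  let V₁ : Subgroup Γ := Subgroup.closure {x | ∃ v ∈ V₀, x = b * v * b⁻¹ * v⁻¹}
  have hV₁le : V₁ ≤ V₀ := by
    rw [Subgroup.closure_le]
    rintro _ ⟨v, hv, rfl⟩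
    exact V₀.mul_mem (hbV₀ v hv) (V₀.inv_mem hv)
  have hV₁b : ∀ x ∈ V₁, b * x * b⁻¹ ∈ V₁ := by
    intro x hx
    induction hx using Subgroup.closure_induction with
    | mem x hx =>
      obtain ⟨v, hv, rfl⟩ := hx
      refine Subgroup.subset_closure ⟨b * v * b⁻¹, hbV₀ v hv, by group⟩
    | one => simp
    | mul x y _ _ h1 h2 =>
      have : b * (x * y) * b⁻¹ = (b * x * b⁻¹) * (b * y * b⁻¹) := by group
      rw [this]
      exact V₁.mul_mem h1 h2
    | inv x _ h1 =>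
      have : b * x⁻¹ * b⁻¹ = (b * x * b⁻¹)⁻¹ := by group
      rw [this]
      exact V₁.inv_mem h1
  have hpow1 : ∀ k : ℕ, ∀ v ∈ V₀, b ^ k * v * (b ^ k)⁻¹ * v⁻¹ ∈ V₁ := by
    intro k v hv
    induction k with
    | zero => simp
    | succ k ih =>
      have h1 : b ^ (k + 1) * v * (b ^ (k + 1))⁻¹ * v⁻¹
          = (b * (b ^ k * v * (b ^ k)⁻¹ * v⁻¹) * b⁻¹) * (b * v * b⁻¹ * v⁻¹) := by
        rw [pow_succ']; group
      rw [h1]
      exact V₁.mul_mem (hV₁b _ ih) (Subgroup.subset_closure ⟨v, hv, rfl⟩)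
  have hV₁Λ : ∀ g ∈ Λ, ∀ x ∈ V₁, g * x * g⁻¹ ∈ V₁ := by
    intro g hg x hx
    induction hx using Subgroup.closure_induction with
    | mem x hx =>
      obtain ⟨v, hv, rfl⟩ := hx
      have h1 : g * b * g⁻¹ ∈ Subgroup.zpowers b := hΛb g hg
      rw [← mem_powers_iff_mem_zpowers] at h1
      obtain ⟨k, hk⟩ := h1
      have hk' : g * b * g⁻¹ = b ^ k := hk.symm
      have h2 : g * (b * v * b⁻¹ * v⁻¹) * g⁻¹
          = (g * b * g⁻¹) * (g * v * g⁻¹) * (g * b * g⁻¹)⁻¹ * (g * v * g⁻¹)⁻¹ := by group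
      rw [h2, hk']
      exact hpow1 k _ (hV₀Λ g hg v hv)
    | one => simp
    | mul x y _ _ h1 h2 =>
      have : g * (x * y) * g⁻¹ = (g * x * g⁻¹) * (g * y * g⁻¹) := by group
      rw [this]
      exact V₁.mul_mem h1 h2
    | inv x _ h1 =>
      have : g * x⁻¹ * g⁻¹ = (g * x * g⁻¹)⁻¹ := by group
      rw [this]
      exact V₁.inv_mem h1
  have hV₁nc : ¬ ∀ x ∈ V₁, b * x = x * b := by
    intro hcen
    apply hV₀b
    intro v hv
    set c := b * v * b⁻¹ * v⁻¹ with hc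
    have hcV₁ : c ∈ V₁ := Subgroup.subset_closure ⟨v, hv, rfl⟩
    have hbc := hcen c hcV₁
    have hconj : b * v * b⁻¹ = c * v := by rw [hc]; group
    have hpown : ∀ n : ℕ, b ^ n * v * (b ^ n)⁻¹ = c ^ n * v := by
      intro n
      induction n with
      | zero => simp
      | succ n ih =>
        have hbcn : Commute b (c ^ n) := (show Commute b c from hbc).pow_right n
        calc b ^ (n + 1) * v * (b ^ (n + 1))⁻¹ = b * (b ^ n * v * (b ^ n)⁻¹) * b⁻¹ := by
              rw [pow_succ']; group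
          _ = b * (c ^ n * v) * b⁻¹ := by rw [ih]
          _ = (b * c ^ n) * v * b⁻¹ := by group
          _ = (c ^ n * b) * v * b⁻¹ := by rw [hbcn.eq]
          _ = c ^ n * (b * v * b⁻¹) := by group
          _ = c ^ n * (c * v) := by rw [hconj]
          _ = c ^ (n + 1) * v := by rw [pow_succ]; group
    have h1 := hpown (orderOf b)
    rw [pow_orderOf_eq_one] at h1
    have h2 : c ^ orderOf b = 1 := by
      have : (1 : Γ) * v * (1 : Γ)⁻¹ = v := by group
      rw [this] at h1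
      exact (mul_eq_right.mp h1.symm)
    obtain ⟨k, hk⟩ := (IsPGroup.iff_orderOf.mp hV₀p) ⟨c, hV₁le hcV₁⟩
    rw [Subgroup.orderOf_mk] at hk
    have h3 : c ^ (t ^ k) = 1 := hk ▸ pow_orderOf_eq_one c
    have hcop : (orderOf b).Coprime (t ^ k) := Nat.Coprime.pow_right k hb
    have hc1 : c = 1 := pow_eq_one_of_coprime hcop h2 h3
    have := mul_inv_eq_one.mp hc1
    exact mul_inv_eq_iff_eq_mul.mp this
  have hV₁S : V₁ ∈ S := ⟨hV₁le.trans hV₀Q, hV₁Λ, hV₁nc⟩
  have hV₁eq : V₁ = V₀ := hminle V₁ hV₁S hV₁le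
  have hgen : ∀ D : Subgroup Γ, (∀ v ∈ V₀, b * v * b⁻¹ * v⁻¹ ∈ D) → V₀ ≤ D := by
    intro D hD
    rw [← hV₁eq, Subgroup.closure_le]
    rintro _ ⟨v, hv, rfl⟩
    exact hD v hv
  -- the Frattini subgroup
  have hV₀ne : Nontrivial V₀ := by
    by_contra hcon
    rw [not_nontrivial_iff_subsingleton] at hcon
    apply hV₀b
    intro x hx
    have : (⟨x, hx⟩ : V₀) = 1 := Subsingleton.elim _ _
    have h2 : x = 1 := congrArg Subtype.val this
    rw [h2]; simp
  let F : Subgroup Γ := (frattini ↥V₀).map V₀.subtype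
  have hFle : F ≤ V₀ := by
    rintro _ ⟨x, _, rfl⟩
    exact x.2
  have hFne : F ≠ V₀ := by
    intro h
    have htop : frattini ↥V₀ = ⊤ := by
      rw [eq_top_iff]
      rintro ⟨x, hx⟩ -
      have : x ∈ F := h ▸ hx
      obtain ⟨y, hy, hyx⟩ := this
      have : y = ⟨x, hx⟩ := Subtype.ext hyx
      rwa [← this]
    obtain ⟨M, hM, _⟩ := (eq_top_or_exists_le_coatom (⊥ : Subgroup ↥V₀)).resolve_left bot_ne_top
    have h1 := frattini_le_coatom hM
    rw [htop] at h1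
    exact hM.1 (top_le_iff.mp h1)
  have hgnorm : ∀ g ∈ Λ, g ∈ Subgroup.normalizer (V₀ : Set Γ) := fun g hg =>
    Cfsg.Agent.Lib.Coprime.Three.mem_normalizer_of_conj_mem (hV₀Λ g hg)
  have hFΛ : ∀ g ∈ Λ, ∀ x ∈ F, g * x * g⁻¹ ∈ F := by
    intro g hg x hx
    have := Cfsg.Agent.Lib.Coprime.FrattiniAct.map_char_mem_normalizer (frattini ↥V₀) inferInstance (hgnorm g hg)
    exact (Subgroup.mem_normalizer_iff.mp this x).mp hx
  have hFb : ∀ x ∈ F, b * x = x * b := by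
    by_contra hcon
    have hFS : F ∈ S := ⟨hFle.trans hV₀Q, hFΛ, hcon⟩
    exact hFne (hminle F hFS hFle)
  have hpowF : ∀ x ∈ V₀, x ^ t ∈ F := by
    intro x hx
    exact ⟨(⟨x, hx⟩ : V₀) ^ t, Cfsg.Agent.Lib.PGroup.Basic.pow_mem_frattini hV₀p _, rfl⟩
  have hcommF : ∀ x ∈ V₀, ∀ y ∈ V₀, x * y * x⁻¹ * y⁻¹ ∈ F := by
    intro x hx y hy
    exact ⟨⁅(⟨x, hx⟩ : V₀), (⟨y, hy⟩ : V₀)⁆, Cfsg.Agent.Lib.PGroup.Basic.commutatorElement_mem_frattini hV₀p _ _, rfl⟩
  -- `F` is central in `V₀`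
  have hFnorm : ∀ x ∈ V₀, ∀ f ∈ F, x * f * x⁻¹ ∈ F := by
    intro x hx f hf
    have hfV := hFle hf
    have h1 : x * f * x⁻¹ = (x * f * x⁻¹ * f⁻¹) * f := by group
    rw [h1]
    exact F.mul_mem (hcommF x hx f hfV) hf
  have hFcent : ∀ v ∈ V₀, ∀ f ∈ F, v * f = f * v := by
    have h3 : ⁅⁅V₀, Subgroup.zpowers b⁆, F⁆ = ⊥ := by
      apply Subgroup.commutator_commutator_eq_bot_of_rotate
      · have : ⁅Subgroup.zpowers b, F⁆ = ⊥ := by
          rw [Subgroup.commutator_eq_bot_iff_le_centralizer]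
          rw [Subgroup.zpowers_le]
          rw [Subgroup.mem_centralizer_iff]
          intro x hx
          exact (hFb x hx).symm
        rw [this, Subgroup.commutator_bot_left]
      · rw [Subgroup.commutator_eq_bot_iff_le_centralizer]
        have h4 : ⁅F, V₀⁆ ≤ F := by
          rw [Subgroup.commutator_le]
          intro f hf v hv
          have : ⁅f, v⁆ = f * (v * f⁻¹ * v⁻¹) := by
            rw [commutatorElement_def]; group
          rw [this]
          exact F.mul_mem hf (hFnorm v hv _ (F.inv_mem hf))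
        intro x hx
        rw [Subgroup.mem_centralizer_iff]
        intro y hy
        rw [SetLike.mem_coe, Subgroup.mem_zpowers_iff] at hy
        obtain ⟨k, rfl⟩ := hy
        have hc : Commute b x := hFb x (h4 hx)
        exact (hc.zpow_left k).eq
    have h5 : ∀ v ∈ V₀, ∀ f ∈ F, (b * v * b⁻¹ * v⁻¹) * f = f * (b * v * b⁻¹ * v⁻¹) := by
      intro v hv f hf
      have h6 : ⁅v, b⁆ ∈ ⁅V₀, Subgroup.zpowers b⁆ :=
        Subgroup.commutator_mem_commutator hv (Subgroup.mem_zpowers b)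
      have h7 : ⁅⁅v, b⁆, f⁆ = 1 := by
        have := Subgroup.commutator_mem_commutator h6 hf
        rw [h3] at this
        exact Subgroup.mem_bot.mp this
      have h8 : ⁅v, b⁆ * f = f * ⁅v, b⁆ := by
        rwa [commutatorElement_eq_one_iff_mul_comm] at h7
      have h9 : b * v * b⁻¹ * v⁻¹ = (⁅v, b⁆)⁻¹ := by
        rw [commutatorElement_def]; group
      rw [h9]
      calc (⁅v, b⁆)⁻¹ * f = (⁅v, b⁆)⁻¹ * (f * ⁅v, b⁆) * (⁅v, b⁆)⁻¹ := by group
        _ = (⁅v, b⁆)⁻¹ * (⁅v, b⁆ * f) * (⁅v, b⁆)⁻¹ := by rw [h8]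
        _ = f * (⁅v, b⁆)⁻¹ := by group
    intro v hv f hf
    have hle := hgen (Subgroup.centralizer ({f} : Set Γ)) (fun x hx => mem_cz.mpr (h5 x hx f hf))
    exact mem_cz.mp (hle hv)
  -- the power map
  have hpowcomm : ∀ x ∈ V₀, ∀ y ∈ V₀, (x * y) ^ t = x ^ t * y ^ t := by
    intro x hx y hy
    have hd : ⁅y, x⁆ ∈ F := hcommF y hy x hx
    have hxc : Commute x ⁅y, x⁆ := hFcent x hx _ hd
    have hyc : Commute y ⁅y, x⁆ := hFcent y hy _ hd
    have h1 := Cfsg.Agent.Lib.PGroup.Basic.mul_pow_of_commutator_central hxc hyc t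
    rw [h1]
    have h2 : ⁅y, x⁆ ^ t = 1 := by
      have := Cfsg.Agent.Lib.PGroup.Basic.commutator_pow_left hyc t
      rw [← this]
      have h3 : ⁅y ^ t, x⁆ = 1 := by
        rw [commutatorElement_eq_one_iff_mul_comm]
        exact (hFcent x hx _ (hpowF y hy)).symm
      exact h3
    obtain ⟨k, hk⟩ : t ∣ t.choose 2 := by
      have h4 : (t.choose 2) * 2 = t * (t - 1) := by
        rw [Nat.choose_two_right, Nat.div_mul_cancel]
        exact Nat.even_mul_pred_self t |>.two_dvd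
      have h5 : t ∣ (t.choose 2) * 2 := by rw [h4]; exact Dvd.intro _ rfl
      exact (Nat.Coprime.dvd_of_dvd_mul_right ((Nat.coprime_primes ht Nat.prime_two).mpr ht2) h5)
    rw [hk, pow_mul, h2, one_pow, mul_one]
  refine ⟨V₀, hV₀Q, hV₀Λ, hV₀b, ?_, ?_, hgen, ?_⟩
  · -- exponent
    let D : Subgroup Γ :=
      { carrier := {x | x ∈ V₀ ∧ x ^ t = 1}
        one_mem' := ⟨V₀.one_mem, one_pow _⟩
        mul_mem' := by
          rintro x y ⟨hx, hx1⟩ ⟨hy, hy1⟩
          exact ⟨V₀.mul_mem hx hy, by rw [hpowcomm x hx y hy, hx1, hy1, one_mul]⟩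
        inv_mem' := by
          rintro x ⟨hx, hx1⟩
          exact ⟨V₀.inv_mem hx, by rw [inv_pow, hx1, inv_one]⟩ }
    have hle := hgen D (by
      intro v hv
      refine ⟨V₀.mul_mem (hbV₀ v hv) (V₀.inv_mem hv), ?_⟩
      rw [hpowcomm _ (hbV₀ v hv) _ (V₀.inv_mem hv), conj_pow, inv_pow]
      have := hFb _ (hpowF v hv)
      rw [this]
      group)
    intro x hx
    exact (hle hx).2
  · intro x hx y hy
    exact hFb _ (hcommF x hx y hy)
  · intro x hx y hy z hz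
    exact hFcent z hz _ (hcommF x hx y hy)

/-- The abelianization functor on automorphisms. -/
def absHom (X : Type*) [Group X] : MulAut X →* MulAut (Abelianization X) where
  toFun f := f.abelianizationCongr
  map_one' := by
    apply MulEquiv.ext
    intro a
    obtain ⟨x, rfl⟩ := QuotientGroup.mk'_surjective _ a
    rfl
  map_mul' := by
    intro f g
    apply MulEquiv.ext
    intro a
    obtain ⟨x, rfl⟩ := QuotientGroup.mk'_surjective _ a
    rfl

theorem ft_lemma {t u w : ℕ} (ht : t.Prime) (ht2 : t ≠ 2) (hu : u.Prime) (hw : w.Prime) (htu : t ≠ u)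
    (htw : t ≠ w) (Q : Subgroup Γ) (hQ : IsPGroup t Q) {y z₀ : Γ} (hy : orderOf y = u)
    (hz : orderOf z₀ = w) (hyQ : ∀ x ∈ Q, y * x * y⁻¹ ∈ Q) (hzQ : ∀ x ∈ Q, z₀ * x * z₀⁻¹ ∈ Q)
    (hn : z₀ * y * z₀⁻¹ ∈ Subgroup.zpowers y) (hm : z₀ * y ≠ y * z₀)
    (hU : ∀ x ∈ Q, orderOf x = t → z₀ * x = x * z₀ → y * x = x * y) : ∀ x ∈ Q, y * x = x * y := by
  classical
  by_contra hnc
  haveI := Fact.mk ht
  haveI := Fact.mk hw
  haveI := Fact.mk hu
  let Λ : Subgroup Γ := Subgroup.closure {y, z₀}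
  have hyΛ : y ∈ Λ := Subgroup.subset_closure (by simp)
  have hzΛ : z₀ ∈ Λ := Subgroup.subset_closure (by simp)
  have hΛN : Λ ≤ Subgroup.normalizer (Q : Set Γ) := by
    rw [Subgroup.closure_le]
    rintro x (rfl | rfl)
    · exact Cfsg.Agent.Lib.Coprime.Three.mem_normalizer_of_conj_mem hyQ
    · exact Cfsg.Agent.Lib.Coprime.Three.mem_normalizer_of_conj_mem hzQ
  have hΛY : Λ ≤ Subgroup.normalizer ((Subgroup.zpowers y : Subgroup Γ) : Set Γ) := by
    rw [Subgroup.closure_le]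
    rintro x (rfl | rfl)
    · apply Cfsg.Agent.Lib.Coprime.Three.mem_normalizer_of_conj_mem
      intro v hv
      have : x * v = v * x := commute_of_mem_zpowers hv rfl
      rw [this]; simpa using hv
    · apply Cfsg.Agent.Lib.Coprime.Three.mem_normalizer_of_conj_mem
      intro v hv
      obtain ⟨k, rfl⟩ := Subgroup.mem_zpowers_iff.mp hv
      rw [← conj_zpow]
      exact Subgroup.zpow_mem _ hn k
  obtain ⟨V₀, hV₀Q, hV₀Λ, hV₀b, hV₀e, hV₀d, hV₀g, hV₀c⟩ := min_lemma ht ht2 Q hQ y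
    (by rw [hy]; exact (Nat.coprime_primes hu ht).mpr htu.symm) Λ hyΛ
    (fun g hg x hx => (Subgroup.mem_normalizer_iff.mp (hΛN hg) x).mp hx)
    (fun g hg => (Subgroup.mem_normalizer_iff.mp (hΛY hg) y).mp (Subgroup.mem_zpowers y)) hnc
  let Nm := Subgroup.normalizer (V₀ : Set Γ)
  have hyN : y ∈ Nm := Cfsg.Agent.Lib.Coprime.Three.mem_normalizer_of_conj_mem (hV₀Λ y hyΛ)
  have hzN : z₀ ∈ Nm := Cfsg.Agent.Lib.Coprime.Three.mem_normalizer_of_conj_mem (hV₀Λ z₀ hzΛ)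
  let y' : Nm := ⟨y, hyN⟩
  let z' : Nm := ⟨z₀, hzN⟩
  let A := Abelianization ↥V₀
  let ρ : Nm →* MulAut A := (absHom ↥V₀).comp V₀.normalizerMonoidHom
  let ι : ↥V₀ →* A := Abelianization.of
  have hρ : ∀ (g : Nm) (v : V₀), ρ g (ι v) = ι (V₀.normalizerMonoidHom g v) := fun g v => rfl
  have hιs : Function.Surjective ι := QuotientGroup.mk'_surjective _
  haveI : Finite A := Finite.of_surjective ι hιs
  have hcA : ∀ a b : A, a * b = b * a := fun a b => mul_comm a b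
  have hAe : ∀ a : A, a ^ t = 1 := by
    intro a
    obtain ⟨v, rfl⟩ := hιs a
    rw [← map_pow]
    have : v ^ t = 1 := Subtype.ext (hV₀e v.1 v.2)
    rw [this, map_one]
  have hAp : IsPGroup t A := fun a => ⟨1, by simpa using hAe a⟩
  have hcopA : ∀ q : ℕ, q.Coprime t → q.Coprime (Nat.card A) := by
    intro q hq
    obtain ⟨k, hk⟩ := IsPGroup.iff_card.mp hAp
    rw [hk]
    exact Nat.Coprime.pow_right k hq
  have huu : (ρ y') ^ u = 1 := by
    rw [← map_pow]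
    have : y' ^ u = 1 := Subtype.ext (by simpa [y'] using hy ▸ pow_orderOf_eq_one y)
    rw [this, map_one]
  have hww : (ρ z') ^ w = 1 := by
    rw [← map_pow]
    have : z' ^ w = 1 := Subtype.ext (by simpa [z'] using hz ▸ pow_orderOf_eq_one z₀)
    rw [this, map_one]
  -- (1) no fixed points of `y` on the abelianization
  have hfixy : ∀ a : A, ρ y' a = a → a = 1 := by
    let N : A → A := fun a => ∏ i ∈ Finset.range u, (ρ y' ^ i) a
    have hNmul : ∀ a b, N (a * b) = N a * N b := by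
      intro a b
      simp only [N, map_mul, Finset.prod_mul_distrib]
    have hNinv : ∀ a, N a⁻¹ = (N a)⁻¹ := by
      intro a
      simp only [N, map_inv, Finset.prod_inv_distrib]
    have hN1 : N 1 = 1 := by simp [N]
    have hco : ∀ a, N (ρ y' a * a⁻¹) = 1 := by
      intro a
      have hk : ∀ k : ℕ, ∏ i ∈ Finset.range k, (ρ y' ^ i) (ρ y' a * a⁻¹) = (ρ y' ^ k) a * a⁻¹ := by
        intro k
        induction k with
        | zero => simp
        | succ k ih =>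
          rw [Finset.prod_range_succ, ih, map_mul, map_inv]
          have h1 : (ρ y' ^ k) (ρ y' a) = (ρ y' ^ (k + 1)) a := by
            rw [pow_succ, MulAut.mul_apply]
          rw [h1]
          have hcalc : ∀ x y b : A, (x * b⁻¹) * (y * x⁻¹) = y * b⁻¹ := by
            intro x y b
            rw [mul_comm x, mul_comm y, mul_assoc, mul_inv_cancel_left]
            exact mul_comm _ _
          exact hcalc _ _ _
      show ∏ i ∈ Finset.range u, (ρ y' ^ i) (ρ y' a * a⁻¹) = 1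
      rw [hk, huu]
      simp
    let D : Subgroup Γ :=
      { carrier := {v | ∃ h : v ∈ V₀, N (ι ⟨v, h⟩) = 1}
        one_mem' := ⟨V₀.one_mem, by
          have : (⟨1, V₀.one_mem⟩ : V₀) = 1 := rfl
          rw [this, map_one, hN1]⟩
        mul_mem' := by
          rintro a b ⟨ha, ha1⟩ ⟨hb, hb1⟩
          refine ⟨V₀.mul_mem ha hb, ?_⟩
          have : (⟨a * b, V₀.mul_mem ha hb⟩ : V₀) = ⟨a, ha⟩ * ⟨b, hb⟩ := rfl
          rw [this, map_mul, hNmul, ha1, hb1, one_mul]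
        inv_mem' := by
          rintro a ⟨ha, ha1⟩
          refine ⟨V₀.inv_mem ha, ?_⟩
          have : (⟨a⁻¹, V₀.inv_mem ha⟩ : V₀) = (⟨a, ha⟩ : V₀)⁻¹ := rfl
          rw [this, map_inv, hNinv, ha1, inv_one] }
    have hle : V₀ ≤ D := hV₀g D (by
      intro v hv
      have hvv : y * v * y⁻¹ ∈ V₀ := hV₀Λ y hyΛ v hv
      refine ⟨V₀.mul_mem hvv (V₀.inv_mem hv), ?_⟩
      have h1 : (⟨y * v * y⁻¹ * v⁻¹, V₀.mul_mem hvv (V₀.inv_mem hv)⟩ : V₀)
          = V₀.normalizerMonoidHom y' ⟨v, hv⟩ * (⟨v, hv⟩ : V₀)⁻¹ := rfl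
      rw [h1, map_mul, map_inv, ← hρ]
      exact hco _)
    have hNall : ∀ a, N a = 1 := by
      intro a
      obtain ⟨v, rfl⟩ := hιs a
      obtain ⟨h, h2⟩ := hle v.2
      exact h2
    intro a ha
    have hpow : ∀ i : ℕ, (ρ y' ^ i) a = a := by
      intro i
      induction i with
      | zero => simp
      | succ i ih => rw [pow_succ', MulAut.mul_apply, ih, ha]
    have h3 : a ^ u = 1 := by
      have := hNall a
      simpa [N, hpow] using this
    exact pow_eq_one_of_coprime ((Nat.coprime_primes hu ht).mpr htu.symm) h3 (hAe a)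
  -- (2) some fixed point of `z₀`
  have hex : ∃ a : A, a ≠ 1 ∧ ρ z' a = a := by
    by_contra hcon
    push Not at hcon
    have hzfp : ∀ a : A, ρ z' a = a → a = 1 := by
      intro a h
      by_contra h1
      exact hcon a h1 h
    have hu' : orderOf y' = u := by rw [Subgroup.orderOf_mk]; exact hy
    have hcard : Nat.card (Subgroup.zpowers y') = u := by rw [Nat.card_zpowers, hu']
    have hnorm : ∀ r ∈ Subgroup.zpowers y', z' * r * z'⁻¹ ∈ Subgroup.zpowers y' := by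
      intro r hr
      obtain ⟨k, rfl⟩ := Subgroup.mem_zpowers_iff.mp hr
      rw [← conj_zpow]
      apply Subgroup.zpow_mem
      obtain ⟨e, he⟩ := Subgroup.mem_zpowers_iff.mp hn
      refine Subgroup.mem_zpowers_iff.mpr ⟨e, Subtype.ext ?_⟩
      simpa [y', z'] using he
    have key := p2 hcA ρ (Subgroup.zpowers y')
      (by
        intro a ha b hb
        rw [← map_mul, ← map_mul]
        rw [show a * b = b * a from commute_of_mem_zpowers (g := b) ha (commute_of_mem_zpowers (g := y') hb rfl).symm |>.symm])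
      z' hw hww hnorm
      (by rw [hcard]; exact (Nat.coprime_primes hu hw).mpr (by
        rintro rfl
        apply hm
        have h1 := commute_of_normalize_prime (k := 1) hu hy (by rw [pow_one, ← hz]; exact pow_orderOf_eq_one z₀) hn
        exact h1))
      (by rw [hcard]; exact hcopA u ((Nat.coprime_primes hu ht).mpr htu.symm)) ⊤
      (fun _ _ => trivial) (fun _ _ _ _ => trivial) (fun a _ h => hzfp a h)
    set c : Nm := z' * y' * z'⁻¹ * y'⁻¹ with hcdef
    have hc1 : c ≠ 1 := by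
      intro h
      apply hm
      have h2 : z' * y' * z'⁻¹ = y' := mul_inv_eq_one.mp h
      have h3 : z' * y' = y' * z' := mul_inv_eq_iff_eq_mul.mp h2
      exact congrArg Subtype.val h3
    have hcm : c ∈ Subgroup.zpowers y' :=
      Subgroup.mul_mem _ (hnorm y' (Subgroup.mem_zpowers _)) (Subgroup.inv_mem _ (Subgroup.mem_zpowers _))
    have hyc : y' ∈ Subgroup.zpowers c := mem_zpowers_of_prime hu hu' hcm hc1
    have hall : ∀ a : A, ρ y' a = a := by
      intro a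
      exact fix_of_mem_zpowers hyc (key y' (Subgroup.mem_zpowers _) a trivial)
    have hA1 : ∀ a : A, a = 1 := fun a => hfixy a (hall a)
    have hcomm : ∀ v : V₀, v ∈ commutator ↥V₀ := by
      intro v
      have : ι v = 1 := hA1 _
      exact (QuotientGroup.eq_one_iff v).mp this
    have hcen : commutator ↥V₀ ≤ Subgroup.center ↥V₀ := by
      rw [commutator_def, Subgroup.commutator_le]
      intro a _ b _
      rw [Subgroup.mem_center_iff]
      intro z
      apply Subtype.ext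
      exact hV₀c a.1 a.2 b.1 b.2 z.1 z.2
    have hab : ∀ a b : V₀, a * b = b * a := by
      intro a b
      exact (Subgroup.mem_center_iff.mp (hcen (hcomm a)) b).symm
    have hbot : commutator ↥V₀ ≤ ⊥ := by
      rw [commutator_def, Subgroup.commutator_le]
      intro a _ b _
      rw [Subgroup.mem_bot, commutatorElement_eq_one_iff_mul_comm]
      exact hab a b
    apply hV₀b
    intro x hx
    have h5 := hbot (hcomm ⟨x, hx⟩)
    have h6 : x = 1 := congrArg Subtype.val (Subgroup.mem_bot.mp h5)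
    rw [h6]; simp
  obtain ⟨a, ha1, hafix⟩ := hex
  obtain ⟨d₀, rfl⟩ := hιs a
  let C : Subgroup Γ := (commutator ↥V₀).map V₀.subtype
  have hCcard : (Nat.card C).Coprime w := by
    have hCp : IsPGroup t C := by
      have hCV : C ≤ V₀ := by
        rintro _ ⟨x, _, rfl⟩
        exact x.2
      exact (hQ.to_le hV₀Q).to_le hCV
    obtain ⟨k, hk⟩ := IsPGroup.iff_card.mp hCp
    rw [hk]
    exact Nat.Coprime.pow_left k ((Nat.coprime_primes ht hw).mpr htw)
  have hzC : z₀ ∈ Subgroup.normalizer (C : Set Γ) :=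
    Cfsg.Agent.Lib.Coprime.FrattiniAct.map_char_mem_normalizer (commutator ↥V₀) inferInstance hzN
  have hinvfix : ρ z'⁻¹ (ι d₀) = ι d₀ := by
    rw [map_inv]
    nth_rewrite 1 [← hafix]
    simp
  have hdC : d₀.1⁻¹ * (z₀⁻¹ * d₀.1 * z₀) ∈ C := by
    have h1 : ι (V₀.normalizerMonoidHom z'⁻¹ d₀) = ι d₀ := by rw [← hρ]; exact hinvfix
    have h2 : ι (d₀⁻¹ * V₀.normalizerMonoidHom z'⁻¹ d₀) = 1 := by
      rw [map_mul, map_inv, h1, inv_mul_cancel]
    have h3 := (QuotientGroup.eq_one_iff _).mp h2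
    refine ⟨_, h3, ?_⟩
    show d₀.1⁻¹ * (z₀⁻¹ * d₀.1 * z₀⁻¹⁻¹) = _
    simp
  obtain ⟨c, hc, hcomm⟩ := Cfsg.Agent.Lib.Coprime.CosetFixed.exists_commute_in_coset C hCcard z₀ 1
    (by rw [pow_one, ← hz]; exact pow_orderOf_eq_one z₀) hzC d₀.1 hdC
  obtain ⟨c₀, hc₀, rfl⟩ := hc
  set d : V₀ := d₀ * c₀ with hd
  have hιd : ι d = ι d₀ := by
    have : ι c₀ = 1 := (QuotientGroup.eq_one_iff c₀).mpr hc₀
    rw [hd, map_mul, this, mul_one]
  have hd1 : d.1 ≠ 1 := by
    intro h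
    apply ha1
    have : d = 1 := Subtype.ext h
    rw [← hιd, this, map_one]
  have hdo : orderOf d.1 = t := orderOf_eq_prime (hV₀e d.1 d.2) hd1
  have hyd := hU d.1 (hV₀Q d.2) hdo hcomm.eq
  have hfix : ρ y' (ι d) = ι d := by
    rw [hρ]
    congr 1
    apply Subtype.ext
    show y * d.1 * y⁻¹ = d.1
    rw [hyd]; group
  apply ha1
  rw [← hιd]
  exact hfixy _ hfix

end Cfsg.Agent.Lib.S3814
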