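import Mathlib
import Cfsg.Agent.Lib.S3814.Min

/-!
# The faithful irreducible situation: setup
-/

set_option autoImplicit false
set_option linter.style.haveILetI false
set_option linter.unusedSectionVars false
set_option linter.style.longLine false
set_option linter.unusedVariables false
set_option maxHeartbeats 1000000

namespace Cfsg.Agent.Lib.S3814

open Cfsg

universe u

variable {H V : Type u} [Group H] [Finite H] [Group V] [Finite V]

/-- Fixed point free. -/
def Fpf (ρ : H →* MulAut V) (g : H) : Prop := ∀ v, ρ g v = v → v = 1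

structure Setup3 (ρ : H →* MulAut V) (t u w : ℕ) : Prop where
  ht : t.Prime
  hu : u.Prime
  hw : w.Prime
  htu : t ≠ u
  htw : t ≠ w
  huw : u ≠ w
  primes : ∀ q : ℕ, q.Prime → q ∣ Nat.card H → q = t ∨ q = u ∨ q = w
  comm : ∀ x y : V, x * y = y * x
  inj : Function.Injective ρ
  cop : (Nat.card H).Coprime (Nat.card V)
  nt1 : ∀ a b c : H, a * b = b * a → a * c = c * a → b * c = c * b → (orderOf a).Prime →
    (orderOf b).Prime → (orderOf c).Prime → orderOf a ≠ orderOf b → orderOf a ≠ orderOf c →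
    orderOf b ≠ orderOf c → False
  nt2 : ∀ a b : H, a * b = b * a → (orderOf a).Prime → (orderOf b).Prime → orderOf a ≠ orderOf b →
    ∀ v, ρ a v = v → ρ b v = v → v = 1
  irr : ∀ X : Subgroup H, X.Normal → X ≠ ⊥ → ∀ v, (∀ x ∈ X, ρ x v = v) → v = 1
  e_tu : Edge H t u
  e_tw : Edge H t w
  e_uw : Edge H u w
  r_t : Rk2 H t
  r_u : Rk2 H u
  r_w : Rk2 H w
  vne : (⊤ : Subgroup V) ≠ ⊥

namespace Setup3

variable {ρ : H →* MulAut V} {t u w : ℕ}

theorem swap23 (s : Setup3 ρ t u w) : Setup3 ρ t w u :=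
  { s with
    hu := s.hw, hw := s.hu, htu := s.htw, htw := s.htu, huw := s.huw.symm
    primes := fun q hq hd => by
      rcases s.primes q hq hd with h | h | h
      · exact Or.inl h
      · exact Or.inr (Or.inr h)
      · exact Or.inr (Or.inl h)
    e_tu := s.e_tw, e_tw := s.e_tu, e_uw := s.e_uw.symm, r_u := s.r_w, r_w := s.r_u }

theorem swap12 (s : Setup3 ρ t u w) : Setup3 ρ u t w :=
  { s with
    ht := s.hu, hu := s.ht, htu := s.htu.symm, htw := s.huw, huw := s.htw
    primes := fun q hq hd => by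
      rcases s.primes q hq hd with h | h | h
      · exact Or.inr (Or.inl h)
      · exact Or.inl h
      · exact Or.inr (Or.inr h)
    e_tu := s.e_tu.symm, e_tw := s.e_uw, e_uw := s.e_tw, r_t := s.r_u, r_u := s.r_t }

theorem cop_sub (s : Setup3 ρ t u w) (R : Subgroup H) : (Nat.card R).Coprime (Nat.card V) :=
  Nat.Coprime.coprime_dvd_left (Subgroup.card_subgroup_dvd_card R) s.cop

theorem cop_elt (s : Setup3 ρ t u w) (a : H) : (orderOf a).Coprime (Nat.card V) :=
  Nat.Coprime.coprime_dvd_left (orderOf_dvd_natCard a) s.cop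

theorem rho_pow (ρ : H →* MulAut V) {g : H} {n : ℕ} (h : orderOf g = n) : ρ g ^ n = 1 := by
  rw [← map_pow, ← h, pow_orderOf_eq_one, map_one]

/-- An element without fixed points centralizes abelian coprime subgroups it normalizes. -/
theorem comm_of_fpf (s : Setup3 ρ t u w) {b : H} (hb : (orderOf b).Prime) (R : Subgroup H)
    (hRc : ∀ x ∈ R, ∀ y ∈ R, x * y = y * x) (hbR : ∀ r ∈ R, b * r * b⁻¹ ∈ R)
    (hcop : (Nat.card R).Coprime (orderOf b)) (hfp : Fpf ρ b) : ∀ r ∈ R, b * r = r * b := by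
  intro r hr
  have key := p2 s.comm ρ R (fun x hx y hy => by rw [← map_mul, ← map_mul, hRc x hx y hy]) b hb
    (rho_pow ρ rfl) hbR hcop (s.cop_sub R) ⊤ (fun _ _ => trivial) (fun _ _ _ _ => trivial)
    (fun v _ h => hfp v h) r hr
  have h1 : ρ (b * r * b⁻¹ * r⁻¹) = 1 := MulEquiv.ext (fun v => key v trivial)
  have h2 : b * r * b⁻¹ * r⁻¹ = 1 := s.inj (by rw [h1, map_one])
  have h3 : b * r * b⁻¹ = r := mul_inv_eq_one.mp h2
  exact mul_inv_eq_iff_eq_mul.mp h3

theorem card_coprime_of_pgroup {q r : ℕ} (hq : q.Prime) (hr : r.Prime) (hqr : q ≠ r)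
    {R : Subgroup H} (hR : IsPGroup q R) : (Nat.card R).Coprime r := by
  haveI := Fact.mk hq
  obtain ⟨k, hk⟩ := IsPGroup.iff_card.mp hR
  rw [hk]
  exact Nat.Coprime.pow_left k ((Nat.coprime_primes hq hr).mpr hqr)

/-- Rank two gives a singular element. -/
theorem exists_singular_in (s : Setup3 ρ t u w) {a b : H} {q : ℕ} (hq : q.Prime) (hab : a * b = b * a)
    (ha : orderOf a = q) (hb : orderOf b = q) (hba : b ∉ Subgroup.zpowers a) (W : Subgroup V)
    (hWa : ∀ v ∈ W, ρ a v ∈ W) (hWb : ∀ v ∈ W, ρ b v ∈ W) (hW : W ≠ ⊥) :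
    ∃ c ∈ Subgroup.closure ({a, b} : Set H), orderOf c = q ∧ ∃ v ∈ W, v ≠ 1 ∧ ρ c v = v :=
  pprime s.comm ρ hq hab ha hb hba (ha ▸ s.cop_elt a) W hWa hWb hW

theorem exists_singular (s : Setup3 ρ t u w) {a b : H} {q : ℕ} (hq : q.Prime) (hab : a * b = b * a)
    (ha : orderOf a = q) (hb : orderOf b = q) (hba : b ∉ Subgroup.zpowers a) :
    ∃ c ∈ Subgroup.closure ({a, b} : Set H), orderOf c = q ∧ ∃ v, v ≠ 1 ∧ ρ c v = v := by
  obtain ⟨c, hc, hco, v, -, hv1, hv⟩ := s.exists_singular_in hq hab ha hb hba ⊤ (fun _ _ => trivial)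
    (fun _ _ => trivial) s.vne
  exact ⟨c, hc, hco, v, hv1, hv⟩

/-- F3: an element centralizing a rank two subgroup has no fixed points. -/
theorem fpf_of_rank2 (s : Setup3 ρ t u w) {y a b : H} {q : ℕ} (hq : q.Prime) (hy : (orderOf y).Prime)
    (hyq : orderOf y ≠ q) (hab : a * b = b * a) (ha : orderOf a = q) (hb : orderOf b = q)
    (hba : b ∉ Subgroup.zpowers a) (hya : y * a = a * y) (hyb : y * b = b * y) : Fpf ρ y := by
  intro v hv
  by_contra hv1
  obtain ⟨c, hc, hco, v', hv', hv1', hvc⟩ := s.exists_singular_in hq hab ha hb hba (fixSub ρ y)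
    (fun v hv => fixSub_inv hya.symm hv) (fun v hv => fixSub_inv hyb.symm hv) (fixSub_ne_bot hv1 hv)
  have hcy : c * y = y * c := by
    have hle : Subgroup.closure ({a, b} : Set H) ≤ Subgroup.centralizer ({y} : Set H) := by
      rw [Subgroup.closure_le]
      rintro x (rfl | rfl)
      · exact mem_cz.mpr hya.symm
      · exact mem_cz.mpr hyb.symm
    exact mem_cz.mp (hle hc)
  exact hv1' (s.nt2 c y hcy (by rw [hco]; exact hq) hy (by rw [hco]; exact hyq.symm) v' hvc hv')

/-- A nontrivial element of a `t`-group commuting with `y`, `z` is impossible. -/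
theorem no_triple_pgroup (s : Setup3 ρ t u w) {R : Subgroup H} (hR : IsPGroup t R) {y z r : H}
    (hy : orderOf y = u) (hz : orderOf z = w) (hyz : y * z = z * y) (hr : r ∈ R) (hr1 : r ≠ 1)
    (hry : y * r = r * y) (hrz : z * r = r * z) : False := by
  obtain ⟨r', hr', hro, -⟩ := exists_mem_order s.ht hR hr hr1
  have h1 : y * r' = r' * y := commute_of_mem_zpowers hr' hry
  have h2 : z * r' = r' * z := commute_of_mem_zpowers hr' hrz
  exact s.nt1 r' y z h1.symm h2.symm hyz (by rw [hro]; exact s.ht) (by rw [hy]; exact s.hu)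
    (by rw [hz]; exact s.hw) (by rw [hro, hy]; exact s.htu) (by rw [hro, hz]; exact s.htw)
    (by rw [hy, hz]; exact s.huw)

/-- F1, half. -/
theorem f1_half (s : Setup3 ρ t u w) (R : Subgroup H) (hRc : ∀ x ∈ R, ∀ y ∈ R, x * y = y * x)
    (hRt : IsPGroup t R) {y z : H} (hyo : orderOf y = u) (hzo : orderOf z = w) (hyz : y * z = z * y)
    (hyR : ∀ r ∈ R, y * r * y⁻¹ ∈ R) (hzR : ∀ r ∈ R, z * r * z⁻¹ ∈ R)
    (hnc : ¬ ∀ r ∈ R, z * r = r * z) : ∀ r ∈ R, z * r = r * z → r = 1 := by
  classical
  -- `z` has fixed points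
  have hsing : ¬ Fpf ρ z := fun hfp =>
    hnc (s.comm_of_fpf (by rw [hzo]; exact s.hw) R hRc hzR
      (by rw [hzo]; exact card_coprime_of_pgroup s.ht s.hw s.htw hRt) hfp)
  unfold Fpf at hsing
  push Not at hsing
  obtain ⟨v₀, hv₀, hv₀1⟩ := hsing
  let A : Subgroup H := R ⊓ Subgroup.centralizer ({z} : Set H)
  have hAR : A ≤ R := inf_le_left
  have hAz : ∀ c ∈ A, c * z = z * c := fun c hc => mem_cz.mp hc.2
  have hAp : IsPGroup t A := hRt.to_le hAR
  have hyA : ∀ c ∈ A, y * c * y⁻¹ ∈ A := by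
    intro c hc
    refine ⟨hyR c hc.1, mem_cz.mpr ?_⟩
    have h1 := hAz c hc
    calc y * c * y⁻¹ * z = y * c * (y⁻¹ * z * y) * y⁻¹ := by group
      _ = y * c * z * y⁻¹ := by
        have : y⁻¹ * z * y = z := by rw [mul_assoc, ← hyz]; group
        rw [this]
      _ = y * (c * z) * y⁻¹ := by group
      _ = y * (z * c) * y⁻¹ := by rw [h1]
      _ = (y * z) * c * y⁻¹ := by group
      _ = (z * y) * c * y⁻¹ := by rw [hyz]
      _ = z * (y * c * y⁻¹) := by group
  have key := p2 s.comm ρ A (fun a ha b hb => by rw [← map_mul, ← map_mul, hRc a ha.1 b hb.1]) y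
    (w := u) (by exact s.hu) (rho_pow ρ hyo) hyA
    (card_coprime_of_pgroup s.ht s.hu s.htu hAp) (s.cop_sub A) (fixSub ρ z)
    (fun v hv => fixSub_inv hyz hv) (fun r hr v hv => fixSub_inv (hAz r hr) hv)
    (fun v hv h => s.nt2 y z hyz (by rw [hyo]; exact s.hu) (by rw [hzo]; exact s.hw)
      (by rw [hyo, hzo]; exact s.huw) v h hv)
  have hcomm : ∀ c ∈ A, y * c = c * y := by
    intro c hc
    set d := y * c * y⁻¹ * c⁻¹ with hd
    have hdA : d ∈ A := A.mul_mem (hyA c hc) (A.inv_mem hc)
    by_cases hd1 : d = 1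
    · have h3 : y * c * y⁻¹ = c := mul_inv_eq_one.mp hd1
      exact mul_inv_eq_iff_eq_mul.mp h3
    · exfalso
      obtain ⟨d', hd', hdo, -⟩ := exists_mem_order s.ht hAp hdA hd1
      have hfix : ρ d' v₀ = v₀ := fix_of_mem_zpowers hd' (key c hc v₀ hv₀)
      have hdz : d' * z = z * d' := (commute_of_mem_zpowers hd' (hAz d hdA).symm).symm
      exact hv₀1 (s.nt2 d' z hdz (by rw [hdo]; exact s.ht) (by rw [hzo]; exact s.hw)
        (by rw [hdo, hzo]; exact s.htw) v₀ hfix hv₀)
  intro r hr hzr
  by_contra hr1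
  have hrA : r ∈ A := ⟨hr, mem_cz.mpr hzr.symm⟩
  exact s.no_triple_pgroup hRt hyo hzo hyz hr hr1 (hcomm r hrA) hzr

/-- F1. -/
theorem f1 (s : Setup3 ρ t u w) (R : Subgroup H) (hRc : ∀ x ∈ R, ∀ y ∈ R, x * y = y * x)
    (hRt : IsPGroup t R) {y z : H} (hyo : orderOf y = u) (hzo : orderOf z = w) (hyz : y * z = z * y)
    (hyR : ∀ r ∈ R, y * r * y⁻¹ ∈ R) (hzR : ∀ r ∈ R, z * r * z⁻¹ ∈ R) :
    ((∀ r ∈ R, y * r = r * y) ∧ ∀ r ∈ R, z * r = r * z → r = 1) ∨
      ((∀ r ∈ R, z * r = r * z) ∧ ∀ r ∈ R, y * r = r * y → r = 1) := by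
  classical
  by_cases hyc : ∀ r ∈ R, y * r = r * y
  · by_cases hzc : ∀ r ∈ R, z * r = r * z
    · left
      refine ⟨hyc, fun r hr h => ?_⟩
      by_contra hr1
      exact s.no_triple_pgroup hRt hyo hzo hyz hr hr1 (hyc r hr) h
    · exact Or.inl ⟨hyc, s.f1_half R hRc hRt hyo hzo hyz hyR hzR hzc⟩
  · by_cases hzc : ∀ r ∈ R, z * r = r * z
    · exact Or.inr ⟨hzc, s.swap23.f1_half R hRc hRt hzo hyo hyz.symm hzR hyR hyc⟩
    · exfalso
      have h1 := s.f1_half R hRc hRt hyo hzo hyz hyR hzR hzc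
      have h2 := s.swap23.f1_half R hRc hRt hzo hyo hyz.symm hzR hyR hyc
      -- average over `yz`
      have hu' := s.hu
      have hw' := s.hw
      haveI := Fact.mk hu'
      haveI := Fact.mk hw'
      have hcuw : u.Coprime w := (Nat.coprime_primes hu' hw').mpr s.huw
      have hcm : Commute y z := hyz
      have hyu : y ^ u = 1 := hyo ▸ pow_orderOf_eq_one y
      have hzw : z ^ w = 1 := hzo ▸ pow_orderOf_eq_one z
      set b := y * z with hb
      have hbn : b ^ (u * w) = 1 := by
        rw [hb, hcm.mul_pow, pow_mul, hyu, one_pow, one_mul, mul_comm, pow_mul, hzw, one_pow]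
      -- powers of `b`
      have hbpy : ∃ m : ℕ, b ^ m = y := by
        obtain ⟨m, -, hm⟩ := Nat.exists_mul_mod_eq_one_of_coprime hcuw.symm hu'.one_lt
        refine ⟨w * m, ?_⟩
        rw [hb, hcm.mul_pow, pow_mul z, hzw, one_pow, mul_one, pow_eq_pow_mod _ hyu, hm, pow_one]
      have hbpz : ∃ m : ℕ, b ^ m = z := by
        obtain ⟨m, -, hm⟩ := Nat.exists_mul_mod_eq_one_of_coprime hcuw hw'.one_lt
        refine ⟨u * m, ?_⟩
        rw [hb, hcm.mul_pow, pow_mul y, hyu, one_pow, one_mul, pow_eq_pow_mod _ hzw, hm, pow_one]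
      have hfpb : ∀ v, ρ b v = v → v = 1 := by
        intro v hv
        have hpow : ∀ i : ℕ, ρ (b ^ i) v = v := by
          intro i
          induction i with
          | zero => simp
          | succ i ih => rw [pow_succ, map_mul, MulAut.mul_apply, hv, ih]
        obtain ⟨m₁, hm₁⟩ := hbpy
        obtain ⟨m₂, hm₂⟩ := hbpz
        have h3 := hpow m₁
        have h4 := hpow m₂
        rw [hm₁] at h3
        rw [hm₂] at h4
        exact s.nt2 y z hyz (by rw [hyo]; exact hu') (by rw [hzo]; exact hw')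
          (by rw [hyo, hzo]; exact s.huw) v h3 h4
      have hbR : ∀ r ∈ R, b * r * b⁻¹ ∈ R := by
        intro r hr
        have : b * r * b⁻¹ = y * (z * r * z⁻¹) * y⁻¹ := by rw [hb]; group
        rw [this]
        exact hyR _ (hzR r hr)
      have hfree : ∀ i, 0 < i → i < u * w → ∀ c ∈ R.map ρ, c * ρ b ^ i = ρ b ^ i * c → c = 1 := by
        rintro i hi0 hi _ ⟨r, hr, rfl⟩ hcomm
        have hr' : r * b ^ i = b ^ i * r := by
          apply s.inj
          simpa using hcomm
        have hrc : ∀ k : ℕ, r * (b ^ i) ^ k = (b ^ i) ^ k * r :=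
          fun k => (show Commute r (b ^ i) from hr').pow_right k |>.eq
        have hbi : ∀ k : ℕ, (b ^ i) ^ k = y ^ (i * k) * z ^ (i * k) := by
          intro k
          rw [← pow_mul, hb, hcm.mul_pow]
        have hr1 : r = 1 := by
          by_cases hui : u ∣ i
          · -- then `w` does not divide `i`
            have hwi : ¬ w ∣ i := by
              intro hwi
              have := Nat.Coprime.mul_dvd_of_dvd_of_dvd hcuw hui hwi
              have := Nat.le_of_dvd hi0 this
              omega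
            have hcop : (i * u).Coprime w := by
              rw [Nat.coprime_comm]
              apply (Nat.Prime.coprime_iff_not_dvd hw').mpr
              intro h
              rcases (Nat.Prime.dvd_mul hw').mp h with h | h
              · exact hwi h
              · exact s.huw ((Nat.prime_dvd_prime_iff_eq hw' hu').mp h).symm
            have h5 := hrc u
            rw [hbi, mul_comm i u, pow_mul y, hyu, one_pow, one_mul, mul_comm u i] at h5
            obtain ⟨e, he⟩ := exists_pow_pow_eq hw'.one_lt hzw hcop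
            have h6 : r * z = z * r := by
              have := (show Commute r (z ^ (i * u)) from h5).pow_right e
              rwa [he] at this
            exact h1 r hr h6.symm
          · have hcop : (i * w).Coprime u := by
              rw [Nat.coprime_comm]
              apply (Nat.Prime.coprime_iff_not_dvd hu').mpr
              intro h
              rcases (Nat.Prime.dvd_mul hu').mp h with h | h
              · exact hui h
              · exact s.huw ((Nat.prime_dvd_prime_iff_eq hu' hw').mp h)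
            have h5 := hrc w
            rw [hbi, mul_comm i w, pow_mul z, hzw, one_pow, mul_one, mul_comm w i] at h5
            obtain ⟨e, he⟩ := exists_pow_pow_eq hu'.one_lt hyu hcop
            have h6 : r * y = y * r := by
              have := (show Commute r (y ^ (i * w)) from h5).pow_right e
              rwa [he] at this
            exact h2 r hr h6.symm
        rw [hr1, map_one]
      have hall := pstar_hom s.comm (R.map ρ) (ρ b) (n := u * w) (Nat.mul_pos hu'.pos hw'.pos)
        (by rw [← map_pow, hbn, map_one])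
        (by
          rintro _ ⟨r, hr, rfl⟩
          exact ⟨b * r * b⁻¹, hbR r hr, by simp⟩)
        hfree ⊤ (fun _ _ => trivial) (fun _ _ _ _ => trivial) (fun v _ h => hfpb v h)
        (Nat.Coprime.coprime_dvd_left (Subgroup.card_map_dvd R ρ) (s.cop_sub R))
      apply hzc
      intro r hr
      have h5 : ρ r = 1 := MulEquiv.ext (fun v => hall (ρ r) ⟨r, hr, rfl⟩ v trivial)
      have h6 : r = 1 := s.inj (by rw [h5, map_one])
      rw [h6]; simp

/-- `T1_module` in the centralizer of a singular element. -/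
theorem no_both (s : Setup3 ρ t u w) [Group.IsSolvable H] {g : H} (hg : orderOf g = t) {v : V}
    (hv1 : v ≠ 1) (hv : ρ g v = v) (hud : u ∣ Nat.card (Subgroup.centralizer ({g} : Set H)))
    (hwd : w ∣ Nat.card (Subgroup.centralizer ({g} : Set H))) : False := by
  classical
  let M := Subgroup.centralizer ({g} : Set H)
  haveI hMs : Group.IsSolvable M := inferInstance
  obtain ⟨K, hKM, hKπ, hKd⟩ := exists_hall_sub ({u, w} : Set ℕ) M hMs
  have hud' := hKd u s.hu (by simp) hud
  have hwd' := hKd w s.hw (by simp) hwd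
  haveI : Group.IsSolvable K := inferInstance
  let ρ' : K →* MulAut V := ρ.comp K.subtype
  have hgc : ∀ x : K, x.1 * g = g * x.1 := fun x => mem_cz.mp (hKM x.2)
  rcases t1_module s.comm ρ' s.hu s.hw s.huw (s.cop_sub K) (fixSub ρ g)
    (fun x v hv => fixSub_inv (hgc x) hv) (fixSub_ne_bot hv1 hv)
    (by
      intro q hq hd
      rcases hKπ q hq hd with h | h
      · exact Or.inl h
      · exact Or.inr h) hud' hwd' with ⟨x, y, hx, hy, hxy⟩ | ⟨c, hc, v', hv', hv1', hvc⟩
  · have hx' : orderOf x.1 = u := by rw [Subgroup.orderOf_coe]; exact hx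
    have hy' : orderOf y.1 = w := by rw [Subgroup.orderOf_coe]; exact hy
    exact s.nt1 g x.1 y.1 (hgc x).symm (hgc y).symm (congrArg Subtype.val hxy)
      (by rw [hg]; exact s.ht) (by rw [hx']; exact s.hu) (by rw [hy']; exact s.hw)
      (by rw [hg, hx']; exact s.htu) (by rw [hg, hy']; exact s.htw) (by rw [hx', hy']; exact s.huw)
  · have hc' : orderOf c.1 = u ∨ orderOf c.1 = w := by
      rw [Subgroup.orderOf_coe]; exact hc
    have hcp : (orderOf c.1).Prime := by
      rcases hc' with h | h <;> rw [h]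
      · exact s.hu
      · exact s.hw
    have hne : orderOf g ≠ orderOf c.1 := by
      rw [hg]
      rcases hc' with h | h <;> rw [h]
      · exact s.htu
      · exact s.htw
    exact hv1' (s.nt2 g c.1 (hgc c).symm (by rw [hg]; exact s.ht) hcp hne v' hv' hvc)

end Setup3

end Cfsg.Agent.Lib.S3814
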