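import Mathlib
import Cfsg.Agent.Lib.S3814.Setup
import Cfsg.Agent.Lib.Components.Fitting

/-!
# The faithful irreducible situation: no normal elementary abelian subgroup of rank two
-/

set_option autoImplicit false
set_option linter.style.haveILetI false
set_option linter.unusedSectionVars false
set_option linter.style.longLine false
set_option linter.unusedVariables false
set_option maxHeartbeats 4000000

namespace Cfsg.Agent.Lib.S3814

open Cfsg

universe u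

section fit

variable {K : Type*} [Group K] [Finite K]

theorem mem_fitting_of_forall_pCore [Group.IsSolvable K] {x : K}
    (hx : ∀ p : ℕ, p.Prime → ∀ y ∈ Cfsg.pCore p K, x * y = y * x) : x ∈ Cfsg.fittingSubgroup K := by
  have hle : Subgroup.centralizer (Cfsg.fittingSubgroup K : Set K) ≤ Cfsg.fittingSubgroup K :=
    Cfsg.Agent.Lib.Components.Fitting.le_fitting_of_solvable_of_le_centralizer _ le_rfl
      Subgroup.le_normalizer inferInstance
  apply hle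
  rw [Subgroup.mem_centralizer_iff]
  have h2 : Cfsg.fittingSubgroup K ≤ Subgroup.centralizer ({x} : Set K) := by
    rw [Cfsg.Agent.Lib.Nilpotent.Fitting.fittingSubgroup_eq_iSup_primes]
    apply iSup_le
    intro p y hy
    exact mem_cz.mpr (hx p p.2 y hy).symm
  intro y hy
  exact mem_cz.mp (h2 hy)

theorem isPGroup_of_primes {P : Subgroup K} {u : ℕ} (hu : u.Prime)
    (h : ∀ p : ℕ, p.Prime → p ∣ Nat.card P → p = u) : IsPGroup u P := by
  haveI := Fact.mk hu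
  have := Nat.eq_prime_pow_of_unique_prime_dvd (n := Nat.card P) (p := u) Nat.card_pos.ne'
    (fun {d} hd hdd => h d hd hdd)
  exact IsPGroup.of_card this

theorem hall_dvd {π : Set ℕ} {L M : Subgroup K} (hK : IsPiHallOf π L M) {p : ℕ} (hp : p.Prime)
    (hπ : p ∈ π) (hd : p ∣ Nat.card M) : p ∣ Nat.card L := by
  have h1 := Cfsg.Agent.Lib.Coprime.InvHall.card_mul_relIndex hK.1
  rw [← h1] at hd
  rcases (Nat.Prime.dvd_mul hp).mp hd with h | h
  · exact h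
  · exact absurd h (hK.2.2 p hp hπ)

theorem normalizer_zpowers_of {g y : K} (h : g * y * g⁻¹ ∈ Subgroup.zpowers y) :
    g ∈ Subgroup.normalizer ((Subgroup.zpowers y : Subgroup K) : Set K) := by
  apply Cfsg.Agent.Lib.Coprime.Three.mem_normalizer_of_conj_mem
  intro v hv
  obtain ⟨k, rfl⟩ := Subgroup.mem_zpowers_iff.mp hv
  rw [← conj_zpow]
  exact Subgroup.zpow_mem _ h k

theorem zpowers_comm' {y : K} : ∀ x ∈ Subgroup.zpowers y, ∀ x' ∈ Subgroup.zpowers y, x * x' = x' * x := by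
  intro x hx x' hx'
  exact commute_of_mem_zpowers hx' (commute_of_mem_zpowers hx rfl).symm

theorem orderOf_conj' (g x : K) : orderOf (g * x * g⁻¹) = orderOf x := by
  simpa using MulEquiv.orderOf_eq (MulAut.conj g) x

/-- A group whose elements `x` all have `x ^ p = 1` gives a card dividing a power. -/
theorem card_primes_of_isPGroup {P : Subgroup K} {u p : ℕ} (hu : u.Prime) (hP : IsPGroup u P)
    (hp : p.Prime) (hd : p ∣ Nat.card P) : p = u := by
  haveI := Fact.mk hu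
  obtain ⟨k, hk⟩ := IsPGroup.iff_card.mp hP
  rw [hk] at hd
  exact (Nat.prime_dvd_prime_iff_eq hp hu).mp (hp.dvd_of_dvd_pow hd)

theorem prime_dvd_of_mem_pCore {p : ℕ} (hp : p.Prime) {y : K} (hy : y ∈ Cfsg.pCore p K) (hy1 : y ≠ 1) :
    p ∣ Nat.card K := by
  haveI := Fact.mk hp
  obtain ⟨m, hm⟩ := exists_pow_order hp (Cfsg.Agent.Lib.Nilpotent.Fitting.isPGroup_pCore p) hy hy1
  rw [← hm]
  exact orderOf_dvd_natCard _

end fit

variable {H V : Type u} [Group H] [Finite H] [Group V] [Finite V]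

namespace Setup3

variable {ρ : H →* MulAut V} {t u w : ℕ}

theorem case31_aux (s : Setup3 ρ t u w) [Group.IsSolvable H] (R : Subgroup H) (hRn : R.Normal)
    (hRc : ∀ x ∈ R, ∀ y ∈ R, x * y = y * x) (hRe : ∀ x ∈ R, x ^ t = 1) {a₀ b₀ : H} (ha₀R : a₀ ∈ R)
    (hb₀R : b₀ ∈ R) (ha₀ : orderOf a₀ = t) (hb₀ : orderOf b₀ = t) (hab₀ : b₀ ∉ Subgroup.zpowers a₀)
    {y z : H} (hy : orderOf y = u) (hz : orderOf z = w) (hyz : y * z = z * y)
    (hyC : ∀ r ∈ R, y * r = r * y) : False := by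
  classical
  have ht := s.ht
  have hu := s.hu
  have hw := s.hw
  haveI := Fact.mk ht
  haveI := Fact.mk hu
  haveI := Fact.mk hw
  have hRp : IsPGroup t R := fun x => ⟨1, Subtype.ext (by simpa using hRe x.1 x.2)⟩
  have habc : a₀ * b₀ = b₀ * a₀ := hRc a₀ ha₀R b₀ hb₀R
  haveI : R.Normal := hRn
  let C : Subgroup H := Subgroup.centralizer (R : Set H)
  have hCn : C.Normal := Subgroup.normal_centralizer
  have memC : ∀ g, g ∈ C ↔ ∀ r ∈ R, r * g = g * r := fun g => Subgroup.mem_centralizer_iff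
  have hCfpf : ∀ g ∈ C, (orderOf g).Prime → orderOf g ≠ t → Fpf ρ g := by
    intro g hg hp hne
    exact s.fpf_of_rank2 ht hp hne habc ha₀ hb₀ hab₀ ((memC g).mp hg a₀ ha₀R).symm ((memC g).mp hg b₀ hb₀R).symm
  have hyC' : y ∈ C := (memC y).mpr (fun r hr => (hyC r hr).symm)
  have hwC : ¬ w ∣ Nat.card C := by
    intro hwd
    obtain ⟨c, hc, hco, v, hv1, hv⟩ := s.exists_singular ht habc ha₀ hb₀ hab₀
    have hcR : c ∈ R := (Subgroup.closure_le R).mpr (by rintro x (rfl | rfl) <;> assumption) hc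
    have hle : C ≤ Subgroup.centralizer ({c} : Set H) := fun g hg => mem_cz.mpr ((memC g).mp hg c hcR).symm
    have hdvd := Subgroup.card_dvd_of_le hle
    exact s.no_both hco hv1 hv (dvd_trans (hy ▸ Subgroup.orderOf_dvd_natCard C hyC') hdvd) (dvd_trans hwd hdvd)
  have hwnot : ∀ g ∈ C, orderOf g ≠ w := fun g hg h => hwC (h ▸ Subgroup.orderOf_dvd_natCard C hg)
  have hNR : ∀ g, ∀ r ∈ R, g * r * g⁻¹ ∈ R := fun g r hr => hRn.conj_mem r hr g
  have hf1 : ∀ y' z', orderOf y' = u → orderOf z' = w → y' * z' = z' * y' →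
      (∀ r ∈ R, y' * r = r * y') ∧ ∀ r ∈ R, z' * r = r * z' → r = 1 := by
    intro y' z' h1 h2 h3
    rcases s.f1 R hRc hRp h1 h2 h3 (hNR y') (hNR z') with h | h
    · exact h
    · exfalso
      exact hwnot z' ((memC z').mpr (fun r hr => (h.1 r hr).symm)) h2
  have hunique : ∀ P : Subgroup H, P ≤ C → IsPGroup u P → ∀ x₁ ∈ P, ∀ x₂ ∈ P, orderOf x₁ = u →
      orderOf x₂ = u → x₁ ∈ Subgroup.zpowers x₂ := by
    intro P hPC hPp x₁ hx₁ x₂ hx₂ h1 h2
    by_contra hne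
    obtain ⟨a, b, ha, hb, hao, hbo, hab, hba⟩ := exists_comm_pair P hu hPp hx₁ hx₂ h1 h2 hne
    obtain ⟨c, hc, hco, v, hv1, hv⟩ := s.exists_singular hu hab hao hbo hba
    have hcP : c ∈ P := (Subgroup.closure_le P).mpr (by rintro x (rfl | rfl) <;> assumption) hc
    exact hv1 (hCfpf c (hPC hcP) (by rw [hco]; exact hu) (by rw [hco]; exact s.htu.symm) v hv)
  obtain ⟨U, hyU⟩ := Cfsg.Agent.Lib.Basic.SylowUtil.exists_sylow_of_orderOf (p := u) (k := 1) (x := y)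
    (by rw [hy, pow_one])
  have hUp : IsPGroup u (U : Subgroup H) := U.2
  have hUC : IsPGroup u ((U : Subgroup H) ⊓ C : Subgroup H) := hUp.to_le inf_le_left
  have hyUC : y ∈ (U : Subgroup H) ⊓ C := ⟨hyU, hyC'⟩
  have hycen : ∀ g ∈ (U : Subgroup H), g * y = y * g := by
    intro g hg
    obtain ⟨k, hk⟩ := (IsPGroup.iff_orderOf.mp hUp) ⟨g, hg⟩
    rw [Subgroup.orderOf_mk] at hk
    have hm : g * y * g⁻¹ ∈ (U : Subgroup H) ⊓ C :=
      ⟨(U : Subgroup H).mul_mem ((U : Subgroup H).mul_mem hg hyU) ((U : Subgroup H).inv_mem hg),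
        hCn.conj_mem y hyC' g⟩
    have ho : orderOf (g * y * g⁻¹) = u := by rw [orderOf_conj', hy]
    have := hunique _ inf_le_right hUC _ hm y hyUC ho hy
    exact commute_of_normalize_prime (k := k) hu hy (hk ▸ pow_orderOf_eq_one g) this
  obtain ⟨b₁, b₂, hb₁, hb₂, hb₁₂, hb₂₁⟩ := s.r_w
  have hb₁p : b₁ ^ w = 1 := hb₁ ▸ pow_orderOf_eq_one b₁
  have hb₂p : b₂ ^ w = 1 := hb₂ ▸ pow_orderOf_eq_one b₂
  let A : Subgroup H := Subgroup.closure {b₁, b₂}
  have hAp : IsPGroup w A := closure_pair_isPGroup hb₁₂ hb₁p hb₂p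
  have hAN : A ≤ Subgroup.normalizer (C : Set H) := by
    rw [Subgroup.normalizer_eq_top_iff.mpr hCn]; exact le_top
  have hAcop : (Nat.card A).Coprime (Nat.card C) := by
    obtain ⟨k, hk⟩ := IsPGroup.iff_card.mp hAp
    rw [hk]
    exact Nat.Coprime.pow_left k ((Nat.Prime.coprime_iff_not_dvd hw).mpr hwC)
  have hsolvC : Group.IsSolvable C := inferInstance
  obtain ⟨P, hP, hAP⟩ := Cfsg.Agent.Lib.Coprime.InvHall.exists_inv_hall hAN hAcop hsolvC ({u} : Set ℕ)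
  obtain ⟨P₁, hP₁, -, hyP₁⟩ := Cfsg.Agent.Lib.Coprime.InvHall.exists_inv_hall_ge ⊥ C (by simp)
    (by simp) hsolvC ({u} : Set ℕ) (Subgroup.zpowers y) ((Subgroup.zpowers_le).mpr hyC') (by simp)
    (by
      intro p hp hd
      rw [Nat.card_zpowers, hy] at hd
      exact (Nat.prime_dvd_prime_iff_eq hp hu).mp hd)
  obtain ⟨c, hcC, hc⟩ := Cfsg.Agent.Lib.Coprime.InvHall.hall_conj hsolvC hP₁ hP
  have hPp : IsPGroup u P := isPGroup_of_primes hu (fun p hp hd => hP.2.1 p hp hd)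
  have hy₁P : c * y * c⁻¹ ∈ P := by
    rw [← hc]
    exact ⟨y, hyP₁ (Subgroup.mem_zpowers y), rfl⟩
  have hy₁o : orderOf (c * y * c⁻¹) = u := by rw [orderOf_conj', hy]
  have hAy : ∀ x ∈ A, (c⁻¹ * x * c) * y * (c⁻¹ * x * c)⁻¹ ∈ Subgroup.zpowers y := by
    intro x hx
    have h1 : x * (c * y * c⁻¹) * x⁻¹ ∈ P := (Subgroup.mem_normalizer_iff.mp (hAP hx) _).mp hy₁P
    have h2 : x * (c * y * c⁻¹) * x⁻¹ ∈ Subgroup.zpowers (c * y * c⁻¹) :=
      hunique P hP.1 hPp _ h1 _ hy₁P (by rw [orderOf_conj', hy₁o]) hy₁o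
    obtain ⟨e, he⟩ := Subgroup.mem_zpowers_iff.mp h2
    refine Subgroup.mem_zpowers_iff.mpr ⟨e, ?_⟩
    rw [conj_zpow] at he
    calc y ^ e = c⁻¹ * (c * y ^ e * c⁻¹) * c := by group
      _ = c⁻¹ * (x * (c * y * c⁻¹) * x⁻¹) * c := by rw [he]
      _ = (c⁻¹ * x * c) * y * (c⁻¹ * x * c)⁻¹ := by group
  set b₁' := c⁻¹ * b₁ * c with hb₁'
  set b₂' := c⁻¹ * b₂ * c with hb₂'
  have hb₁'o : orderOf b₁' = w := by
    have := orderOf_conj' c⁻¹ b₁
    rw [inv_inv] at this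
    rw [hb₁', this, hb₁]
  have hb₂'o : orderOf b₂' = w := by
    have := orderOf_conj' c⁻¹ b₂
    rw [inv_inv] at this
    rw [hb₂', this, hb₂]
  have hb₁₂' : b₁' * b₂' = b₂' * b₁' := by
    calc b₁' * b₂' = c⁻¹ * (b₁ * b₂) * c := by rw [hb₁', hb₂']; group
      _ = c⁻¹ * (b₂ * b₁) * c := by rw [hb₁₂]
      _ = b₂' * b₁' := by rw [hb₁', hb₂']; group
  have hb₂₁' : b₂' ∉ Subgroup.zpowers b₁' := by
    intro h
    apply hb₂₁
    obtain ⟨k, hk⟩ := Subgroup.mem_zpowers_iff.mp h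
    refine Subgroup.mem_zpowers_iff.mpr ⟨k, ?_⟩
    have h3 : (c⁻¹ * b₁ * c⁻¹⁻¹) ^ k = c⁻¹ * b₁ ^ k * c⁻¹⁻¹ := conj_zpow
    rw [inv_inv] at h3
    rw [hb₁', hb₂', h3] at hk
    exact mul_left_cancel (mul_right_cancel hk)
  let E : Subgroup H := Subgroup.closure {b₁', b₂'}
  have hENy : E ≤ Subgroup.normalizer ((Subgroup.zpowers y : Subgroup H) : Set H) := by
    rw [Subgroup.closure_le]
    rintro x (rfl | rfl)
    · exact normalizer_zpowers_of (hAy b₁ (Subgroup.subset_closure (by simp)))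
    · exact normalizer_zpowers_of (hAy b₂ (Subgroup.subset_closure (by simp)))
  have hEpow : ∀ x ∈ E, x ^ w = 1 := (closure_pair hb₁₂' (hb₁'o ▸ pow_orderOf_eq_one b₁')
    (hb₂'o ▸ pow_orderOf_eq_one b₂')).2
  have hzpne : (Subgroup.zpowers y) ≠ ⊥ := by
    intro h
    have : y = 1 := Subgroup.zpowers_eq_bot.mp h
    rw [this] at hy
    simp at hy
    exact hu.one_lt.ne hy
  have hcwu : w.Coprime u := (Nat.coprime_primes hw hu).mpr s.huw.symm
  obtain ⟨z₀, hz₀E, hz₀o, v₀, hv₀, hv₀1, hz₀v₀⟩ := pprime_amb (Subgroup.zpowers y) zpowers_comm'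
    (hENy (Subgroup.subset_closure (by simp))) (hENy (Subgroup.subset_closure (by simp)))
    hw hb₁₂' hb₁'o hb₂'o hb₂₁' (by rw [Nat.card_zpowers, hy]; exact hcwu) hzpne
  have hz₀y : z₀ * y = y * z₀ :=
    commute_of_mem_zpowers (mem_zpowers_of_prime hu hy hv₀ hv₀1) hz₀v₀
  have hL : ∀ g, orderOf g = w → g * y = y * g → ∀ r ∈ R, g * r = r * g → r = 1 :=
    fun g hg hgy => (hf1 y g hy hg hgy.symm).2
  have hRne : R ≠ ⊥ := by
    intro h
    rw [h, Subgroup.mem_bot] at ha₀R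
    rw [ha₀R] at ha₀
    simp at ha₀
    exact ht.one_lt.ne ha₀
  have hNR' : ∀ g : H, g ∈ Subgroup.normalizer (R : Set H) := fun g => by
    rw [Subgroup.normalizer_eq_top_iff.mpr hRn]; trivial
  have hRcard : ∀ q : ℕ, q.Prime → q ≠ t → q.Coprime (Nat.card R) := by
    intro q hq hne
    exact (card_coprime_of_pgroup ht hq hne.symm hRp).symm
  obtain ⟨z₁, hz₁E, hz₁o, v₁, hv₁, hv₁1, hz₁v₁⟩ := pprime_amb R hRc (hNR' _) (hNR' _)
    hw hb₁₂' hb₁'o hb₂'o hb₂₁' (hRcard w hw s.htw.symm) hRne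
  have hz₁y : z₁ * y ≠ y * z₁ := fun h => hv₁1 (hL z₁ hz₁o h v₁ hv₁ hz₁v₁)
  have hwu : w ∣ u - 1 := dvd_sub_one_of_moves hu hw hy (hEpow z₁ hz₁E)
    ((Subgroup.mem_normalizer_iff.mp (hENy hz₁E) y).mp (Subgroup.mem_zpowers y)) hz₁y
  have hu2 : u ≠ 2 := by
    rintro h
    rw [h] at hwu
    have := Nat.le_of_dvd (by norm_num) hwu
    have := hw.two_le
    omega
  -- (8)
  obtain ⟨a', b', ha', hb', ha'o, hb'o, ha'b', hb'a'⟩ := rk2_in_sylow hu s.r_u U
  obtain ⟨y₂, hy₂U, hy₂o, hy₂y⟩ : ∃ y₂ ∈ (U : Subgroup H), orderOf y₂ = u ∧ y₂ ∉ Subgroup.zpowers y := by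
    by_cases h : a' ∈ Subgroup.zpowers y
    · refine ⟨b', hb', hb'o, fun h2 => hb'a' ?_⟩
      have ha1 : a' ≠ 1 := by
        intro h3
        rw [h3] at ha'o
        simp at ha'o
        exact hu.one_lt.ne ha'o
      have h4 : y ∈ Subgroup.zpowers a' := mem_zpowers_of_prime hu hy h ha1
      exact (Subgroup.zpowers_le.mpr h4) h2
    · exact ⟨a', ha', ha'o, h⟩
  have hU8 : ∀ x ∈ (U : Subgroup H), orderOf x = u → x ∉ Subgroup.zpowers y → ∀ g, orderOf g = w →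
      g * x ≠ x * g := by
    intro x hx hxo hxy g hg hcomm
    have h1 := (hf1 x g hxo hg hcomm.symm).1
    have hxC : x ∈ C := (memC x).mpr (fun r hr => (h1 r hr).symm)
    exact hxy (hunique _ inf_le_right hUC x ⟨hx, hxC⟩ y hyUC hxo hy)
  -- (9)
  let L : Subgroup H := Subgroup.centralizer ({y} : Set H)
  have hUL : (U : Subgroup H) ≤ L := fun g hg => mem_cz.mpr (hycen g hg)
  have hsolvL : Group.IsSolvable L := inferInstance
  obtain ⟨L₁, hL₁, -, hUL₁⟩ := Cfsg.Agent.Lib.Coprime.InvHall.exists_inv_hall_ge ⊥ L (by simp)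
    (by simp) hsolvL ({u, w} : Set ℕ) (U : Subgroup H) hUL (by simp)
    (by
      intro p hp hd
      left
      exact card_primes_of_isPGroup hu hUp hp hd)
  have hL₁L : L₁ ≤ L := hL₁.1
  have hwL : w ∣ Nat.card L := by
    have : z₀ ∈ L := mem_cz.mpr hz₀y
    exact hz₀o ▸ Subgroup.orderOf_dvd_natCard L this
  have hwL₁ : w ∣ Nat.card L₁ := hall_dvd hL₁ hw (by simp) hwL
  haveI hsolvK : Group.IsSolvable L₁ := inferInstance
  obtain ⟨z', hz'o⟩ := exists_prime_orderOf_dvd_card' w hwL₁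
  have hz'oH : orderOf z'.1 = w := by rw [Subgroup.orderOf_coe]; exact hz'o
  have hKprimes : ∀ p : ℕ, p.Prime → p ∣ Nat.card L₁ → p = u ∨ p = w := fun p hp hd => hL₁.2.1 p hp hd
  have hL₁y : ∀ g ∈ L₁, g * y = y * g := fun g hg => mem_cz.mp (hL₁L hg)
  -- (10)
  have hOw : Cfsg.pCore w L₁ = ⊥ := by
    by_contra hne
    obtain ⟨A₁, hA₁N, hA₁n, hA₁b, hA₁c, hA₁e, -, -⟩ := exists_elem_normal (Cfsg.pCore w L₁)
      (Cfsg.Agent.Lib.Nilpotent.Fitting.pCore_normal w) hw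
      (Cfsg.Agent.Lib.Nilpotent.Fitting.isPGroup_pCore w) hne
    obtain ⟨a₁, ha₁⟩ := Subgroup.ne_bot_iff_exists_ne_one.mp hA₁b
    have ha₁1 : a₁.1 ≠ 1 := fun h => ha₁ (Subtype.ext h)
    have ha₁o : orderOf a₁.1 = w := orderOf_eq_prime (hA₁e a₁.1 a₁.2) ha₁1
    have ha₁oH : orderOf a₁.1.1 = w := by rw [Subgroup.orderOf_coe]; exact ha₁o
    have hcyc : ∀ b ∈ A₁, b ∈ Subgroup.zpowers a₁.1 := by
      intro b hb
      by_contra hbn
      have hb1 : b ≠ 1 := fun h => hbn (h ▸ Subgroup.one_mem _)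
      have hbo : orderOf b = w := orderOf_eq_prime (hA₁e b hb) hb1
      have hboH : orderOf b.1 = w := by rw [Subgroup.orderOf_coe]; exact hbo
      obtain ⟨c', hc', hco', v, hv, hv1, hcv⟩ := pprime_amb R hRc (hNR' a₁.1.1) (hNR' b.1) hw
        (congrArg Subtype.val (hA₁c a₁.1 a₁.2 b hb)) ha₁oH hboH
        (by
          intro h
          apply hbn
          obtain ⟨k, hk⟩ := Subgroup.mem_zpowers_iff.mp h
          exact Subgroup.mem_zpowers_iff.mpr ⟨k, Subtype.ext (by simpa using hk)⟩)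
        (hRcard w hw s.htw.symm) hRne
      have hcL : c' ∈ L₁ := (Subgroup.closure_le L₁).mpr (by
        rintro x (rfl | rfl)
        · exact a₁.1.2
        · exact b.2) hc'
      exact hv1 (hL c' hco' (hL₁y c' hcL) v hv hcv)
    let y₂' : L₁ := ⟨y₂, hUL₁ hy₂U⟩
    have h1 : y₂' * a₁.1 * y₂'⁻¹ ∈ Subgroup.zpowers a₁.1 := hcyc _ (hA₁n.conj_mem _ a₁.2 _)
    have h2 : y₂' * a₁.1 ≠ a₁.1 * y₂' := by
      intro h
      refine hU8 y₂ hy₂U hy₂o hy₂y a₁.1.1 ha₁oH ?_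
      exact (congrArg Subtype.val h).symm
    have h3 : y₂' ^ u = 1 := Subtype.ext (by simpa [y₂'] using hy₂o ▸ pow_orderOf_eq_one y₂)
    have h4 : u ∣ w - 1 := dvd_sub_one_of_moves hw hu ha₁o h3 h1 h2
    have h5 := Nat.le_of_dvd (by have := hw.two_le; omega) h4
    have h6 := Nat.le_of_dvd (by have := hu.two_le; omega) hwu
    have := hu.two_le
    have := hw.two_le
    omega
  -- (11)
  have hnc : ¬ ∀ x ∈ Cfsg.pCore u L₁, z' * x = x * z' := by
    intro hcen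
    have hmem : z' ∈ Cfsg.fittingSubgroup L₁ := mem_fitting_of_forall_pCore (by
      intro p hp y' hy'
      by_cases hy1 : y' = 1
      · rw [hy1]; simp
      · rcases hKprimes p hp (prime_dvd_of_mem_pCore hp hy' hy1) with rfl | rfl
        · exact hcen y' hy'
        · rw [hOw] at hy'
          exact absurd (Subgroup.mem_bot.mp hy') hy1)
    have h1 := Cfsg.Agent.Lib.Nilpotent.Fitting.mem_pCore_of_mem_nilpotent_normal
      Cfsg.Agent.Lib.Nilpotent.Fitting.isNilpotent_fittingSubgroup hmem (k := 1) (p := w)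
      (by rw [hz'o, pow_one])
    rw [hOw, Subgroup.mem_bot] at h1
    rw [h1] at hz'o
    simp at hz'o
    exact hw.one_lt.ne hz'o
  let Q : Subgroup H := (Cfsg.pCore u L₁).map L₁.subtype
  have hQp : IsPGroup u Q := (Cfsg.Agent.Lib.Nilpotent.Fitting.isPGroup_pCore u).map L₁.subtype
  have hQU : Q ≤ (U : Subgroup H) := by
    have hU' : IsPGroup u ((U : Subgroup H).subgroupOf L₁) := hUp.comap_subtype
    obtain ⟨S, hS⟩ := hU'.exists_le_sylow
    have hSm : IsPGroup u ((S : Subgroup L₁).map L₁.subtype) := S.2.map L₁.subtype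
    have hle : (U : Subgroup H) ≤ (S : Subgroup L₁).map L₁.subtype := by
      intro x hx
      exact ⟨⟨x, hUL₁ hx⟩, hS hx, rfl⟩
    have heq := Cfsg.Agent.Lib.Basic.SylowUtil.eq_of_sylow_le hSm U hle
    rintro _ ⟨x, hx, rfl⟩
    rw [← heq]
    exact ⟨x, Cfsg.Agent.Lib.Nilpotent.Fitting.pCore_le_sylow u S hx, rfl⟩
  have hzL₁ : ∀ g ∈ Subgroup.zpowers z'.1, g ∈ L₁ := fun g hg =>
    (Subgroup.zpowers_le.mpr z'.2) hg
  obtain ⟨V₀, hV₀Q, hV₀Λ, hV₀b, hV₀e, hV₀d, hV₀g, hV₀c⟩ := min_lemma hu hu2 Q hQp z'.1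
    (by rw [hz'oH]; exact hcwu) (Subgroup.zpowers z'.1) (Subgroup.mem_zpowers _)
    (by
      rintro g hg _ ⟨x, hx, rfl⟩
      have h1 := (Cfsg.Agent.Lib.Nilpotent.Fitting.pCore_normal (G := L₁) u).conj_mem x hx ⟨g, hzL₁ g hg⟩
      exact ⟨_, h1, rfl⟩)
    (by
      intro g hg
      have : g * z'.1 = z'.1 * g := (commute_of_mem_zpowers (g := z'.1) hg rfl).symm
      rw [this]
      simp)
    (by
      intro h
      apply hnc
      intro x hx
      exact Subtype.ext (h x.1 ⟨x, hx, rfl⟩))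
  have hV₀U : V₀ ≤ (U : Subgroup H) := hV₀Q.trans hQU
  have hV₀up : IsPGroup u V₀ := hUp.to_le hV₀U
  have hz'y : z'.1 * y = y * z'.1 := hL₁y z'.1 z'.2
  have hzC : Subgroup.zpowers y ≤ C := Subgroup.zpowers_le.mpr hyC'
  have hcommC : ∀ x ∈ V₀, ∀ x' ∈ V₀, x * x' * x⁻¹ * x'⁻¹ ∈ C := by
    intro x hx x' hx'
    set d := x * x' * x⁻¹ * x'⁻¹ with hd
    have hdV : d ∈ V₀ := V₀.mul_mem (V₀.mul_mem (V₀.mul_mem hx hx') (V₀.inv_mem hx)) (V₀.inv_mem hx')
    by_cases hd1 : d = 1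
    · rw [hd1]; exact C.one_mem
    · have hdo : orderOf d = u := orderOf_eq_prime (hV₀e d hdV) hd1
      by_contra hdC
      have hdy : d ∉ Subgroup.zpowers y := fun h => hdC (hzC h)
      exact hU8 d (hV₀U hdV) hdo hdy z'.1 hz'oH (hV₀d x hx x' hx')
  have key := p2_amb R V₀ hRc (fun g _ => hNR' g)
    (by
      intro x hx x' hx' v hv
      have hd := hcommC x hx x' hx'
      have h1 : x * x' = (x * x' * x⁻¹ * x'⁻¹) * (x' * x) := by group
      have hv' := hNR' (x' * x)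
      have h2 : (x' * x) * v * (x' * x)⁻¹ ∈ R := hNR _ v hv
      have h3 := (memC _).mp hd _ h2
      rw [h1]
      set d := x * x' * x⁻¹ * x'⁻¹ with hd'
      set e := (x' * x) * v * (x' * x)⁻¹ with he
      calc d * (x' * x) * v * (d * (x' * x))⁻¹ = d * e * d⁻¹ := by rw [he]; group
        _ = e * d * d⁻¹ := by rw [h3]
        _ = e := by group)
    z'.1 (hNR' _) hw (hz'oH ▸ pow_orderOf_eq_one z'.1)
    (hV₀Λ z'.1 (Subgroup.mem_zpowers _))
    (card_coprime_of_pgroup hu hw s.huw hV₀up)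
    (by
      obtain ⟨k, hk⟩ := IsPGroup.iff_card.mp hV₀up
      rw [hk]
      exact Nat.Coprime.pow_left k (hRcard u hu s.htu.symm))
    (by
      intro v hv h
      have h1 : z'.1 * v = v * z'.1 := mul_inv_eq_iff_eq_mul.mp h
      exact hL z'.1 hz'oH hz'y v hv h1)
  have hV₀C : V₀ ≤ C := hV₀g C (by
    intro v hv
    rw [memC]
    intro r hr
    have h1 := key v hv r hr
    exact (mul_inv_eq_iff_eq_mul.mp h1).symm)
  apply hV₀b
  intro x hx
  by_cases hx1 : x = 1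
  · rw [hx1]; simp
  · have hxo : orderOf x = u := orderOf_eq_prime (hV₀e x hx) hx1
    have hxy : x ∈ Subgroup.zpowers y := hunique _ inf_le_right hUC x ⟨hV₀U hx, hV₀C hx⟩ y hyUC hxo hy
    exact commute_of_mem_zpowers hxy hz'y

/-- III.1. -/
theorem case31 (s : Setup3 ρ t u w) [Group.IsSolvable H] (R : Subgroup H) (hRn : R.Normal)
    (hRc : ∀ x ∈ R, ∀ y ∈ R, x * y = y * x) (hRe : ∀ x ∈ R, x ^ t = 1) {a₀ b₀ : H} (ha₀R : a₀ ∈ R)
    (hb₀R : b₀ ∈ R) (ha₀ : orderOf a₀ = t) (hb₀ : orderOf b₀ = t) (hab₀ : b₀ ∉ Subgroup.zpowers a₀) :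
    False := by
  obtain ⟨y, z, hy, hz, hyz⟩ := s.e_uw
  have hRp : IsPGroup t R := fun x => ⟨1, Subtype.ext (by simpa using hRe x.1 x.2)⟩
  rcases s.f1 R hRc hRp hy hz hyz (fun r hr => hRn.conj_mem r hr y) (fun r hr => hRn.conj_mem r hr z) with
    h | h
  · exact s.case31_aux R hRn hRc hRe ha₀R hb₀R ha₀ hb₀ hab₀ hy hz hyz h.1
  · exact s.swap23.case31_aux R hRn hRc hRe ha₀R hb₀R ha₀ hb₀ hab₀ hz hy hyz.symm h.1

end Setup3

end Cfsg.Agent.Lib.S3814
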