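import Mathlib
import Cfsg.Agent.Lib.S3814.Case31
import Cfsg.Agent.Lib.Basic.PCore

/-!
# Central elements of prime order in the faithful irreducible situation
-/

set_option autoImplicit false
set_option linter.style.haveILetI false
set_option linter.unusedSectionVars false
set_option linter.style.longLine false
set_option linter.unusedVariables false
set_option maxHeartbeats 4000000

namespace Cfsg.Agent.Lib.S3814

open Cfsg
open scoped commutatorElement

universe u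

theorem dvd_choose_two {t : ℕ} (ht : t.Prime) (ht2 : t ≠ 2) : t ∣ t.choose 2 := by
  have h4 : (t.choose 2) * 2 = t * (t - 1) := by
    rw [Nat.choose_two_right, Nat.div_mul_cancel]
    exact Nat.even_mul_pred_self t |>.two_dvd
  have h5 : t ∣ (t.choose 2) * 2 := by rw [h4]; exact Dvd.intro _ rfl
  exact (Nat.Coprime.dvd_of_dvd_mul_right ((Nat.coprime_primes ht Nat.prime_two).mpr ht2) h5)

theorem zpowers_pow_eq_one {K : Type*} [Group K] {r : K} {t : ℕ} (h : orderOf r = t) :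
    ∀ y ∈ Subgroup.zpowers r, y ^ t = 1 := by
  intro y hy
  obtain ⟨k, rfl⟩ := Subgroup.mem_zpowers_iff.mp hy
  rw [← zpow_natCast, ← zpow_mul, mul_comm, zpow_mul, zpow_natCast, ← h, pow_orderOf_eq_one, one_zpow]

theorem zpowers_normal_of {K : Type*} [Group K] {r : K} (hn : ∀ g, g * r * g⁻¹ ∈ Subgroup.zpowers r) :
    (Subgroup.zpowers r).Normal := by
  refine ⟨fun x hx g => ?_⟩
  obtain ⟨k, rfl⟩ := Subgroup.mem_zpowers_iff.mp hx
  rw [← conj_zpow]
  exact Subgroup.zpow_mem _ (hn g) k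

variable {H V : Type u} [Group H] [Finite H] [Group V] [Finite V]

/-- Conjugate to its translate by `r` implies a fixed point. -/
theorem not_fpf_of_conj {ρ : H →* MulAut V} (hc : ∀ x y : V, x * y = y * x) {x r g' : H} {t : ℕ} (ht : t.Prime)
    (hco : t.Coprime (Nat.card V)) (hxt : x ^ t = 1) (hro : orderOf r = t) (hrfpf : Fpf ρ r)
    (hxr : x * r = r * x) (hrg : g' * r = r * g') (he : g' * x * g'⁻¹ * x⁻¹ ∈ Subgroup.zpowers r)
    (he1 : g' * x * g'⁻¹ * x⁻¹ ≠ 1) (hne : (⊤ : Subgroup V) ≠ ⊥) : ∃ v, v ≠ 1 ∧ ρ x v = v := by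
  classical
  letI : CommGroup V := { ‹Group V› with mul_comm := hc }
  have hrt : r ^ t = 1 := hro ▸ pow_orderOf_eq_one r
  rcases pprime_base (ρ x) (ρ r) ht (by rw [← map_mul, hxr, map_mul])
      (by rw [← map_pow, hxt, map_one]) (by rw [← map_pow, hrt, map_one]) hco ⊤
      (fun _ _ => trivial) (fun _ _ => trivial) hne with ⟨v, -, hv1, hv⟩ | ⟨j, v, -, hv1, hv⟩
  · exact absurd (hrfpf v hv) hv1
  · set e := g' * x * g'⁻¹ * x⁻¹ with hedef
    have hre : r ∈ Subgroup.zpowers e := mem_zpowers_of_prime ht hro he he1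
    rw [← mem_powers_iff_mem_zpowers] at hre
    obtain ⟨k, hk⟩ := hre
    have hk' : e ^ k = r := hk
    have hge : g' * e = e * g' := commute_of_mem_zpowers he hrg
    have hxe : x * e = e * x := commute_of_mem_zpowers he hxr
    have hpow : ∀ n : ℕ, g' ^ n * x * (g' ^ n)⁻¹ = e ^ n * x := by
      intro n
      induction n with
      | zero => simp
      | succ n ih =>
        have hgen : Commute g' (e ^ n) := (show Commute g' e from hge).pow_right n
        have hconj : g' * x * g'⁻¹ = e * x := by rw [hedef]; group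
        calc g' ^ (n + 1) * x * (g' ^ (n + 1))⁻¹ = g' * (g' ^ n * x * (g' ^ n)⁻¹) * g'⁻¹ := by
              rw [pow_succ']; group
          _ = g' * (e ^ n * x) * g'⁻¹ := by rw [ih]
          _ = (g' * e ^ n) * x * g'⁻¹ := by group
          _ = (e ^ n * g') * x * g'⁻¹ := by rw [hgen.eq]
          _ = e ^ n * (g' * x * g'⁻¹) := by group
          _ = e ^ n * (e * x) := by rw [hconj]
          _ = e ^ (n + 1) * x := by rw [pow_succ]; group
    have hrj : r ^ j = e ^ (k * j) := by rw [pow_mul, hk']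
    have hxem : x * e ^ (k * j) = e ^ (k * j) * x := (show Commute x e from hxe).pow_right _ |>.eq
    have h1 : x * r ^ j = g' ^ (k * j) * x * (g' ^ (k * j))⁻¹ := by
      rw [hpow, hrj, hxem]
    have h2 : ρ (x * r ^ j) v = v := by
      rw [map_mul, map_pow]; exact hv
    rw [h1] at h2
    refine ⟨ρ (g' ^ (k * j))⁻¹ v, ?_, ?_⟩
    · intro h
      apply hv1
      have h3 : ρ (g' ^ (k * j)) (ρ (g' ^ (k * j))⁻¹ v) = ρ (g' ^ (k * j)) 1 := by rw [h]
      rw [map_one, ← MulAut.mul_apply, ← map_mul, mul_inv_cancel, map_one] at h3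
      exact h3
    · have h3 : ρ (g' ^ (k * j)) (ρ x (ρ (g' ^ (k * j))⁻¹ v)) = v := by
        rw [← MulAut.mul_apply, ← MulAut.mul_apply, ← map_mul, ← map_mul]
        exact h2
      apply (ρ (g' ^ (k * j))).injective
      rw [h3, ← MulAut.mul_apply, ← map_mul, mul_inv_cancel, map_one]
      rfl

/-- A normal subgroup generated by a central element of prime order with good properties. -/
structure Rad (ρ : H →* MulAut V) (t : ℕ) (r : H) : Prop where
  ho : orderOf r = t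
  hn : ∀ g, g * r * g⁻¹ ∈ Subgroup.zpowers r
  hfpf : Fpf ρ r
  huniq : ∀ N : Subgroup H, N.Normal → IsPGroup t N → ∀ x ∈ N, x ^ t = 1 →
    (∀ y ∈ N, x * y = y * x) → x ∈ Subgroup.zpowers r

variable {ρ : H →* MulAut V} {t u w : ℕ} {r r' : H}

theorem Setup3.exists_rad (s : Setup3 ρ t u w) [Group.IsSolvable H] (hQ : Cfsg.pCore t H ≠ ⊥) :
    ∃ r, Rad ρ t r ∧ r ∈ Cfsg.pCore t H := by
  classical
  have ht := s.ht
  haveI := Fact.mk ht
  obtain ⟨A, hAQ, hAn, hAb, hAc, hAe, hAz, -⟩ := exists_elem_normal (Cfsg.pCore t H)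
    (Cfsg.Agent.Lib.Nilpotent.Fitting.pCore_normal t) ht (Cfsg.Agent.Lib.Nilpotent.Fitting.isPGroup_pCore t) hQ
  obtain ⟨a₁, ha₁⟩ := Subgroup.ne_bot_iff_exists_ne_one.mp hAb
  have hr1 : a₁.1 ≠ 1 := fun h => ha₁ (Subtype.ext h)
  have hro : orderOf a₁.1 = t := orderOf_eq_prime (hAe a₁.1 a₁.2) hr1
  set r₀ := a₁.1 with hr₀
  have hr₀A : r₀ ∈ A := a₁.2
  have hA : ∀ b ∈ A, b ∈ Subgroup.zpowers r₀ := by
    intro b hb
    by_contra h
    have hb1 : b ≠ 1 := fun h2 => h (h2 ▸ Subgroup.one_mem _)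
    have hbo : orderOf b = t := orderOf_eq_prime (hAe b hb) hb1
    exact s.case31 A hAn hAc hAe hr₀A hb hro hbo h
  have hn : ∀ g, g * r₀ * g⁻¹ ∈ Subgroup.zpowers r₀ := fun g => hA _ (hAn.conj_mem r₀ hr₀A g)
  have hzn : (Subgroup.zpowers r₀).Normal := zpowers_normal_of hn
  have hzb : Subgroup.zpowers r₀ ≠ ⊥ := by
    intro h
    exact hr1 (Subgroup.zpowers_eq_bot.mp h)
  refine ⟨r₀, ⟨hro, hn, ?_, ?_⟩, hAQ hr₀A⟩
  · intro v hv
    exact s.irr _ hzn hzb v (fun x hx => fix_of_mem_zpowers hx hv)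
  · intro N hNn hNp x hxN hxt hxc
    by_contra hxr
    have hx1 : x ≠ 1 := fun h2 => hxr (h2 ▸ Subgroup.one_mem _)
    have hxo : orderOf x = t := orderOf_eq_prime hxt hx1
    have hNb : N ≠ ⊥ := by
      intro h
      rw [h, Subgroup.mem_bot] at hxN
      exact hx1 hxN
    obtain ⟨A', hA'N, hA'n, -, hA'c, hA'e, hA'z, hA'full⟩ := exists_elem_normal N hNn ht hNp hNb
    have hxA' := hA'full x hxN hxt hxc
    have hrc : ∀ y ∈ A', y * r₀ = r₀ * y := fun y hy =>
      commute_of_normalize_prime (k := 1) ht hro (by rw [pow_one]; exact hA'e y hy) (hn y)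
    obtain ⟨h1, h2⟩ := sup_comm_exp A' (Subgroup.zpowers r₀) hA'c zpowers_comm'
      (fun y hy z hz => (commute_of_mem_zpowers hz (hrc y hy))) hA'e (zpowers_pow_eq_one hro)
    haveI := hA'n
    haveI := hzn
    exact s.case31 (A' ⊔ Subgroup.zpowers r₀) inferInstance h1 h2
      ((le_sup_right : Subgroup.zpowers r₀ ≤ _) (Subgroup.mem_zpowers r₀))
      ((le_sup_left : A' ≤ _) hxA') hro hxo hxr

namespace Rad

theorem comm_t (hr : Rad ρ t r) (ht : t.Prime) {a : H} {k : ℕ} (ha : a ^ (t ^ k) = 1) : a * r = r * a :=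
  commute_of_normalize_prime ht hr.ho ha (hr.hn a)

theorem comm_of_mem (hr : Rad ρ t r) (ht : t.Prime) {P : Subgroup H} (hP : IsPGroup t P) {a : H} (ha : a ∈ P) :
    a * r = r * a := by
  haveI := Fact.mk ht
  obtain ⟨k, hk⟩ := (IsPGroup.iff_orderOf.mp hP) ⟨a, ha⟩
  rw [Subgroup.orderOf_mk] at hk
  exact hr.comm_t ht (hk ▸ pow_orderOf_eq_one a)

theorem ne_one (hr : Rad ρ t r) (ht : t.Prime) : r ≠ 1 := by
  intro h
  have := hr.ho
  rw [h] at this
  simp at this
  exact ht.one_lt.ne this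

/-- C2. -/
theorem c2 (hr : Rad ρ t r) (s : Setup3 ρ t u w) {y z : H} (hyp : (orderOf y).Prime) (hzp : (orderOf z).Prime)
    (hne : orderOf y ≠ orderOf z) (hyz : y * z = z * y) (hyr : y * r = r * y) (hzr : z * r ≠ r * z) :
    Fpf ρ y := by
  have ht := s.ht
  have htz : t.Coprime (orderOf z) := by
    apply (Nat.coprime_primes ht hzp).mpr
    intro h
    apply hzr
    exact hr.comm_t ht (k := 1) (by rw [pow_one, h]; exact pow_orderOf_eq_one z)
  have hcard : Nat.card (Subgroup.zpowers r) = t := by rw [Nat.card_zpowers, hr.ho]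
  have key := p2 s.comm ρ (Subgroup.zpowers r)
    (fun a ha b hb => by rw [← map_mul, ← map_mul, zpowers_comm' a ha b hb]) z hzp
    (Setup3.rho_pow ρ rfl) (zpowers_normal_of hr.hn |>.conj_mem · · z)
    (by rw [hcard]; exact htz) (by rw [hcard, ← hr.ho]; exact s.cop_elt r) (fixSub ρ y)
    (fun v hv => fixSub_inv hyz.symm hv)
    (fun a ha v hv => fixSub_inv (commute_of_mem_zpowers ha hyr).symm hv)
    (fun v hv h => s.nt2 z y hyz.symm hzp hyp hne.symm v h hv)
  intro v hv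
  have hc1 : z * r * z⁻¹ * r⁻¹ ≠ 1 := by
    intro h
    have h2 : z * r * z⁻¹ = r := mul_inv_eq_one.mp h
    exact hzr (mul_inv_eq_iff_eq_mul.mp h2)
  have hcm : z * r * z⁻¹ * r⁻¹ ∈ Subgroup.zpowers r :=
    Subgroup.mul_mem _ (hr.hn z) (Subgroup.inv_mem _ (Subgroup.mem_zpowers r))
  have hrc : r ∈ Subgroup.zpowers (z * r * z⁻¹ * r⁻¹) := mem_zpowers_of_prime ht hr.ho hcm hc1
  have h1 : ρ (z * r * z⁻¹ * r⁻¹) v = v := key r (Subgroup.mem_zpowers r) v hv
  exact hr.hfpf v (fix_of_mem_zpowers hrc h1)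

/-- An element moving `r` has fixed points. -/
theorem not_fpf_of_moves (hr : Rad ρ t r) (s : Setup3 ρ t u w) {z : H} (hzp : (orderOf z).Prime)
    (hzr : z * r ≠ r * z) : ¬ Fpf ρ z := by
  intro hfp
  have ht := s.ht
  have htz : t.Coprime (orderOf z) := by
    apply (Nat.coprime_primes ht hzp).mpr
    intro h
    apply hzr
    exact hr.comm_t ht (k := 1) (by rw [pow_one, h]; exact pow_orderOf_eq_one z)
  have hcard : Nat.card (Subgroup.zpowers r) = t := by rw [Nat.card_zpowers, hr.ho]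
  exact hzr (s.comm_of_fpf hzp (Subgroup.zpowers r) zpowers_comm' (zpowers_normal_of hr.hn |>.conj_mem · · z)
    (by rw [hcard]; exact htz) hfp r (Subgroup.mem_zpowers r))

/-- (U). -/
theorem mem_of_comm (hr : Rad ρ t r) (s : Setup3 ρ t u w) {z₀ x : H} (hzp : (orderOf z₀).Prime)
    (hzt : orderOf z₀ ≠ t) (hz₀r : z₀ * r = r * z₀) (hsing : ¬ Fpf ρ z₀) (hxo : orderOf x = t)
    (hxz : x * z₀ = z₀ * x) : x ∈ Subgroup.zpowers r := by
  by_contra hxr
  have ht := s.ht
  unfold Fpf at hsing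
  push Not at hsing
  obtain ⟨v₀, hv₀, hv₀1⟩ := hsing
  have hrx : r * x = x * r := (hr.comm_t ht (k := 1) (by rw [pow_one, ← hxo]; exact pow_orderOf_eq_one x)).symm
  obtain ⟨c, hc, hco, v, hv, hv1, hvc⟩ := s.exists_singular_in ht hrx hr.ho hxo hxr (fixSub ρ z₀)
    (fun v hv => fixSub_inv hz₀r.symm hv) (fun v hv => fixSub_inv hxz hv) (fixSub_ne_bot hv₀1 hv₀)
  have hcz : c * z₀ = z₀ * c := by
    have hle : Subgroup.closure ({r, x} : Set H) ≤ Subgroup.centralizer ({z₀} : Set H) := by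
      rw [Subgroup.closure_le]
      rintro y (rfl | rfl)
      · exact mem_cz.mpr hz₀r.symm
      · exact mem_cz.mpr hxz
    exact mem_cz.mp (hle hc)
  exact hv1 (s.nt2 c z₀ hcz (by rw [hco]; exact ht) hzp (by rw [hco]; exact hzt.symm) v hvc hv)

/-- `P'` on `⟨r⟩`. -/
theorem exists_comm (hr : Rad ρ t r) (ht : t.Prime) {a b : H} {q : ℕ} (hq : q.Prime) (hqt : q ≠ t)
    (hab : a * b = b * a) (ha : orderOf a = q) (hb : orderOf b = q) (hba : b ∉ Subgroup.zpowers a) :
    ∃ c ∈ Subgroup.closure ({a, b} : Set H), orderOf c = q ∧ c * r = r * c := by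
  have hcard : Nat.card (Subgroup.zpowers r) = t := by rw [Nat.card_zpowers, hr.ho]
  have hne : Subgroup.zpowers r ≠ ⊥ := by
    intro h
    have h1 : r = 1 := Subgroup.zpowers_eq_bot.mp h
    rw [h1] at hr
    have := hr.ho
    simp at this
    exact ht.one_lt.ne this
  obtain ⟨c, hc, hco, v, hv, hv1, hcv⟩ := pprime_amb (Subgroup.zpowers r) zpowers_comm'
    (normalizer_zpowers_of (hr.hn a)) (normalizer_zpowers_of (hr.hn b)) hq hab ha hb hba
    (by rw [hcard]; exact (Nat.coprime_primes hq ht).mpr hqt) hne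
  exact ⟨c, hc, hco, commute_of_mem_zpowers (mem_zpowers_of_prime ht hr.ho hv hv1) hcv⟩

/-- Two such elements for different primes commute. -/
theorem comm_rad (hr : Rad ρ t r) (hr' : Rad ρ u r') (ht : t.Prime) (hu : u.Prime) (htu : t ≠ u) :
    r * r' = r' * r := by
  have h1 : r * r' * r⁻¹ * r'⁻¹ ∈ Subgroup.zpowers r' :=
    Subgroup.mul_mem _ (hr'.hn r) (Subgroup.inv_mem _ (Subgroup.mem_zpowers r'))
  have h2 : r * r' * r⁻¹ * r'⁻¹ ∈ Subgroup.zpowers r := by
    have : r * r' * r⁻¹ * r'⁻¹ = r * (r' * r⁻¹ * r'⁻¹) := by group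
    rw [this]
    exact Subgroup.mul_mem _ (Subgroup.mem_zpowers r) (hr.hn r' |> fun h => by
      have h3 : r' * r⁻¹ * r'⁻¹ = (r' * r * r'⁻¹)⁻¹ := by group
      rw [h3]
      exact Subgroup.inv_mem _ h)
  have h3 := pow_eq_one_of_coprime ((Nat.coprime_primes ht hu).mpr htu)
    (zpowers_pow_eq_one hr.ho _ h2) (zpowers_pow_eq_one hr'.ho _ h1)
  have h4 : r * r' * r⁻¹ = r' := mul_inv_eq_one.mp h3
  exact mul_inv_eq_iff_eq_mul.mp h4

/-- Normal `t`-subgroup commutes with `r'` of a different prime. -/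
theorem comm_normal (hr' : Rad ρ u r') (hu : u.Prime) {t : ℕ} (ht : t.Prime) (htu : t ≠ u) {Q : Subgroup H}
    (hQn : Q.Normal) (hQ : IsPGroup t Q) {x : H} (hx : x ∈ Q) : x * r' = r' * x := by
  haveI := Fact.mk ht
  have h1 : x * r' * x⁻¹ * r'⁻¹ ∈ Subgroup.zpowers r' :=
    Subgroup.mul_mem _ (hr'.hn x) (Subgroup.inv_mem _ (Subgroup.mem_zpowers r'))
  have h2 : x * r' * x⁻¹ * r'⁻¹ ∈ Q := by
    have : x * r' * x⁻¹ * r'⁻¹ = x * (r' * x⁻¹ * r'⁻¹) := by group
    rw [this]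
    exact Q.mul_mem hx (hQn.conj_mem _ (Q.inv_mem hx) r')
  obtain ⟨k, hk⟩ := (IsPGroup.iff_orderOf.mp hQ) ⟨_, h2⟩
  rw [Subgroup.orderOf_mk] at hk
  have h3 := pow_eq_one_of_coprime (Nat.Coprime.pow_left k ((Nat.coprime_primes ht hu).mpr htu))
    (hk ▸ pow_orderOf_eq_one _) (zpowers_pow_eq_one hr'.ho _ h1)
  have h4 : x * r' * x⁻¹ = r' := mul_inv_eq_one.mp h3
  exact mul_inv_eq_iff_eq_mul.mp h4

end Rad

end Cfsg.Agent.Lib.S3814
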