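import Mathlib
import Cfsg.Agent.Lib.S3814.Rad

/-!
# The unique subgroup of prime order when two primes occur in the Fitting subgroup
-/

set_option autoImplicit false
set_option linter.style.haveILetI false
set_option linter.unusedSectionVars false
set_option linter.style.longLine false
set_option linter.unusedVariables false
set_option maxHeartbeats 4000000

namespace Cfsg.Agent.Lib.S3814

open Cfsg
open scoped commutatorElement

universe u

variable {H V : Type u} [Group H] [Finite H] [Group V] [Finite V]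
variable {ρ : H →* MulAut V} {t u w : ℕ} {r r' : H}

/-- Class-two power formula. -/
theorem mul_pow_of_class_two {K : Type*} [Group K] {x y : K} {t : ℕ} (ht : t.Prime) (ht2 : t ≠ 2)
    (hxc : Commute x ⁅y, x⁆) (hyc : Commute y ⁅y, x⁆) (hx : x ^ t = 1) (hy : y ^ t = 1) :
    (x * y) ^ t = 1 := by
  rw [Cfsg.Agent.Lib.PGroup.Basic.mul_pow_of_commutator_central hxc hyc t, hx, hy]
  have h2 : ⁅y, x⁆ ^ t = 1 := by
    rw [← Cfsg.Agent.Lib.PGroup.Basic.commutator_pow_left hyc t, hy]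
    simp [commutatorElement_def]
  obtain ⟨k, hk⟩ := dvd_choose_two ht ht2
  rw [hk, pow_mul, h2, one_pow]
  simp

theorem omega_lemma (s : Setup3 ρ t u w) [Group.IsSolvable H] (hr : Rad ρ t r) (hr' : Rad ρ u r') :
    ∀ x ∈ Cfsg.pCore t H, orderOf x = t → x ∈ Subgroup.zpowers r := by
  classical
  have ht := s.ht
  have hu := s.hu
  have hw := s.hw
  haveI := Fact.mk ht
  haveI := Fact.mk hu
  haveI := Fact.mk hw
  obtain ⟨b₁, b₂, hb₁, hb₂, hb₁₂, hb₂₁⟩ := s.r_w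
  have hrr' : r * r' = r' * r := hr.comm_rad hr' ht hu s.htu
  obtain ⟨z₀, hz₀E, hz₀o, hz₀r⟩ := hr.exists_comm ht hw s.htw.symm hb₁₂ hb₁ hb₂ hb₂₁
  obtain ⟨z, hzE, hzo, hzr'⟩ := hr'.exists_comm hu hw s.huw.symm hb₁₂ hb₁ hb₂ hb₂₁
  have hrp : (orderOf r).Prime := by rw [hr.ho]; exact ht
  have hr'p : (orderOf r').Prime := by rw [hr'.ho]; exact hu
  have hz₀p : (orderOf z₀).Prime := by rw [hz₀o]; exact hw
  have hzp : (orderOf z).Prime := by rw [hzo]; exact hw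
  have hzr : z * r ≠ r * z := by
    intro h
    exact s.nt1 r r' z hrr' h.symm hzr'.symm hrp hr'p hzp (by rw [hr.ho, hr'.ho]; exact s.htu)
      (by rw [hr.ho, hzo]; exact s.htw) (by rw [hr'.ho, hzo]; exact s.huw)
  have hz₀r' : z₀ * r' ≠ r' * z₀ := by
    intro h
    exact s.nt1 r r' z₀ hrr' hz₀r.symm h.symm hrp hr'p hz₀p (by rw [hr.ho, hr'.ho]; exact s.htu)
      (by rw [hr.ho, hz₀o]; exact s.htw) (by rw [hr'.ho, hz₀o]; exact s.huw)
  have ht2 : t ≠ 2 := by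
    intro h
    have h1 : w ∣ t - 1 := dvd_sub_one_of_moves ht hw hr.ho (hzo ▸ pow_orderOf_eq_one z) (hr.hn z) hzr
    rw [h] at h1
    have := Nat.le_of_dvd (by norm_num) h1
    have := hw.two_le
    omega
  have hz₀sing : ¬ Fpf ρ z₀ := hr'.not_fpf_of_moves s.swap12 hz₀p hz₀r'
  have hU : ∀ x, orderOf x = t → x * z₀ = z₀ * x → x ∈ Subgroup.zpowers r := fun x hxo hxz =>
    hr.mem_of_comm s hz₀p (by rw [hz₀o]; exact s.htw.symm) hz₀r hz₀sing hxo hxz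
  let Q : Subgroup H := Cfsg.pCore t H
  have hQn : Q.Normal := Cfsg.Agent.Lib.Nilpotent.Fitting.pCore_normal t
  have hQp : IsPGroup t Q := Cfsg.Agent.Lib.Nilpotent.Fitting.isPGroup_pCore t
  have hS3 : ∀ x ∈ Q, orderOf x = t → ∀ g, orderOf g = w → x * g = g * x → Fpf ρ x := by
    intro x hxQ hxo g hg hxg
    have hxr' : x * r' = r' * x := hr'.comm_normal hu ht s.htu hQn hQp hxQ
    have hgp : (orderOf g).Prime := by rw [hg]; exact hw
    have hxp : (orderOf x).Prime := by rw [hxo]; exact ht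
    refine hr'.c2 s.swap12 hxp hgp (by rw [hxo, hg]; exact s.htw) hxg hxr' ?_
    intro h
    exact s.nt1 x r' g hxr' hxg h.symm hxp hr'p hgp (by rw [hxo, hr'.ho]; exact s.htu)
      (by rw [hxo, hg]; exact s.htw) (by rw [hr'.ho, hg]; exact s.huw)
  let Ω : Subgroup H := Subgroup.closure {x | x ∈ Q ∧ orderOf x = t}
  have hΩQ : Ω ≤ Q := by
    rw [Subgroup.closure_le]
    exact fun x hx => hx.1
  have hΩp : IsPGroup t Ω := hQp.to_le hΩQ
  have hΩn : Ω.Normal := by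
    refine ⟨fun x hx g => ?_⟩
    induction hx using Subgroup.closure_induction with
    | mem x hx =>
      exact Subgroup.subset_closure ⟨hQn.conj_mem x hx.1 g, by rw [orderOf_conj']; exact hx.2⟩
    | one => simp
    | mul x y _ _ h1 h2 =>
      have : g * (x * y) * g⁻¹ = (g * x * g⁻¹) * (g * y * g⁻¹) := by group
      rw [this]
      exact Ω.mul_mem h1 h2
    | inv x _ h1 =>
      have : g * x⁻¹ * g⁻¹ = (g * x * g⁻¹)⁻¹ := by group
      rw [this]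
      exact Ω.inv_mem h1
  have hgenΩ : ∀ x ∈ Q, orderOf x = t → x ∈ Ω := fun x hx hxo => Subgroup.subset_closure ⟨hx, hxo⟩
  by_cases hab : ∀ x ∈ Ω, ∀ y ∈ Ω, x * y = y * x
  · intro x hxQ hxo
    have hxΩ := hgenΩ x hxQ hxo
    exact hr.huniq Ω hΩn hΩp x hxΩ (hxo ▸ pow_orderOf_eq_one x) (hab x hxΩ)
  exfalso
  have hnc : ∃ a b : Ω, a * b ≠ b * a := by
    push Not at hab
    obtain ⟨x, hx, y, hy, hxy⟩ := hab
    exact ⟨⟨x, hx⟩, ⟨y, hy⟩, fun h => hxy (congrArg Subtype.val h)⟩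
  obtain ⟨e₀, he₀, he₀c⟩ := exists_second_center hΩp hnc
  haveI := hΩn
  let Z : Subgroup H := Ω ⊓ Subgroup.centralizer (Ω : Set H)
  have hZn : Z.Normal := inferInstance
  have hZΩ : ∀ c ∈ Z, c ∈ Ω := fun c hc => hc.1
  have hZc : ∀ c ∈ Z, ∀ g ∈ Ω, g * c = c * g := fun c hc g hg => Subgroup.mem_centralizer_iff.mp hc.2 g hg
  have hZmem : ∀ c₀ : Ω, c₀ ∈ Subgroup.center Ω → c₀.1 ∈ Z := by
    intro c₀ hc₀
    refine ⟨c₀.2, Subgroup.mem_centralizer_iff.mpr (fun g hg => ?_)⟩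
    exact congrArg Subtype.val (Subgroup.mem_center_iff.mp hc₀ ⟨g, hg⟩)
  have hZnot : ∀ c₀ : Ω, c₀.1 ∈ Z → c₀ ∈ Subgroup.center Ω := by
    intro c₀ hc₀
    rw [Subgroup.mem_center_iff]
    intro g
    exact Subtype.ext (hZc c₀.1 hc₀ g.1 g.2)
  -- second centre
  let T : Subgroup H :=
    { carrier := {x | x ∈ Ω ∧ ∀ g ∈ Ω, x * g * x⁻¹ * g⁻¹ ∈ Z}
      one_mem' := ⟨Ω.one_mem, fun g _ => by simp⟩
      mul_mem' := by
        rintro x y ⟨hx, hx2⟩ ⟨hy, hy2⟩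
        refine ⟨Ω.mul_mem hx hy, fun g hg => ?_⟩
        have h1 : (x * y) * g * (x * y)⁻¹ * g⁻¹
            = (x * (y * g * y⁻¹ * g⁻¹) * x⁻¹) * (x * g * x⁻¹ * g⁻¹) := by group
        rw [h1]
        have h2 := hZc _ (hy2 g hg) x hx
        have h3 : x * (y * g * y⁻¹ * g⁻¹) * x⁻¹ = y * g * y⁻¹ * g⁻¹ := by rw [h2]; group
        rw [h3]
        exact Z.mul_mem (hy2 g hg) (hx2 g hg)
      inv_mem' := by
        rintro x ⟨hx, hx2⟩
        refine ⟨Ω.inv_mem hx, fun g hg => ?_⟩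
        have hg₁ : x⁻¹ * g * x ∈ Ω := Ω.mul_mem (Ω.mul_mem (Ω.inv_mem hx) hg) hx
        have h1 : x⁻¹ * g * x⁻¹⁻¹ * g⁻¹ = (x * (x⁻¹ * g * x) * x⁻¹ * (x⁻¹ * g * x)⁻¹)⁻¹ := by group
        rw [h1]
        exact Z.inv_mem (hx2 _ hg₁) }
  have hTΩ : ∀ x ∈ T, x ∈ Ω := fun x hx => hx.1
  have hTcomm : ∀ x ∈ T, ∀ g ∈ Ω, x * g * x⁻¹ * g⁻¹ ∈ Z := fun x hx => hx.2
  have hTp : IsPGroup t T := hΩp.to_le hTΩ
  have hTn : T.Normal := by
    refine ⟨fun x hx g₀ => ?_⟩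
    refine ⟨hΩn.conj_mem x hx.1 g₀, fun g hg => ?_⟩
    have hg₁ : g₀⁻¹ * g * g₀ ∈ Ω := by
      have := hΩn.conj_mem g hg g₀⁻¹
      simpa using this
    have h1 : (g₀ * x * g₀⁻¹) * g * (g₀ * x * g₀⁻¹)⁻¹ * g⁻¹
        = g₀ * (x * (g₀⁻¹ * g * g₀) * x⁻¹ * (g₀⁻¹ * g * g₀)⁻¹) * g₀⁻¹ := by group
    rw [h1]
    exact hZn.conj_mem _ (hTcomm x hx _ hg₁) g₀
  -- elements of `Z` of exponent `t`
  have hZr : ∀ c ∈ Z, c ^ t = 1 → c ∈ Subgroup.zpowers r := fun c hc hct =>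
    hr.huniq Ω hΩn hΩp c hc.1 hct (fun y hy => (hZc c hc y hy).symm)
  have hcommT : ∀ x ∈ T, x ^ t = 1 → ∀ g ∈ Ω, x * g * x⁻¹ * g⁻¹ ∈ Subgroup.zpowers r := by
    intro x hx hxt g hg
    have hd := hTcomm x hx g hg
    refine hZr _ hd ?_
    have hc : Commute x ⁅x, g⁆ := (hZc _ hd x hx.1)
    have := Cfsg.Agent.Lib.PGroup.Basic.commutator_pow_left hc t
    rw [hxt] at this
    have h1 : ⁅x, g⁆ ^ t = 1 := by
      rw [← this]
      simp [commutatorElement_def]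
    exact h1
  have hS5 : ∀ x ∈ T, orderOf x = t → x ∉ Subgroup.zpowers r → ¬ Fpf ρ x := by
    intro x hx hxo hxr hfp
    have hxt : x ^ t = 1 := hxo ▸ pow_orderOf_eq_one x
    have hxZ : ¬ ∀ g ∈ Ω, g * x = x * g := by
      intro h
      apply hxr
      refine hZr x ⟨hx.1, Subgroup.mem_centralizer_iff.mpr h⟩ hxt
    push Not at hxZ
    obtain ⟨g', hg', hg'x⟩ := hxZ
    have he := hcommT x hx hxt g' hg'
    have he1 : g' * x * g'⁻¹ * x⁻¹ ∈ Subgroup.zpowers r := by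
      have h1 : g' * x * g'⁻¹ * x⁻¹ = (x * g' * x⁻¹ * g'⁻¹)⁻¹ := by group
      rw [h1]
      exact Subgroup.inv_mem _ he
    have hrg' : g' * r = r * g' := hr.comm_of_mem ht hΩp hg'
    have hxr' : x * r = r * x := hr.comm_of_mem ht hΩp hx.1
    have hne1 : g' * x * g'⁻¹ * x⁻¹ ≠ 1 := by
      intro h
      have h2 : g' * x * g'⁻¹ = x := mul_inv_eq_one.mp h
      exact hg'x (mul_inv_eq_iff_eq_mul.mp h2)
    obtain ⟨v, hv1, hv⟩ := not_fpf_of_conj s.comm ht (by rw [← hxo]; exact s.cop_elt x) hxt hr.ho hr.hfpf hxr'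
      hrg' he1 hne1 s.vne
    exact hv1 (hfp v hv)
  have hS6 : ∀ x ∈ T, orderOf x = t → ∀ g, orderOf g = w → x * g = g * x → x ∈ Subgroup.zpowers r := by
    intro x hx hxo g hg hxg
    by_contra hxr
    exact hS5 x hx hxo hxr (hS3 x (hΩQ hx.1) hxo g hg hxg)
  -- the exponent `t` part of `T`
  let Y : Subgroup H :=
    { carrier := {x | x ∈ T ∧ x ^ t = 1}
      one_mem' := ⟨T.one_mem, one_pow _⟩
      mul_mem' := by
        rintro x y ⟨hx, hx2⟩ ⟨hy, hy2⟩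
        refine ⟨T.mul_mem hx hy, ?_⟩
        have hd : ⁅y, x⁆ ∈ Z := hTcomm y hy x hx.1
        exact mul_pow_of_class_two ht ht2 (hZc _ hd x hx.1) (hZc _ hd y hy.1) hx2 hy2
      inv_mem' := by
        rintro x ⟨hx, hx2⟩
        exact ⟨T.inv_mem hx, by rw [inv_pow, hx2, inv_one]⟩ }
  have hYn : Y.Normal := by
    refine ⟨fun x hx g => ⟨hTn.conj_mem x hx.1 g, ?_⟩⟩
    rw [conj_pow, hx.2]
    group
  have hYp : IsPGroup t Y := hTp.to_le (fun x hx => hx.1)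
  let E : Subgroup H := Subgroup.closure {b₁, b₂}
  have hEc := closure_pair hb₁₂ (hb₁ ▸ pow_orderOf_eq_one b₁) (hb₂ ▸ pow_orderOf_eq_one b₂)
  have hYr : Y ≤ Subgroup.zpowers r := by
    refine Cfsg.Agent.Lib.Coprime.FrattiniAct.le_of_forall_centralizer (p := w) (U := E) ?_ ?_ ?_ ?_ ?_
    · refine ⟨⟨⟨fun a b => Subtype.ext (hEc.1 a.1 a.2 b.1 b.2)⟩⟩, hEc.2⟩
    · intro hcy
      have hb₁E : b₁ ∈ E := Subgroup.subset_closure (by simp)
      have hb₂E : b₂ ∈ E := Subgroup.subset_closure (by simp)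
      have hu' := Cfsg.Agent.Lib.PGroup.CyclicMax2.uniqueP_of_isCyclic (p := w) (A := E)
      have := hu' ⟨b₂, hb₂E⟩ ⟨b₁, hb₁E⟩ (Subtype.ext (hEc.2 b₂ hb₂E)) (Subtype.ext (hEc.2 b₁ hb₁E))
        (fun h => by
          have h1 : b₂ = 1 := congrArg Subtype.val h
          rw [h1] at hb₂
          simp at hb₂
          exact hw.one_lt.ne hb₂)
        (fun h => by
          have h1 : b₁ = 1 := congrArg Subtype.val h
          rw [h1] at hb₁
          simp at hb₁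
          exact hw.one_lt.ne hb₁)
      apply hb₂₁
      obtain ⟨k, hk⟩ := Subgroup.mem_zpowers_iff.mp this
      exact Subgroup.mem_zpowers_iff.mpr ⟨k, by simpa using congrArg Subtype.val hk⟩
    · intro hd
      have h2 := card_primes_of_isPGroup ht hYp hw hd
      exact s.htw h2.symm
    · rw [Subgroup.normalizer_eq_top_iff.mpr hYn]; exact le_top
    · intro g hg hg1
      rintro x ⟨hxY, hxg⟩
      by_cases hx1 : x = 1
      · rw [hx1]; exact Subgroup.one_mem _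
      · have hxo : orderOf x = t := orderOf_eq_prime hxY.2 hx1
        have hgo : orderOf g = w := orderOf_eq_prime (hEc.2 g hg) hg1
        exact hS6 x hxY.1 hxo g hgo (mem_cz.mp hxg)
  have hTu : ∀ x ∈ T, orderOf x = t → x ∈ Subgroup.zpowers r := fun x hx hxo =>
    hYr ⟨hx, hxo ▸ pow_orderOf_eq_one x⟩
  have hTc := comm_of_unique T ht hTp ht2 hr.ho hTu
  -- `z₀` centralizes `T`
  have hz₀T : ∀ x ∈ T, z₀ * x = x * z₀ := by
    intro x hx
    let ρT : Subgroup.normalizer (T : Set H) →* MulAut T := T.normalizerMonoidHom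
    have hz₀N : z₀ ∈ Subgroup.normalizer (T : Set H) := by
      rw [Subgroup.normalizer_eq_top_iff.mpr hTn]; trivial
    have hpw : (ρT ⟨z₀, hz₀N⟩) ^ w = 1 := by
      rw [← map_pow]
      have : (⟨z₀, hz₀N⟩ : Subgroup.normalizer (T : Set H)) ^ w = 1 :=
        Subtype.ext (by simpa using hz₀o ▸ pow_orderOf_eq_one z₀)
      rw [this, map_one]
    have h1 := fix_of_omega (V := T) (fun a b => Subtype.ext (hTc a.1 a.2 b.1 b.2)) (g := ρT ⟨z₀, hz₀N⟩) ht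
      ((Nat.coprime_primes hw ht).mpr s.htw.symm) hpw hTp
      (by
        intro v hv
        apply Subtype.ext
        show z₀ * v.1 * z₀⁻¹ = v.1
        have hvo : orderOf v.1 = t := by rw [Subgroup.orderOf_coe]; exact hv
        have hvr := hTu v.1 v.2 hvo
        have h3 : z₀ * v.1 = v.1 * z₀ := commute_of_mem_zpowers hvr hz₀r
        rw [h3]; group) ⟨x, hx⟩
    have h2 : z₀ * x * z₀⁻¹ = x := congrArg Subtype.val h1
    exact mul_inv_eq_iff_eq_mul.mp h2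
  -- the element `e`
  have heT : e₀.1 ∈ T := by
    refine ⟨e₀.2, fun g hg => ?_⟩
    exact hZmem _ (he₀c ⟨g, hg⟩)
  have heZ : e₀.1 ∉ Z := fun h => he₀ (hZnot e₀ h)
  obtain ⟨a, haQ, hao, hae⟩ : ∃ a, a ∈ Q ∧ orderOf a = t ∧ a * e₀.1 ≠ e₀.1 * a := by
    by_contra hcon
    push Not at hcon
    apply heZ
    refine ⟨e₀.2, Subgroup.mem_centralizer_iff.mpr (fun g hg => ?_)⟩
    have hle : Ω ≤ Subgroup.centralizer ({e₀.1} : Set H) := by
      rw [Subgroup.closure_le]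
      rintro x ⟨hx, hxo⟩
      exact mem_cz.mpr (hcon x hx hxo)
    exact mem_cz.mp (hle hg)
  have haΩ : a ∈ Ω := hgenΩ a haQ hao
  haveI := hTn
  let D : Subgroup H := Ω ⊓ Subgroup.centralizer (T : Set H)
  have hDn : D.Normal := inferInstance
  have hDcard : (Nat.card D).Coprime w :=
    Setup3.card_coprime_of_pgroup ht hw s.htw (hΩp.to_le inf_le_left)
  have hz₀pow : z₀ ^ (w ^ 1) = 1 := by rw [pow_one, ← hz₀o]; exact pow_orderOf_eq_one z₀
  have hdm : a⁻¹ * (z₀⁻¹ * a * z₀) ∈ D := by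
    have hm1 : a⁻¹ * (z₀⁻¹ * a * z₀) ∈ Ω := by
      refine Ω.mul_mem (Ω.inv_mem haΩ) ?_
      have := hΩn.conj_mem a haΩ z₀⁻¹
      simpa using this
    refine ⟨hm1, Subgroup.mem_centralizer_iff.mpr (fun x hx => ?_)⟩
    -- `x` is centralized by `z₀`
    have hxz : z₀ * x = x * z₀ := hz₀T x hx
    have hax : a * x * a⁻¹ ∈ T := hTn.conj_mem x hx a
    have haxz : z₀ * (a * x * a⁻¹) = (a * x * a⁻¹) * z₀ := hz₀T _ hax
    have h1 : z₀⁻¹ * (a * x * a⁻¹) * z₀ = a * x * a⁻¹ := by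
      calc z₀⁻¹ * (a * x * a⁻¹) * z₀ = z₀⁻¹ * ((a * x * a⁻¹) * z₀) := by group
        _ = z₀⁻¹ * (z₀ * (a * x * a⁻¹)) := by rw [haxz]
        _ = a * x * a⁻¹ := by group
    have h2 : z₀ * x * z₀⁻¹ = x := by rw [hxz]; group
    calc x * (a⁻¹ * (z₀⁻¹ * a * z₀)) = a⁻¹ * (a * x * a⁻¹) * z₀⁻¹ * a * z₀ := by group
      _ = a⁻¹ * (z₀⁻¹ * (a * x * a⁻¹) * z₀) * z₀⁻¹ * a * z₀ := by rw [h1]
      _ = a⁻¹ * z₀⁻¹ * (a * x * a⁻¹) * a * z₀ := by group
      _ = a⁻¹ * z₀⁻¹ * a * (x * z₀) := by group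
      _ = a⁻¹ * z₀⁻¹ * a * (z₀ * x) := by rw [hxz]
      _ = (a⁻¹ * (z₀⁻¹ * a * z₀)) * x := by group
  obtain ⟨c, hcD, hcomm⟩ := Cfsg.Agent.Lib.Coprime.CosetFixed.exists_commute_in_coset D hDcard z₀ 1 hz₀pow
    (by rw [Subgroup.normalizer_eq_top_iff.mpr hDn]; trivial) a hdm
  have ha₀Ω : a * c ∈ Ω := Ω.mul_mem haΩ hcD.1
  let J : Subgroup H := Ω ⊓ Subgroup.centralizer ({z₀} : Set H)
  have hJp : IsPGroup t J := hΩp.to_le inf_le_left
  have hJc := comm_of_unique J ht hJp ht2 hr.ho (fun x hx hxo => hU x hxo (mem_cz.mp hx.2))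
  have ha₀J : a * c ∈ J := ⟨ha₀Ω, mem_cz.mpr hcomm.eq.symm⟩
  have heJ : e₀.1 ∈ J := ⟨e₀.2, mem_cz.mpr (hz₀T _ heT).symm⟩
  have h1 := hJc _ ha₀J _ heJ
  have h2 : c * e₀.1 = e₀.1 * c := (Subgroup.mem_centralizer_iff.mp hcD.2 _ heT).symm
  apply hae
  calc a * e₀.1 = a * (c * e₀.1) * c⁻¹ := by rw [h2]; group
    _ = (a * c) * e₀.1 * c⁻¹ := by group
    _ = e₀.1 * (a * c) * c⁻¹ := by rw [h1]
    _ = e₀.1 * a := by group

end Cfsg.Agent.Lib.S3814
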