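import Mathlib
import Cfsg.Agent.Lib.S3814.Omega

/-!
# Two primes acting on two modules
-/

set_option autoImplicit false
set_option linter.style.haveILetI false
set_option linter.unusedSectionVars false
set_option linter.style.longLine false
set_option linter.unusedVariables false
set_option maxHeartbeats 4000000

namespace Cfsg.Agent.Lib.S3814

open Cfsg
open scoped commutatorElement

universe u

variable {H V₁ V₂ : Type u} [Group H] [Finite H] [Group V₁] [Finite V₁] [Group V₂] [Finite V₂]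

structure Setup2 (ρ₁ : H →* MulAut V₁) (ρ₂ : H →* MulAut V₂) (t w : ℕ) : Prop where
  ht : t.Prime
  hw : w.Prime
  htw : t ≠ w
  primes : ∀ q : ℕ, q.Prime → q ∣ Nat.card H → q = t ∨ q = w
  comm₁ : ∀ x y : V₁, x * y = y * x
  comm₂ : ∀ x y : V₂, x * y = y * x
  inj₁ : Function.Injective ρ₁
  cop₁ : (Nat.card H).Coprime (Nat.card V₁)
  cop₂ : (Nat.card H).Coprime (Nat.card V₂)
  hab : ∀ h : H, (orderOf h).Prime → ∀ v₁ v₂, ρ₁ h v₁ = v₁ → ρ₂ h v₂ = v₂ → v₁ = 1 ∨ v₂ = 1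
  hb₁ : ∀ a b : H, a * b = b * a → (orderOf a).Prime → (orderOf b).Prime → orderOf a ≠ orderOf b →
    ∀ v, ρ₁ a v = v → ρ₁ b v = v → v = 1
  hb₂ : ∀ a b : H, a * b = b * a → (orderOf a).Prime → (orderOf b).Prime → orderOf a ≠ orderOf b →
    ∀ v, ρ₂ a v = v → ρ₂ b v = v → v = 1
  r_t : Rk2 H t
  r_w : Rk2 H w
  vne₁ : (⊤ : Subgroup V₁) ≠ ⊥
  vne₂ : (⊤ : Subgroup V₂) ≠ ⊥

namespace Setup2

variable {ρ₁ : H →* MulAut V₁} {ρ₂ : H →* MulAut V₂} {t w : ℕ}

theorem swap (s : Setup2 ρ₁ ρ₂ t w) : Setup2 ρ₁ ρ₂ w t :=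
  { s with
    ht := s.hw, hw := s.ht, htw := s.htw.symm
    primes := fun q hq hd => (s.primes q hq hd).symm
    r_t := s.r_w, r_w := s.r_t }

theorem cop_elt₁ (s : Setup2 ρ₁ ρ₂ t w) (a : H) : (orderOf a).Coprime (Nat.card V₁) :=
  Nat.Coprime.coprime_dvd_left (orderOf_dvd_natCard a) s.cop₁

theorem cop_elt₂ (s : Setup2 ρ₁ ρ₂ t w) (a : H) : (orderOf a).Coprime (Nat.card V₂) :=
  Nat.Coprime.coprime_dvd_left (orderOf_dvd_natCard a) s.cop₂

/-- An involution without fixed points inverts. -/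
theorem inverts {V : Type u} [Group V] (hc : ∀ x y : V, x * y = y * x) {g : MulAut V} (hg : g ^ 2 = 1)
    (hfp : ∀ v, g v = v → v = 1) (v : V) : g v = v⁻¹ := by
  have h1 : g (g v) = v := by
    have : (g ^ 2) v = v := by rw [hg]; rfl
    rwa [pow_two, MulAut.mul_apply] at this
  have h2 : g (v * g v) = v * g v := by
    rw [map_mul, h1, hc]
  have h3 := hfp _ h2
  exact eq_inv_of_mul_eq_one_right h3

theorem good (s : Setup2 ρ₁ ρ₂ t w) [Group.IsSolvable H] (hQ : Cfsg.pCore t H ≠ ⊥) :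
    ∃ r, orderOf r = t ∧ (∀ x ∈ Cfsg.pCore t H, orderOf x = t → x ∈ Subgroup.zpowers r) ∧
      (∀ b, orderOf b = w → ∀ x ∈ Cfsg.pCore t H, b * x = x * b) ∧
      (∀ a, orderOf a = t → ∀ x ∈ Cfsg.pCore t H, a * x = x * a) := by
  classical
  have ht := s.ht
  have hw := s.hw
  haveI := Fact.mk ht
  haveI := Fact.mk hw
  have hwtc : w.Coprime t := (Nat.coprime_primes hw ht).mpr s.htw.symm
  obtain ⟨b₁, b₂, hb₁, hb₂, hb₁₂, hb₂₁⟩ := s.r_w
  have hclw : ∀ c ∈ Subgroup.closure ({b₁, b₂} : Set H), c ^ w = 1 :=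
    (closure_pair hb₁₂ (hb₁ ▸ pow_orderOf_eq_one b₁) (hb₂ ▸ pow_orderOf_eq_one b₂)).2
  have hhw : ∀ h : H, orderOf h = w → (orderOf h).Prime := fun h hh => by rw [hh]; exact hw
  have htwne : ∀ a b : H, orderOf a = t → orderOf b = w → orderOf a ≠ orderOf b := fun a b ha hb => by
    rw [ha, hb]; exact s.htw
  have htp : ∀ a : H, orderOf a = t → (orderOf a).Prime := fun h hh => by rw [hh]; exact ht
  -- a singular element on `V₂`
  obtain ⟨c₂, hc₂E, hc₂o, v₂, -, hv₂1, hv₂⟩ := pprime s.comm₂ ρ₂ hw hb₁₂ hb₁ hb₂ hb₂₁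
    (by rw [← hb₁]; exact s.cop_elt₂ b₁) ⊤ (fun _ _ => trivial) (fun _ _ => trivial) s.vne₂
  have hc₂f : ∀ v, ρ₁ c₂ v = v → v = 1 := fun v hv =>
    (s.hab c₂ (hhw c₂ hc₂o) v v₂ hv hv₂).resolve_right hv₂1
  -- faithful commutator lemma on `V₁`
  have hcomm₁ : ∀ (b : H), orderOf b = w → ∀ R : Subgroup H, (∀ x ∈ R, ∀ y ∈ R, x * y = y * x) →
      IsPGroup t R → (∀ r ∈ R, b * r * b⁻¹ ∈ R) → (∀ v, ρ₁ b v = v → v = 1) → ∀ r ∈ R, b * r = r * b := by
    intro b hbo R hRc hRp hbR hfp r hr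
    have key := p2 s.comm₁ ρ₁ R (fun x hx y hy => by rw [← map_mul, ← map_mul, hRc x hx y hy]) b hw
      (Setup3.rho_pow ρ₁ hbo) hbR (Setup3.card_coprime_of_pgroup ht hw s.htw hRp)
      (Nat.Coprime.coprime_dvd_left (Subgroup.card_subgroup_dvd_card R) s.cop₁) ⊤
      (fun _ _ => trivial) (fun _ _ _ _ => trivial) (fun v _ h => hfp v h) r hr
    have h1 : ρ₁ (b * r * b⁻¹ * r⁻¹) = 1 := MulEquiv.ext (fun v => key v trivial)
    have h2 : b * r * b⁻¹ * r⁻¹ = 1 := s.inj₁ (by rw [h1, map_one])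
    have h3 : b * r * b⁻¹ = r := mul_inv_eq_one.mp h2
    exact mul_inv_eq_iff_eq_mul.mp h3
  -- S1
  have hS1 : ∀ R : Subgroup H, R.Normal → (∀ x ∈ R, ∀ y ∈ R, x * y = y * x) → (∀ x ∈ R, x ^ t = 1) →
      ∀ a ∈ R, ∀ b ∈ R, orderOf a = t → orderOf b = t → b ∈ Subgroup.zpowers a := by
    intro R hRn hRc hRe a ha b hb hao hbo
    by_contra hne
    have hRp : IsPGroup t R := fun x => ⟨1, Subtype.ext (by simpa using hRe x.1 x.2)⟩
    have hc₂R := hcomm₁ c₂ hc₂o R hRc hRp (fun r hr => hRn.conj_mem r hr c₂) hc₂f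
    obtain ⟨x, hx, hxo, v, hv, hv1, hxv⟩ := pprime s.comm₂ ρ₂ ht (hRc a ha b hb) hao hbo hne
      (by rw [← hao]; exact s.cop_elt₂ a) (fixSub ρ₂ c₂)
      (fun v hv => fixSub_inv (hc₂R a ha).symm hv) (fun v hv => fixSub_inv (hc₂R b hb).symm hv)
      (fixSub_ne_bot hv₂1 hv₂)
    have hxR : x ∈ R := (Subgroup.closure_le R).mpr (by rintro y (rfl | rfl) <;> assumption) hx
    exact hv1 (s.hb₂ x c₂ (hc₂R x hxR).symm (htp x hxo) (hhw c₂ hc₂o) (htwne x c₂ hxo hc₂o) v hxv hv)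
  -- the element `r`
  obtain ⟨A, hAQ, hAn, hAb, hAc, hAe, hAz, -⟩ := exists_elem_normal (Cfsg.pCore t H)
    (Cfsg.Agent.Lib.Nilpotent.Fitting.pCore_normal t) ht (Cfsg.Agent.Lib.Nilpotent.Fitting.isPGroup_pCore t) hQ
  obtain ⟨a₁, ha₁⟩ := Subgroup.ne_bot_iff_exists_ne_one.mp hAb
  have hr1 : a₁.1 ≠ 1 := fun h => ha₁ (Subtype.ext h)
  have hro : orderOf a₁.1 = t := orderOf_eq_prime (hAe a₁.1 a₁.2) hr1
  set r := a₁.1 with hrdef
  have hrA : r ∈ A := a₁.2
  have hA : ∀ b ∈ A, b ∈ Subgroup.zpowers r := by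
    intro b hb
    by_cases hb1 : b = 1
    · rw [hb1]; exact Subgroup.one_mem _
    · exact hS1 A hAn hAc hAe r hrA b hb hro (orderOf_eq_prime (hAe b hb) hb1)
  have hn : ∀ g, g * r * g⁻¹ ∈ Subgroup.zpowers r := fun g => hA _ (hAn.conj_mem r hrA g)
  have hzn : (Subgroup.zpowers r).Normal := zpowers_normal_of hn
  haveI := hzn
  have hzpow := zpowers_pow_eq_one hro
  have hcard : Nat.card (Subgroup.zpowers r) = t := by rw [Nat.card_zpowers, hro]
  have hzp : IsPGroup t (Subgroup.zpowers r) := fun x => ⟨1, Subtype.ext (by simpa using hzpow x.1 x.2)⟩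
  have hcomm_t : ∀ a : H, ∀ k, a ^ (t ^ k) = 1 → a * r = r * a := fun a k ha =>
    commute_of_normalize_prime ht hro ha (hn a)
  have hcomm_P : ∀ P : Subgroup H, IsPGroup t P → ∀ a ∈ P, a * r = r * a := by
    intro P hP a ha
    obtain ⟨k, hk⟩ := (IsPGroup.iff_orderOf.mp hP) ⟨a, ha⟩
    rw [Subgroup.orderOf_mk] at hk
    exact hcomm_t a k (hk ▸ pow_orderOf_eq_one a)
  have huniq : ∀ N : Subgroup H, N.Normal → IsPGroup t N → ∀ x ∈ N, x ^ t = 1 →
      (∀ y ∈ N, x * y = y * x) → x ∈ Subgroup.zpowers r := by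
    intro N hNn hNp x hxN hxt hxc
    by_cases hx1 : x = 1
    · rw [hx1]; exact Subgroup.one_mem _
    have hxo : orderOf x = t := orderOf_eq_prime hxt hx1
    have hNb : N ≠ ⊥ := by
      intro h
      rw [h, Subgroup.mem_bot] at hxN
      exact hx1 hxN
    obtain ⟨A', hA'N, hA'n, -, hA'c, hA'e, hA'z, hA'full⟩ := exists_elem_normal N hNn ht hNp hNb
    have hxA' := hA'full x hxN hxt hxc
    have hrc : ∀ y ∈ A', y * r = r * y := fun y hy => hcomm_t y 1 (by rw [pow_one]; exact hA'e y hy)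
    obtain ⟨h1, h2⟩ := sup_comm_exp A' (Subgroup.zpowers r) hA'c zpowers_comm'
      (fun y hy z hz => (commute_of_mem_zpowers hz (hrc y hy))) hA'e hzpow
    haveI := hA'n
    exact hS1 (A' ⊔ Subgroup.zpowers r) inferInstance h1 h2 r
      ((le_sup_right : Subgroup.zpowers r ≤ _) (Subgroup.mem_zpowers r)) x
      ((le_sup_left : A' ≤ _) hxA') hro hxo
  -- S2
  have hc₂r : c₂ * r = r * c₂ := hcomm₁ c₂ hc₂o _ zpowers_comm' hzp (hzn.conj_mem · · c₂) hc₂f r (Subgroup.mem_zpowers r)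
  have hv₂r : ρ₂ r v₂ ≠ v₂ := by
    intro h
    exact hv₂1 (s.hb₂ r c₂ hc₂r.symm (htp r hro) (hhw c₂ hc₂o) (htwne r c₂ hro hc₂o) v₂ h hv₂)
  have hcenw : ∀ b, orderOf b = w → b * r = r * b := by
    intro b hbo
    by_cases hfp : ∀ v, ρ₁ b v = v → v = 1
    · exact hcomm₁ b hbo _ zpowers_comm' hzp (hzn.conj_mem · · b) hfp r (Subgroup.mem_zpowers r)
    · push Not at hfp
      obtain ⟨v, hv, hv1⟩ := hfp
      have hfp₂ : ∀ v', ρ₂ b v' = v' → v' = 1 := fun v' hv' =>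
        (s.hab b (hhw b hbo) v v' hv hv').resolve_left hv1
      by_contra hne
      have key := p2 s.comm₂ ρ₂ (Subgroup.zpowers r)
        (fun x hx y hy => by rw [← map_mul, ← map_mul, zpowers_comm' x hx y hy]) b hw
        (Setup3.rho_pow ρ₂ hbo) (hzn.conj_mem · · b)
        (by rw [hcard]; exact (Nat.coprime_primes ht hw).mpr s.htw)
        (by rw [hcard, ← hro]; exact s.cop_elt₂ r) ⊤ (fun _ _ => trivial) (fun _ _ _ _ => trivial)
        (fun v _ h => hfp₂ v h) r (Subgroup.mem_zpowers r) v₂ trivial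
      have hc1 : b * r * b⁻¹ * r⁻¹ ≠ 1 := by
        intro h
        have h2 : b * r * b⁻¹ = r := mul_inv_eq_one.mp h
        exact hne (mul_inv_eq_iff_eq_mul.mp h2)
      have hcm : b * r * b⁻¹ * r⁻¹ ∈ Subgroup.zpowers r :=
        Subgroup.mul_mem _ (hn b) (Subgroup.inv_mem _ (Subgroup.mem_zpowers r))
      exact hv₂r (fix_of_mem_zpowers (mem_zpowers_of_prime ht hro hcm hc1) key)
  have hb₁r := hcenw b₁ hb₁
  have hb₂r := hcenw b₂ hb₂
  have hrfpf₁ : Fpf ρ₁ r := by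
    intro v hv
    by_contra hv1
    obtain ⟨c, hc, hco, v', hv', hv1', hcv⟩ := pprime s.comm₁ ρ₁ hw hb₁₂ hb₁ hb₂ hb₂₁
      (by rw [← hb₁]; exact s.cop_elt₁ b₁) (fixSub ρ₁ r)
      (fun v hv => fixSub_inv hb₁r hv) (fun v hv => fixSub_inv hb₂r hv) (fixSub_ne_bot hv1 hv)
    exact hv1' (s.hb₁ r c (hcenw c hco).symm (htp r hro) (hhw c hco) (htwne r c hro hco) v' hv' hcv)
  have hrfpf₂ : Fpf ρ₂ r := by
    intro v hv
    by_contra hv1
    obtain ⟨c, hc, hco, v', hv', hv1', hcv⟩ := pprime s.comm₂ ρ₂ hw hb₁₂ hb₁ hb₂ hb₂₁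
      (by rw [← hb₁]; exact s.cop_elt₂ b₁) (fixSub ρ₂ r)
      (fun v hv => fixSub_inv hb₁r hv) (fun v hv => fixSub_inv hb₂r hv) (fixSub_ne_bot hv1 hv)
    exact hv1' (s.hb₂ r c (hcenw c hco).symm (htp r hro) (hhw c hco) (htwne r c hro hco) v' hv' hcv)
  -- S3
  have hS3 : ∀ a g', orderOf a = t → g' * r = r * g' → g' * a * g'⁻¹ * a⁻¹ ∈ Subgroup.zpowers r →
      g' * a * g'⁻¹ * a⁻¹ ≠ 1 → False := by
    intro a g' hao hg' he he1
    have hat : a ^ t = 1 := hao ▸ pow_orderOf_eq_one a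
    have har : a * r = r * a := hcomm_t a 1 (by rw [pow_one]; exact hat)
    obtain ⟨v₁, hv₁1, hv₁⟩ := not_fpf_of_conj s.comm₁ ht (by rw [← hao]; exact s.cop_elt₁ a) hat hro hrfpf₁ har
      hg' he he1 s.vne₁
    obtain ⟨v₂', hv₂'1, hv₂'⟩ := not_fpf_of_conj s.comm₂ ht (by rw [← hao]; exact s.cop_elt₂ a) hat hro hrfpf₂ har
      hg' he he1 s.vne₂
    rcases s.hab a (htp a hao) v₁ v₂' hv₁ hv₂' with h | h
    · exact hv₁1 h
    · exact hv₂'1 h
  -- S4
  have ht2 : t ≠ 2 := by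
    intro h2
    have hr2 : r ^ 2 = 1 := by rw [← h2, ← hro]; exact pow_orderOf_eq_one r
    obtain ⟨a', b', ha', hb', ha'b', hb'a'⟩ := s.r_t
    obtain ⟨a, hao, har⟩ : ∃ a, orderOf a = t ∧ a ≠ r := by
      by_cases h : a' = r
      · refine ⟨b', hb', fun h3 => hb'a' ?_⟩
        rw [h, h3]
        exact Subgroup.mem_zpowers r
      · exact ⟨a', ha', h⟩
    have ha2 : a ^ 2 = 1 := by rw [← h2, ← hao]; exact pow_orderOf_eq_one a
    have hacomm : Commute a r := hcomm_t a 1 (by rw [pow_one, h2]; exact ha2)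
    have hinv₁ : ∀ x : H, x ^ 2 = 1 → x ≠ r → ¬ Fpf ρ₁ x := by
      intro x hx hxr hfp
      apply hxr
      apply s.inj₁
      apply MulEquiv.ext
      intro v
      rw [inverts s.comm₁ (g := ρ₁ x) (by rw [← map_pow, hx, map_one]) hfp,
        inverts s.comm₁ (g := ρ₁ r) (by rw [← map_pow, hr2, map_one]) hrfpf₁]
    have hfix₂ : ∀ x : H, x ^ 2 = 1 → x ≠ 1 → x ≠ r → Fpf ρ₂ x := by
      intro x hx hx1 hxr v hv
      have hs := hinv₁ x hx hxr
      unfold Fpf at hs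
      push Not at hs
      obtain ⟨v', hv', hv'1⟩ := hs
      have hxo : orderOf x = 2 := orderOf_eq_prime hx hx1
      have hxp : (orderOf x).Prime := by rw [hxo]; exact Nat.prime_two
      exact (s.hab x hxp v' v hv' hv).resolve_left hv'1
    have ha1 : a ≠ 1 := by
      intro h
      rw [h] at hao
      simp at hao
      exact ht.one_lt.ne hao
    have har2 : (a * r) ^ 2 = 1 := by rw [hacomm.mul_pow, ha2, hr2, one_mul]
    have har1 : a * r ≠ 1 := by
      intro h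
      have h5 : a = r⁻¹ := eq_inv_of_mul_eq_one_left h
      have h6 : r⁻¹ = r := by
        rw [inv_eq_iff_mul_eq_one, ← pow_two, hr2]
      exact har (h5.trans h6)
    have harr : a * r ≠ r := fun h => ha1 (mul_eq_right.mp h)
    have hin₁ := inverts s.comm₂ (g := ρ₂ a) (by rw [← map_pow, ha2, map_one]) (hfix₂ a ha2 ha1 har)
    have hin₂ := inverts s.comm₂ (g := ρ₂ (a * r)) (by rw [← map_pow, har2, map_one])
      (hfix₂ _ har2 har1 harr)
    apply hv₂r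
    have h7 : ρ₂ (a * r) (ρ₂ a v₂) = v₂ := by
      rw [hin₂, hin₁, inv_inv]
    have h8 : ρ₂ (a * r) (ρ₂ a v₂) = ρ₂ r v₂ := by
      rw [← MulAut.mul_apply, ← map_mul]
      have : a * r * a = r := by rw [hacomm.eq, mul_assoc, ← pow_two, ha2, mul_one]
      rw [this]
    rw [← h8, h7]
  -- S5
  let Q : Subgroup H := Cfsg.pCore t H
  have hQn : Q.Normal := Cfsg.Agent.Lib.Nilpotent.Fitting.pCore_normal t
  have hQp : IsPGroup t Q := Cfsg.Agent.Lib.Nilpotent.Fitting.isPGroup_pCore t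
  let Ω : Subgroup H := Subgroup.closure {x | x ∈ Q ∧ orderOf x = t}
  have hΩQ : Ω ≤ Q := by
    rw [Subgroup.closure_le]
    exact fun x hx => hx.1
  have hΩp : IsPGroup t Ω := hQp.to_le hΩQ
  have hΩn : Ω.Normal := by
    refine ⟨fun x hx g => ?_⟩
    induction hx using Subgroup.closure_induction with
    | mem x hx =>
      exact Subgroup.subset_closure ⟨hQn.conj_mem x hx.1 g, by rw [orderOf_conj']; exact hx.2⟩
    | one => simp
    | mul x y _ _ h1 h2 =>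
      have : g * (x * y) * g⁻¹ = (g * x * g⁻¹) * (g * y * g⁻¹) := by group
      rw [this]
      exact Ω.mul_mem h1 h2
    | inv x _ h1 =>
      have : g * x⁻¹ * g⁻¹ = (g * x * g⁻¹)⁻¹ := by group
      rw [this]
      exact Ω.inv_mem h1
  have hgenΩ : ∀ x ∈ Q, orderOf x = t → x ∈ Ω := fun x hx hxo => Subgroup.subset_closure ⟨hx, hxo⟩
  have hab : ∀ x ∈ Ω, ∀ y ∈ Ω, x * y = y * x := by
    by_contra hab
    have hnc : ∃ a b : Ω, a * b ≠ b * a := by
      push Not at hab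
      obtain ⟨x, hx, y, hy, hxy⟩ := hab
      exact ⟨⟨x, hx⟩, ⟨y, hy⟩, fun h => hxy (congrArg Subtype.val h)⟩
    obtain ⟨e₀, he₀, he₀c⟩ := exists_second_center hΩp hnc
    obtain ⟨a, haQ, hao, hae⟩ : ∃ a, a ∈ Q ∧ orderOf a = t ∧ a * e₀.1 ≠ e₀.1 * a := by
      by_contra hcon
      push Not at hcon
      apply he₀
      rw [Subgroup.mem_center_iff]
      intro g
      have hle : Ω ≤ Subgroup.centralizer ({e₀.1} : Set H) := by
        rw [Subgroup.closure_le]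
        rintro x ⟨hx, hxo⟩
        exact mem_cz.mpr (hcon x hx hxo)
      exact Subtype.ext (mem_cz.mp (hle g.2))
    have haΩ := hgenΩ a haQ hao
    set a' : Ω := ⟨a, haΩ⟩ with ha'
    have hcen := he₀c a'
    -- the commutator `d`
    have hdc : ∀ y : Ω, y * (e₀ * a' * e₀⁻¹ * a'⁻¹) = (e₀ * a' * e₀⁻¹ * a'⁻¹) * y := fun y =>
      Subgroup.mem_center_iff.mp hcen y
    have hd1 : e₀ * a' * e₀⁻¹ * a'⁻¹ ≠ 1 := by
      intro h
      have h2 : e₀ * a' * e₀⁻¹ = a' := mul_inv_eq_one.mp h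
      have h3 : e₀ * a' = a' * e₀ := mul_inv_eq_iff_eq_mul.mp h2
      exact hae (congrArg Subtype.val h3).symm
    have hdt : (e₀ * a' * e₀⁻¹ * a'⁻¹) ^ t = 1 := by
      have hac : Commute a' ⁅e₀, a'⁆ := hdc a'
      have := Cfsg.Agent.Lib.PGroup.Basic.commutator_pow_right hac t
      have hat : a' ^ t = 1 := Subtype.ext (by simpa [ha'] using hao ▸ pow_orderOf_eq_one a)
      rw [hat] at this
      have h1 : ⁅e₀, a'⁆ ^ t = 1 := by
        rw [← this]
        simp [commutatorElement_def]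
      exact h1
    have hdr : (e₀.1 * a * e₀.1⁻¹ * a⁻¹) ∈ Subgroup.zpowers r := by
      refine huniq Ω hΩn hΩp _ (e₀ * a' * e₀⁻¹ * a'⁻¹).2 (congrArg Subtype.val hdt) ?_
      intro y hy
      exact (congrArg Subtype.val (hdc ⟨y, hy⟩)).symm
    exact hS3 a e₀.1 hao (hcomm_P Ω hΩp e₀.1 e₀.2) hdr (fun h => hd1 (Subtype.ext h))
  have hQu : ∀ x ∈ Q, orderOf x = t → x ∈ Subgroup.zpowers r := by
    intro x hxQ hxo
    have hxΩ := hgenΩ x hxQ hxo
    exact huniq Ω hΩn hΩp x hxΩ (hxo ▸ pow_orderOf_eq_one x) (hab x hxΩ)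
  have hQc := comm_of_unique Q ht hQp ht2 hro hQu
  -- S6
  have hS6 : ∀ b, orderOf b = w → ∀ x ∈ Q, b * x = x * b := by
    intro b hbo x hx
    let ρQ : Subgroup.normalizer (Q : Set H) →* MulAut Q := Q.normalizerMonoidHom
    have hbN : b ∈ Subgroup.normalizer (Q : Set H) := by
      rw [Subgroup.normalizer_eq_top_iff.mpr hQn]; trivial
    have hpw : (ρQ ⟨b, hbN⟩) ^ w = 1 := by
      rw [← map_pow]
      have : (⟨b, hbN⟩ : Subgroup.normalizer (Q : Set H)) ^ w = 1 :=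
        Subtype.ext (by simpa using hbo ▸ pow_orderOf_eq_one b)
      rw [this, map_one]
    have h1 := fix_of_omega (V := Q) (fun a b => Subtype.ext (hQc a.1 a.2 b.1 b.2)) (g := ρQ ⟨b, hbN⟩) ht
      hwtc hpw hQp
      (by
        intro v hv
        apply Subtype.ext
        show b * v.1 * b⁻¹ = v.1
        have hvo : orderOf v.1 = t := by rw [Subgroup.orderOf_coe]; exact hv
        have hvr := hQu v.1 v.2 hvo
        have h3 : b * v.1 = v.1 * b := commute_of_mem_zpowers hvr (hcenw b hbo)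
        rw [h3]; group) ⟨x, hx⟩
    have h2 : b * x * b⁻¹ = x := congrArg Subtype.val h1
    exact mul_inv_eq_iff_eq_mul.mp h2
  -- S7
  have hS7 : ∀ a, orderOf a = t → ∀ x ∈ Q, a * x = x * a := by
    intro a hao x₀ hx₀
    by_contra hne
    -- commutator map
    have hφmem : ∀ g ∈ Q, g * a * g⁻¹ * a⁻¹ ∈ Q := by
      intro g hg
      have h1 : g * a * g⁻¹ * a⁻¹ = g * (a * g⁻¹ * a⁻¹) := by group
      rw [h1]
      exact Q.mul_mem hg (hQn.conj_mem _ (Q.inv_mem hg) a)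
    have hφpow : ∀ g ∈ Q, ∀ n : ℕ, g ^ n * a * (g ^ n)⁻¹ * a⁻¹ = (g * a * g⁻¹ * a⁻¹) ^ n := by
      intro g hg n
      induction n with
      | zero => simp
      | succ n ih =>
        have h1 : g ^ (n + 1) * a * (g ^ (n + 1))⁻¹ * a⁻¹
            = g * (g ^ n * a * (g ^ n)⁻¹ * a⁻¹) * (a * g⁻¹ * a⁻¹) := by
          rw [pow_succ']; group
        rw [h1, ih, pow_succ]
        have h2 : (g * a * g⁻¹ * a⁻¹) ^ n ∈ Q := Q.pow_mem (hφmem g hg) n
        have h3 : g * (g * a * g⁻¹ * a⁻¹) ^ n = (g * a * g⁻¹ * a⁻¹) ^ n * g := hQc g hg _ h2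
        rw [h3]
        group
    set d := x₀ * a * x₀⁻¹ * a⁻¹ with hd
    have hdQ : d ∈ Q := hφmem x₀ hx₀
    have hd1 : d ≠ 1 := by
      intro h
      have h2 : x₀ * a * x₀⁻¹ = a := mul_inv_eq_one.mp h
      have h3 : x₀ * a = a * x₀ := mul_inv_eq_iff_eq_mul.mp h2
      exact hne h3.symm
    obtain ⟨m, hm⟩ := exists_pow_order ht hQp hdQ hd1
    have hdm : x₀ ^ m * a * (x₀ ^ m)⁻¹ * a⁻¹ = d ^ m := hφpow x₀ hx₀ m
    have hdmQ : d ^ m ∈ Q := Q.pow_mem hdQ m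
    have hdmr := hQu _ hdmQ hm
    refine hS3 a (x₀ ^ m) hao (hcomm_P Q hQp _ (Q.pow_mem hx₀ m)) (by rw [hdm]; exact hdmr) ?_
    rw [hdm]
    intro h
    rw [h] at hm
    simp at hm
    exact ht.one_lt.ne hm
  exact ⟨r, hro, hQu, hS6, hS7⟩

/-- The two module situation is impossible. -/
theorem case2 (s : Setup2 ρ₁ ρ₂ t w) [Group.IsSolvable H] : False := by
  classical
  have key : ∀ {t' w' : ℕ}, Setup2 ρ₁ ρ₂ t' w' → Cfsg.pCore t' H ≠ ⊥ → False := by
    intro t' w' s hQ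
    have ht := s.ht
    have hw := s.hw
    haveI := Fact.mk ht
    haveI := Fact.mk hw
    obtain ⟨r, hro, hQu, hS6, hS7⟩ := s.good hQ
    obtain ⟨a', b', ha', hb', ha'b', hb'a'⟩ := s.r_t
    obtain ⟨a, hao, har⟩ : ∃ a, orderOf a = t' ∧ a ∉ Subgroup.zpowers r := by
      by_cases h : a' ∈ Subgroup.zpowers r
      · refine ⟨b', hb', fun h2 => hb'a' ?_⟩
        have ha1 : a' ≠ 1 := by
          intro h3
          rw [h3] at ha'
          simp at ha'
          exact ht.one_lt.ne ha'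
        have h4 : r ∈ Subgroup.zpowers a' := mem_zpowers_of_prime ht hro h ha1
        exact (Subgroup.zpowers_le.mpr h4) h2
      · exact ⟨a', ha', h⟩
    have hOw : ∀ x ∈ Cfsg.pCore w' H, a * x = x * a := by
      by_cases hw' : Cfsg.pCore w' H = ⊥
      · intro x hx
        rw [hw', Subgroup.mem_bot] at hx
        rw [hx]; simp
      · obtain ⟨r₂, -, -, hS6', -⟩ := s.swap.good hw'
        exact hS6' a hao
    have haF : a ∈ Cfsg.fittingSubgroup H := by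
      apply mem_fitting_of_forall_pCore
      intro p hp y hy
      by_cases hy1 : y = 1
      · rw [hy1]; simp
      · rcases s.primes p hp (prime_dvd_of_mem_pCore hp hy hy1) with rfl | rfl
        · exact hS7 a hao y hy
        · exact hOw y hy
    have h1 := Cfsg.Agent.Lib.Nilpotent.Fitting.mem_pCore_of_mem_nilpotent_normal (p := t') (k := 1)
      Cfsg.Agent.Lib.Nilpotent.Fitting.isNilpotent_fittingSubgroup haF (by rw [hao, pow_one])
    exact har (hQu a h1 hao)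
  obtain ⟨a, b, ha, -, -, -⟩ := s.r_t
  haveI : Nontrivial H := by
    refine ⟨⟨a, 1, fun h => ?_⟩⟩
    rw [h] at ha
    simp at ha
    exact s.ht.one_lt.ne ha
  obtain ⟨ℓ, A, hℓ, hAn, hAb, hAp, -, hAe⟩ := Cfsg.Agent.Lib.Solvable.Hall.exists_normal_abelian_pSubgroup H
  haveI := hAn
  have hAle : A ≤ Cfsg.pCore ℓ H := Cfsg.Agent.Lib.Nilpotent.Fitting.le_pCore hAp
  have hne : Cfsg.pCore ℓ H ≠ ⊥ := by
    intro h
    rw [h] at hAle
    exact hAb (le_bot_iff.mp hAle)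
  have hℓd : ℓ ∣ Nat.card H := by
    haveI := Fact.mk hℓ
    obtain ⟨x, hx⟩ := Subgroup.ne_bot_iff_exists_ne_one.mp hAb
    have hx1 : x.1 ≠ 1 := fun h => hx (Subtype.ext h)
    have hxo : orderOf x.1 = ℓ := orderOf_eq_prime (hAe x.1 x.2) hx1
    rw [← hxo]
    exact orderOf_dvd_natCard _
  rcases s.primes ℓ hℓ hℓd with rfl | rfl
  · exact key s hne
  · exact key s.swap hne

end Setup2

end Cfsg.Agent.Lib.S3814
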