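import Mathlib
import Cfsg.Agent.Lib.S3814.Omega

/-!
# The faithful irreducible situation is impossible
-/

set_option autoImplicit false
set_option linter.style.haveILetI false
set_option linter.unusedSectionVars false
set_option linter.style.longLine false
set_option linter.unusedVariables false
set_option maxHeartbeats 4000000

namespace Cfsg.Agent.Lib.S3814

open Cfsg
open scoped commutatorElement

universe u

variable {H V : Type u} [Group H] [Finite H] [Group V] [Finite V]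
variable {ρ : H →* MulAut V} {t u w : ℕ} {r r' : H}

/-- Two primes in the Fitting subgroup. -/
theorem case32a (s : Setup3 ρ t u w) [Group.IsSolvable H] (hr : Rad ρ t r) (hr' : Rad ρ u r') : False := by
  classical
  have ht := s.ht
  have hu := s.hu
  have hw := s.hw
  haveI := Fact.mk ht
  haveI := Fact.mk hu
  haveI := Fact.mk hw
  obtain ⟨b₁, b₂, hb₁, hb₂, hb₁₂, hb₂₁⟩ := s.r_w
  have hrr' : r * r' = r' * r := hr.comm_rad hr' ht hu s.htu
  obtain ⟨z, hzE, hzo, hzr'⟩ := hr'.exists_comm hu hw s.huw.symm hb₁₂ hb₁ hb₂ hb₂₁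
  have hrp : (orderOf r).Prime := by rw [hr.ho]; exact ht
  have hr'p : (orderOf r').Prime := by rw [hr'.ho]; exact hu
  have hzp : (orderOf z).Prime := by rw [hzo]; exact hw
  have hzr : z * r ≠ r * z := by
    intro h
    exact s.nt1 r r' z hrr' h.symm hzr'.symm hrp hr'p hzp (by rw [hr.ho, hr'.ho]; exact s.htu)
      (by rw [hr.ho, hzo]; exact s.htw) (by rw [hr'.ho, hzo]; exact s.huw)
  obtain ⟨z₀, hz₀E, hz₀o, hz₀r⟩ := hr.exists_comm ht hw s.htw.symm hb₁₂ hb₁ hb₂ hb₂₁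
  have hz₀p : (orderOf z₀).Prime := by rw [hz₀o]; exact hw
  have hz₀r' : z₀ * r' ≠ r' * z₀ := by
    intro h
    exact s.nt1 r r' z₀ hrr' hz₀r.symm h.symm hrp hr'p hz₀p (by rw [hr.ho, hr'.ho]; exact s.htu)
      (by rw [hr.ho, hz₀o]; exact s.htw) (by rw [hr'.ho, hz₀o]; exact s.huw)
  have hQ := omega_lemma s hr hr'
  have hP := omega_lemma s.swap12 hr' hr
  have ht2 : t ≠ 2 := by
    intro h
    have h1 : w ∣ t - 1 := dvd_sub_one_of_moves ht hw hr.ho (hzo ▸ pow_orderOf_eq_one z) (hr.hn z) hzr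
    rw [h] at h1
    have := Nat.le_of_dvd (by norm_num) h1
    have := hw.two_le
    omega
  have hu2 : u ≠ 2 := by
    intro h
    have h1 : w ∣ u - 1 := dvd_sub_one_of_moves hu hw hr'.ho (hz₀o ▸ pow_orderOf_eq_one z₀) (hr'.hn z₀) hz₀r'
    rw [h] at h1
    have := Nat.le_of_dvd (by norm_num) h1
    have := hw.two_le
    omega
  have hQc : IsCyclic (Cfsg.pCore t H) :=
    cyc_of_unique _ ht (Cfsg.Agent.Lib.Nilpotent.Fitting.isPGroup_pCore t) ht2 hr.ho hQ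
  have hPc : IsCyclic (Cfsg.pCore u H) :=
    cyc_of_unique _ hu (Cfsg.Agent.Lib.Nilpotent.Fitting.isPGroup_pCore u) hu2 hr'.ho hP
  have hOw : Cfsg.pCore w H = ⊥ := by
    by_contra hne
    obtain ⟨r₂, hr₂, -⟩ := s.swap23.swap12.exists_rad hne
    have h1 := hr.comm_rad hr₂ ht hw s.htw
    have h2 := hr'.comm_rad hr₂ hu hw s.huw
    exact s.nt1 r r' r₂ hrr' h1 h2 hrp hr'p (by rw [hr₂.ho]; exact hw) (by rw [hr.ho, hr'.ho]; exact s.htu)
      (by rw [hr.ho, hr₂.ho]; exact s.htw) (by rw [hr'.ho, hr₂.ho]; exact s.huw)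
  have hprimes : ∀ p : ℕ, p.Prime → ∀ y ∈ Cfsg.pCore p H, y ≠ 1 → p = t ∨ p = u ∨ (p = w ∧ y = 1) := by
    intro p hp y hy hy1
    rcases s.primes p hp (prime_dvd_of_mem_pCore hp hy hy1) with h | h | h
    · exact Or.inl h
    · exact Or.inr (Or.inl h)
    · subst h
      rw [hOw, Subgroup.mem_bot] at hy
      exact absurd hy hy1
  let F : Subgroup H := Cfsg.fittingSubgroup H
  have hFn : F.Normal := Cfsg.Agent.Lib.Nilpotent.Fitting.fittingSubgroup_normal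
  have hFnil : Group.IsNilpotent F := Cfsg.Agent.Lib.Nilpotent.Fitting.isNilpotent_fittingSubgroup
  have hF : ∀ g g' : H, g * g' * g⁻¹ * g'⁻¹ ∈ F := by
    intro g g'
    apply mem_fitting_of_forall_pCore
    intro p hp y hy
    by_cases hy1 : y = 1
    · rw [hy1]; simp
    · rcases hprimes p hp y hy hy1 with rfl | rfl | ⟨-, h⟩
      · exact comm_centralizes_cyclic _ (Cfsg.Agent.Lib.Nilpotent.Fitting.pCore_normal _) hQc g g' y hy
      · exact comm_centralizes_cyclic _ (Cfsg.Agent.Lib.Nilpotent.Fitting.pCore_normal _) hPc g g' y hy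
      · exact absurd h hy1
  have hmemQ : ∀ x ∈ F, ∀ k, orderOf x = t ^ k → x ∈ Cfsg.pCore t H := fun x hx k hk =>
    Cfsg.Agent.Lib.Nilpotent.Fitting.mem_pCore_of_mem_nilpotent_normal hFnil hx hk
  obtain ⟨a₁, b₁', ha₁, hb₁', ha₁b₁, hb₁a₁⟩ := s.r_t
  obtain ⟨a, hao, har⟩ : ∃ a, orderOf a = t ∧ a ∉ Subgroup.zpowers r := by
    by_cases h : a₁ ∈ Subgroup.zpowers r
    · refine ⟨b₁', hb₁', fun h2 => hb₁a₁ ?_⟩
      have ha1 : a₁ ≠ 1 := by
        intro h3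
        rw [h3] at ha₁
        simp at ha₁
        exact ht.one_lt.ne ha₁
      have h4 : r ∈ Subgroup.zpowers a₁ := mem_zpowers_of_prime ht hr.ho h ha1
      exact (Subgroup.zpowers_le.mpr h4) h2
    · exact ⟨a₁, ha₁, h⟩
  have haF : a ∉ F := fun h => har (hQ a (hmemQ a h 1 (by rw [hao, pow_one])) hao)
  have hFw : (Nat.card F).Coprime w := by
    apply Nat.Coprime.symm
    apply (Nat.Prime.coprime_iff_not_dvd hw).mpr
    intro hd
    obtain ⟨x, hx⟩ := exists_prime_orderOf_dvd_card' w hd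
    have hx' : orderOf x.1 = w := by rw [Subgroup.orderOf_coe]; exact hx
    have h1 := Cfsg.Agent.Lib.Nilpotent.Fitting.mem_pCore_of_mem_nilpotent_normal (p := w) (k := 1) hFnil x.2
      (by rw [hx', pow_one])
    rw [hOw, Subgroup.mem_bot] at h1
    rw [h1] at hx'
    simp at hx'
    exact hw.one_lt.ne hx'
  have hd : a⁻¹ * (z⁻¹ * a * z) ∈ F := by
    have := hF a⁻¹ z⁻¹
    simpa [mul_assoc] using this
  obtain ⟨c, hcF, hcomm⟩ := Cfsg.Agent.Lib.Coprime.CosetFixed.exists_commute_in_coset F hFw z 1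
    (by rw [pow_one, ← hzo]; exact pow_orderOf_eq_one z)
    (by rw [Subgroup.normalizer_eq_top_iff.mpr hFn]; trivial) a hd
  -- the `t`-part
  let π : H →* H ⧸ F := QuotientGroup.mk' F
  have hπker : ∀ x, π x = 1 ↔ x ∈ F := fun x => QuotientGroup.eq_one_iff x
  set a₂ := a * c with ha₂
  have hπa₂ : π a₂ = π a := by
    rw [ha₂, map_mul, (hπker c).mpr hcF, mul_one]
  have hπa1 : π a ≠ 1 := fun h => haF ((hπker a).mp h)
  have hπat : (π a) ^ t = 1 := by
    have hat : a ^ t = 1 := hao ▸ pow_orderOf_eq_one a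
    rw [← map_pow, hat, map_one]
  have hn0 : orderOf a₂ ≠ 0 := (orderOf_pos a₂).ne'
  obtain ⟨α, m, hm, hnm⟩ := Nat.exists_eq_pow_mul_and_not_dvd hn0 t ht.ne_one
  have hmc : m.Coprime t := by
    rw [Nat.coprime_comm]
    exact (Nat.Prime.coprime_iff_not_dvd ht).mpr hm
  obtain ⟨m', -, hm'⟩ := Nat.exists_mul_mod_eq_one_of_coprime hmc ht.one_lt
  set x := a₂ ^ (m * m') with hx
  have hxpow : x ^ (t ^ α) = 1 := by
    rw [hx, ← pow_mul]
    have : m * m' * t ^ α = orderOf a₂ * m' := by rw [hnm]; ring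
    rw [this, pow_mul, pow_orderOf_eq_one, one_pow]
  have hπx : π x = π a := by
    rw [hx, map_pow, hπa₂, pow_eq_pow_mod _ hπat, hm', pow_one]
  have hxF : x ∉ F := fun h => hπa1 (hπx ▸ (hπker x).mpr h)
  have hxz : x * z = z * x := (hcomm.symm.pow_left _).eq
  have hxtF : x ^ t ∈ F := by
    rw [← hπker, map_pow, hπx, hπat]
  obtain ⟨β, hβ⟩ : ∃ β, orderOf (x ^ t) = t ^ β := by
    have h1 : orderOf (x ^ t) ∣ t ^ α := by
      apply orderOf_dvd_of_pow_eq_one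
      rw [← pow_mul, mul_comm, pow_mul, hxpow, one_pow]
    obtain ⟨β, -, hβ⟩ := (Nat.dvd_prime_pow ht).mp h1
    exact ⟨β, hβ⟩
  have hxtQ : x ^ t ∈ Cfsg.pCore t H := hmemQ _ hxtF β hβ
  have hxt1 : x ^ t = 1 := by
    by_contra hne
    obtain ⟨y₁, hy₁, hy₁o, hy₁Q⟩ := exists_mem_order ht (Cfsg.Agent.Lib.Nilpotent.Fitting.isPGroup_pCore t) hxtQ hne
    have hy₁r := hQ y₁ hy₁Q hy₁o
    have hy₁1 : y₁ ≠ 1 := by
      intro h
      rw [h] at hy₁o
      simp at hy₁o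
      exact ht.one_lt.ne hy₁o
    have hrm : r ∈ Subgroup.zpowers y₁ := mem_zpowers_of_prime ht hr.ho hy₁r hy₁1
    have h1 : z * x ^ t = x ^ t * z := ((show Commute x z from hxz).pow_left t).eq.symm
    have h2 : z * y₁ = y₁ * z := commute_of_mem_zpowers hy₁ h1
    exact hzr (commute_of_mem_zpowers hrm h2)
  have hx1 : x ≠ 1 := by
    intro h
    apply hxF
    rw [h]
    exact F.one_mem
  have hxo : orderOf x = t := orderOf_eq_prime hxt1 hx1
  have hxp : (orderOf x).Prime := by rw [hxo]; exact ht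
  have hxr' : x * r' ≠ r' * x := by
    intro h
    exact s.nt1 x r' z h hxz hzr'.symm hxp hr'p hzp (by rw [hxo, hr'.ho]; exact s.htu)
      (by rw [hxo, hzo]; exact s.htw) (by rw [hr'.ho, hzo]; exact s.huw)
  have hfpz : Fpf ρ z := hr'.c2 s.swap12 hzp hxp (by rw [hzo, hxo]; exact s.htw.symm) hxz.symm hzr' hxr'
  exact hr.not_fpf_of_moves s hzp hzr hfpz

/-- Pairs of prime order can be moved into a Hall subgroup. -/
theorem rk2_in_hall [Group.IsSolvable H] {π : Set ℕ} {L : Subgroup H} (hL : IsPiHallOf π L ⊤) {q : ℕ} (hq : q ∈ π)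
    (hqp : q.Prime) (h : Rk2 H q) :
    ∃ a b : H, a ∈ L ∧ b ∈ L ∧ orderOf a = q ∧ orderOf b = q ∧ a * b = b * a ∧ b ∉ Subgroup.zpowers a := by
  classical
  haveI := Fact.mk hqp
  obtain ⟨a, b, ha, hb, hab, hba⟩ := h
  have hat : a ^ q = 1 := ha ▸ pow_orderOf_eq_one a
  have hbt : b ^ q = 1 := hb ▸ pow_orderOf_eq_one b
  have hEp := closure_pair_isPGroup hab hat hbt
  have hsolv : Group.IsSolvable (⊤ : Subgroup H) := inferInstance
  obtain ⟨L', hL', -, hEL'⟩ := Cfsg.Agent.Lib.Coprime.InvHall.exists_inv_hall_ge ⊥ ⊤ (by simp)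
    (by simp) hsolv π (Subgroup.closure {a, b}) le_top (by simp)
    (by
      intro p hp hd
      rw [card_primes_of_isPGroup hqp hEp hp hd]
      exact hq)
  obtain ⟨g, -, hg⟩ := Cfsg.Agent.Lib.Coprime.InvHall.hall_conj hsolv hL' hL
  have hmem : ∀ x ∈ Subgroup.closure ({a, b} : Set H), g * x * g⁻¹ ∈ L := by
    intro x hx
    rw [← hg]
    exact ⟨x, hEL' hx, rfl⟩
  refine ⟨g * a * g⁻¹, g * b * g⁻¹, hmem a (Subgroup.subset_closure (by simp)),
    hmem b (Subgroup.subset_closure (by simp)), by rw [orderOf_conj', ha], by rw [orderOf_conj', hb], ?_, ?_⟩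
  · calc g * a * g⁻¹ * (g * b * g⁻¹) = g * (a * b) * g⁻¹ := by group
      _ = g * (b * a) * g⁻¹ := by rw [hab]
      _ = g * b * g⁻¹ * (g * a * g⁻¹) := by group
  · intro h
    apply hba
    obtain ⟨k, hk⟩ := Subgroup.mem_zpowers_iff.mp h
    refine Subgroup.mem_zpowers_iff.mpr ⟨k, ?_⟩
    rw [conj_zpow] at hk
    exact mul_left_cancel (mul_right_cancel hk)

/-- One prime in the Fitting subgroup. -/
theorem case32b_aux (s : Setup3 ρ t u w) [Group.IsSolvable H] (hr : Rad ρ t r) (hOu : Cfsg.pCore u H = ⊥)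
    (hOw : Cfsg.pCore w H = ⊥) {H₂ : Subgroup H} (hH₂ : IsPiHallOf ({u, w} : Set ℕ) H₂ ⊤)
    (hM : Cfsg.pCore u ↥(H₂ ⊓ Subgroup.centralizer (Subgroup.zpowers r : Set H)) ≠ ⊥) : False := by
  classical
  have ht := s.ht
  have hu := s.hu
  have hw := s.hw
  haveI := Fact.mk ht
  haveI := Fact.mk hu
  haveI := Fact.mk hw
  have hzn : (Subgroup.zpowers r).Normal := zpowers_normal_of hr.hn
  haveI := hzn
  let Cb : Subgroup H := Subgroup.centralizer (Subgroup.zpowers r : Set H)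
  have hCbn : Cb.Normal := inferInstance
  have memCb : ∀ g, g ∈ Cb ↔ g * r = r * g := by
    intro g
    constructor
    · intro h
      exact (Subgroup.mem_centralizer_iff.mp h r (Subgroup.mem_zpowers r)).symm
    · intro h
      refine Subgroup.mem_centralizer_iff.mpr (fun x hx => ?_)
      exact (commute_of_mem_zpowers hx h).symm
  let M : Subgroup H := H₂ ⊓ Cb
  have hMH₂ : ∀ g ∈ H₂, g ∈ Subgroup.normalizer (M : Set H) := by
    intro g hg
    apply Cfsg.Agent.Lib.Coprime.Three.mem_normalizer_of_conj_mem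
    rintro x ⟨hx₁, hx₂⟩
    exact ⟨H₂.mul_mem (H₂.mul_mem hg hx₁) (H₂.inv_mem hg), hCbn.conj_mem x hx₂ g⟩
  let Nu : Subgroup H := (Cfsg.pCore u ↥M).map M.subtype
  have hNuM : Nu ≤ M := by
    rintro _ ⟨x, -, rfl⟩
    exact x.2
  have hNup : IsPGroup u Nu := (Cfsg.Agent.Lib.Nilpotent.Fitting.isPGroup_pCore u).map M.subtype
  haveI hchar : (Cfsg.pCore u ↥M).Characteristic := Cfsg.Agent.Lib.Basic.PCore.pCore_char u ↥M
  have hNuNorm : ∀ g ∈ H₂, ∀ x ∈ Nu, g * x * g⁻¹ ∈ Nu := by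
    intro g hg x hx
    have := Cfsg.Agent.Lib.Coprime.FrattiniAct.map_char_mem_normalizer (Cfsg.pCore u ↥M) hchar (hMH₂ g hg)
    exact (Subgroup.mem_normalizer_iff.mp this x).mp hx
  have hNub : Nu ≠ ⊥ := by
    intro h
    apply hM
    rw [eq_bot_iff]
    intro x hx
    have : x.1 ∈ Nu := ⟨x, hx, rfl⟩
    rw [h, Subgroup.mem_bot] at this
    exact Subgroup.mem_bot.mpr (Subtype.ext this)
  let X₀ : Subgroup H := Nu ⊓ Subgroup.centralizer (Nu : Set H)
  have hX₀Nu : X₀ ≤ Nu := inf_le_left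
  have hX₀M : X₀ ≤ M := hX₀Nu.trans hNuM
  have hX₀p : IsPGroup u X₀ := hNup.to_le hX₀Nu
  have hX₀c : ∀ x ∈ X₀, ∀ y ∈ X₀, x * y = y * x := by
    intro x hx y hy
    exact (Subgroup.mem_centralizer_iff.mp hy.2 x hx.1)
  have hX₀b : X₀ ≠ ⊥ := by
    haveI : Nontrivial Nu := (Subgroup.nontrivial_iff_ne_bot Nu).mpr hNub
    haveI := hNup.center_nontrivial
    obtain ⟨c, hc⟩ := exists_ne (1 : Subgroup.center Nu)
    intro h
    have hc1 : (c : Nu).1 ∈ X₀ := by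
      refine ⟨(c : Nu).2, Subgroup.mem_centralizer_iff.mpr (fun g hg => ?_)⟩
      exact congrArg Subtype.val (Subgroup.mem_center_iff.mp c.2 ⟨g, hg⟩)
    rw [h, Subgroup.mem_bot] at hc1
    exact hc (Subtype.ext (Subtype.ext hc1))
  have hX₀Norm : ∀ g ∈ H₂, ∀ x ∈ X₀, g * x * g⁻¹ ∈ X₀ := by
    intro g hg x hx
    refine ⟨hNuNorm g hg x hx.1, Subgroup.mem_centralizer_iff.mpr (fun y hy => ?_)⟩
    have hy₁ : g⁻¹ * y * g ∈ Nu := by
      have := hNuNorm g⁻¹ (H₂.inv_mem hg) y hy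
      simpa using this
    have h1 := Subgroup.mem_centralizer_iff.mp hx.2 _ hy₁
    calc y * (g * x * g⁻¹) = g * ((g⁻¹ * y * g) * x) * g⁻¹ := by group
      _ = g * (x * (g⁻¹ * y * g)) * g⁻¹ := by rw [h1]
      _ = (g * x * g⁻¹) * y := by group
  have hcXw : w.Coprime (Nat.card X₀) :=
    (Setup3.card_coprime_of_pgroup hu hw s.huw hX₀p).symm
  obtain ⟨b₁, b₂, hb₁H, hb₂H, hb₁, hb₂, hb₁₂, hb₂₁⟩ := rk2_in_hall hH₂ (q := w) (by simp) hw s.r_w
  have hEH₂ : Subgroup.closure ({b₁, b₂} : Set H) ≤ H₂ :=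
    (Subgroup.closure_le H₂).mpr (by rintro x (rfl | rfl) <;> assumption)
  have hEc := closure_pair hb₁₂ (hb₁ ▸ pow_orderOf_eq_one b₁) (hb₂ ▸ pow_orderOf_eq_one b₂)
  obtain ⟨z₀, hz₀E, hz₀o, hz₀r⟩ := hr.exists_comm ht hw s.htw.symm hb₁₂ hb₁ hb₂ hb₂₁
  have hz₀p : (orderOf z₀).Prime := by rw [hz₀o]; exact hw
  have hrp : (orderOf r).Prime := by rw [hr.ho]; exact ht
  have hz₀M : z₀ ∈ M := ⟨hEH₂ hz₀E, (memCb z₀).mpr hz₀r⟩
  have hMr : ∀ x ∈ M, x * r = r * x := fun x hx => (memCb x).mp hx.2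
  -- no edges in `M`
  have hedge : ∀ x ∈ M, ∀ g ∈ M, orderOf x = u → orderOf g = w → x * g = g * x → False := by
    intro x hx g hg hxo hgo hxg
    exact s.nt1 r x g (hMr x hx).symm (hMr g hg).symm hxg hrp (by rw [hxo]; exact hu) (by rw [hgo]; exact hw)
      (by rw [hr.ho, hxo]; exact s.htu) (by rw [hr.ho, hgo]; exact s.htw) (by rw [hxo, hgo]; exact s.huw)
  have hz₀fix : ∀ x ∈ X₀, z₀ * x = x * z₀ → x = 1 := by
    intro x hx h
    by_contra hx1
    obtain ⟨x', hx', hx'o, hx'X⟩ := exists_mem_order hu hX₀p hx hx1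
    have h2 : z₀ * x' = x' * z₀ := commute_of_mem_zpowers hx' h
    exact hedge x' (hX₀M hx'X) z₀ hz₀M hx'o hz₀o h2.symm
  have hcXz : (Nat.card X₀).Coprime (orderOf z₀) := by
    rw [hz₀o]
    exact Setup3.card_coprime_of_pgroup hu hw s.huw hX₀p
  have hz₀sing : ¬ Fpf ρ z₀ := by
    intro hfp
    have h1 := s.comm_of_fpf hz₀p X₀ hX₀c (hX₀Norm z₀ (hEH₂ hz₀E)) hcXz hfp
    apply hX₀b
    rw [eq_bot_iff]
    intro x hx
    exact Subgroup.mem_bot.mpr (hz₀fix x hx (h1 x hx))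
  have hNX₀ : ∀ g ∈ H₂, g ∈ Subgroup.normalizer (X₀ : Set H) := fun g hg =>
    Cfsg.Agent.Lib.Coprime.Three.mem_normalizer_of_conj_mem (hX₀Norm g hg)
  obtain ⟨g, hgE, hgo, x₀, hx₀, hx₀1, hgx₀⟩ := pprime_amb X₀ hX₀c (hNX₀ b₁ hb₁H) (hNX₀ b₂ hb₂H) hw hb₁₂ hb₁ hb₂
    hb₂₁ hcXw hX₀b
  have hgp : (orderOf g).Prime := by rw [hgo]; exact hw
  obtain ⟨y, hy, hyo, hyX⟩ := exists_mem_order hu hX₀p hx₀ hx₀1
  have hgy : g * y = y * g := commute_of_mem_zpowers hy hgx₀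
  have hyp : (orderOf y).Prime := by rw [hyo]; exact hu
  have hyr : y * r = r * y := hMr y (hX₀M hyX)
  have hgr : g * r ≠ r * g := by
    intro h
    exact s.nt1 r y g hyr.symm h.symm hgy.symm hrp hyp hgp (by rw [hr.ho, hyo]; exact s.htu)
      (by rw [hr.ho, hgo]; exact s.htw) (by rw [hyo, hgo]; exact s.huw)
  have hgz₀ : g * z₀ = z₀ * g := hEc.1 g hgE z₀ hz₀E
  -- C2 applied to elements of `X₀`
  have hC2 : ∀ c ∈ X₀, orderOf c = u → c * g = g * c → Fpf ρ c := by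
    intro c hc hco hcg
    exact hr.c2 s (by rw [hco]; exact hu) hgp (by rw [hco, hgo]; exact s.huw) hcg (hMr c (hX₀M hc)) hgr
  set y₁ := z₀ * y * z₀⁻¹ with hy₁def
  have hy₁X : y₁ ∈ X₀ := hX₀Norm z₀ (hEH₂ hz₀E) y hyX
  have hy₁o : orderOf y₁ = u := by rw [hy₁def, orderOf_conj', hyo]
  have hy₁g : y₁ * g = g * y₁ := by
    calc y₁ * g = z₀ * y * (z₀⁻¹ * g * z₀) * z₀⁻¹ := by rw [hy₁def]; group
      _ = z₀ * y * g * z₀⁻¹ := by
        have : z₀⁻¹ * g * z₀ = g := by rw [mul_assoc, hgz₀]; group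
        rw [this]
      _ = z₀ * (y * g) * z₀⁻¹ := by group
      _ = z₀ * (g * y) * z₀⁻¹ := by rw [hgy]
      _ = (z₀ * g) * y * z₀⁻¹ := by group
      _ = (g * z₀) * y * z₀⁻¹ := by rw [hgz₀]
      _ = g * y₁ := by rw [hy₁def]; group
  have hy₁y : y₁ ∈ Subgroup.zpowers y := by
    by_contra hne
    obtain ⟨c, hc, hco, v, hv1, hv⟩ := s.exists_singular hu (hX₀c y hyX y₁ hy₁X) hyo hy₁o hne
    have hcX : c ∈ X₀ := (Subgroup.closure_le X₀).mpr (by rintro x (rfl | rfl) <;> assumption) hc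
    have hcg : c * g = g * c := by
      have hle : Subgroup.closure ({y, y₁} : Set H) ≤ Subgroup.centralizer ({g} : Set H) := by
        rw [Subgroup.closure_le]
        rintro x (rfl | rfl)
        · exact mem_cz.mpr hgy.symm
        · exact mem_cz.mpr hy₁g
      exact mem_cz.mp (hle hc)
    exact hv1 (hC2 c hcX hco hcg v hv)
  have hyz₀ : z₀ * y ≠ y * z₀ := by
    intro h
    have := hz₀fix y hyX h
    rw [this] at hyo
    simp at hyo
    exact hu.one_lt.ne hyo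
  have hU : ∀ x ∈ Cfsg.pCore t H, orderOf x = t → z₀ * x = x * z₀ → y * x = x * y := by
    intro x _ hxo hz₀x
    have h1 := hr.mem_of_comm s hz₀p (by rw [hz₀o]; exact s.htw.symm) hz₀r hz₀sing hxo hz₀x.symm
    exact commute_of_mem_zpowers h1 hyr
  have ht2 : t ≠ 2 := by
    intro h
    have h1 : w ∣ t - 1 := dvd_sub_one_of_moves ht hw hr.ho (hgo ▸ pow_orderOf_eq_one g) (hr.hn g) hgr
    rw [h] at h1
    have := Nat.le_of_dvd (by norm_num) h1
    have := hw.two_le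
    omega
  have hQn := Cfsg.Agent.Lib.Nilpotent.Fitting.pCore_normal (G := H) t
  have hcent := ft_lemma ht ht2 hu hw s.htu s.htw (Cfsg.pCore t H)
    (Cfsg.Agent.Lib.Nilpotent.Fitting.isPGroup_pCore t) hyo hz₀o
    (fun x hx => hQn.conj_mem x hx y) (fun x hx => hQn.conj_mem x hx z₀) hy₁y hyz₀ hU
  have hyF : y ∈ Cfsg.fittingSubgroup H := by
    apply mem_fitting_of_forall_pCore
    intro p hp y' hy'
    by_cases hy1 : y' = 1
    · rw [hy1]; simp
    · rcases s.primes p hp (prime_dvd_of_mem_pCore hp hy' hy1) with rfl | rfl | rfl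
      · exact hcent y' hy'
      · rw [hOu, Subgroup.mem_bot] at hy'
        exact absurd hy' hy1
      · rw [hOw, Subgroup.mem_bot] at hy'
        exact absurd hy' hy1
  have h1 := Cfsg.Agent.Lib.Nilpotent.Fitting.mem_pCore_of_mem_nilpotent_normal (p := u) (k := 1)
    Cfsg.Agent.Lib.Nilpotent.Fitting.isNilpotent_fittingSubgroup hyF (by rw [hyo, pow_one])
  rw [hOu, Subgroup.mem_bot] at h1
  rw [h1] at hyo
  simp at hyo
  exact hu.one_lt.ne hyo

/-- One prime in the Fitting subgroup. -/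
theorem case32b (s : Setup3 ρ t u w) [Group.IsSolvable H] (hr : Rad ρ t r) (hOu : Cfsg.pCore u H = ⊥)
    (hOw : Cfsg.pCore w H = ⊥) : False := by
  classical
  have ht := s.ht
  have hu := s.hu
  have hw := s.hw
  haveI := Fact.mk hu
  haveI := Fact.mk hw
  have hsolv : Group.IsSolvable (⊤ : Subgroup H) := inferInstance
  obtain ⟨H₂, hH₂⟩ := Cfsg.Agent.Lib.Coprime.InvHall.exists_hall ({u, w} : Set ℕ) ⊤ hsolv
  let Cb : Subgroup H := Subgroup.centralizer (Subgroup.zpowers r : Set H)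
  let M : Subgroup H := H₂ ⊓ Cb
  obtain ⟨b₁, b₂, hb₁H, hb₂H, hb₁, hb₂, hb₁₂, hb₂₁⟩ := rk2_in_hall hH₂ (q := u) (by simp) hu s.r_u
  obtain ⟨c₀, hc₀E, hc₀o, hc₀r⟩ := hr.exists_comm ht hu s.htu.symm hb₁₂ hb₁ hb₂ hb₂₁
  have hc₀M : c₀ ∈ M := by
    refine ⟨(Subgroup.closure_le H₂).mpr (by rintro x (rfl | rfl) <;> assumption) hc₀E, ?_⟩
    refine Subgroup.mem_centralizer_iff.mpr (fun x hx => ?_)
    exact (commute_of_mem_zpowers hx hc₀r).symm
  haveI : Nontrivial M := by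
    refine ⟨⟨⟨c₀, hc₀M⟩, 1, fun h => ?_⟩⟩
    have h1 : c₀ = 1 := congrArg Subtype.val h
    rw [h1] at hc₀o
    simp at hc₀o
    exact hu.one_lt.ne hc₀o
  haveI : Group.IsSolvable M := inferInstance
  obtain ⟨ℓ, A, hℓ, hAn, hAb, hAp, -, hAe⟩ := Cfsg.Agent.Lib.Solvable.Hall.exists_normal_abelian_pSubgroup M
  haveI := hAn
  have hAle : A ≤ Cfsg.pCore ℓ M := Cfsg.Agent.Lib.Nilpotent.Fitting.le_pCore hAp
  have hne : Cfsg.pCore ℓ M ≠ ⊥ := by
    intro h
    rw [h] at hAle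
    exact hAb (le_bot_iff.mp hAle)
  have hℓd : ℓ ∈ ({u, w} : Set ℕ) := by
    haveI := Fact.mk hℓ
    obtain ⟨x, hx⟩ := Subgroup.ne_bot_iff_exists_ne_one.mp hAb
    have hx1 : x.1 ≠ 1 := fun h => hx (Subtype.ext h)
    have hxo : orderOf x.1 = ℓ := orderOf_eq_prime (hAe x.1 x.2) hx1
    have hxoH : orderOf x.1.1 = ℓ := by rw [Subgroup.orderOf_coe]; exact hxo
    have hxH₂ : x.1.1 ∈ H₂ := x.1.2.1
    refine hH₂.2.1 ℓ hℓ ?_
    rw [← hxoH]
    exact Subgroup.orderOf_dvd_natCard H₂ hxH₂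
  rcases hℓd with rfl | hℓd
  · exact case32b_aux s hr hOu hOw hH₂ hne
  · have hℓw : ℓ = w := hℓd
    subst hℓw
    have hH₂' : IsPiHallOf ({ℓ, u} : Set ℕ) H₂ ⊤ := by rw [Set.pair_comm]; exact hH₂
    exact case32b_aux s.swap23 hr hOw hOu hH₂' hne

theorem case3_aux (s : Setup3 ρ t u w) [Group.IsSolvable H] (hQ : Cfsg.pCore t H ≠ ⊥) : False := by
  obtain ⟨r, hr, -⟩ := s.exists_rad hQ
  by_cases hu : Cfsg.pCore u H = ⊥
  · by_cases hw : Cfsg.pCore w H = ⊥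
    · exact case32b s hr hu hw
    · obtain ⟨r₂, hr₂, -⟩ := s.swap23.swap12.exists_rad hw
      exact case32a s.swap23 hr hr₂
  · obtain ⟨r₂, hr₂, -⟩ := s.swap12.exists_rad hu
    exact case32a s hr hr₂

/-- The faithful irreducible situation is impossible. -/
theorem case3 (s : Setup3 ρ t u w) [Group.IsSolvable H] : False := by
  classical
  obtain ⟨a, b, ha, -, -, -⟩ := s.r_t
  haveI : Nontrivial H := by
    refine ⟨⟨a, 1, fun h => ?_⟩⟩
    rw [h] at ha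
    simp at ha
    exact s.ht.one_lt.ne ha
  obtain ⟨ℓ, A, hℓ, hAn, hAb, hAp, -, hAe⟩ := Cfsg.Agent.Lib.Solvable.Hall.exists_normal_abelian_pSubgroup H
  haveI := hAn
  have hAle : A ≤ Cfsg.pCore ℓ H := Cfsg.Agent.Lib.Nilpotent.Fitting.le_pCore hAp
  have hne : Cfsg.pCore ℓ H ≠ ⊥ := by
    intro h
    rw [h] at hAle
    exact hAb (le_bot_iff.mp hAle)
  have hℓd : ℓ ∣ Nat.card H := by
    haveI := Fact.mk hℓ
    obtain ⟨x, hx⟩ := Subgroup.ne_bot_iff_exists_ne_one.mp hAb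
    have hx1 : x.1 ≠ 1 := fun h => hx (Subtype.ext h)
    have hxo : orderOf x.1 = ℓ := orderOf_eq_prime (hAe x.1 x.2) hx1
    rw [← hxo]
    exact orderOf_dvd_natCard _
  rcases s.primes ℓ hℓ hℓd with rfl | rfl | rfl
  · exact case3_aux s hne
  · exact case3_aux s.swap12 hne
  · exact case3_aux s.swap23.swap12 hne

end Cfsg.Agent.Lib.S3814
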