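import Mathlib
import Cfsg.Agent.Lib.S3814.Case32
import Cfsg.Agent.Lib.S3814.Case2

/-!
# Four primes pairwise joined in the spectrum, with no triangle: not solvable
-/

set_option autoImplicit false
set_option linter.style.haveILetI false
set_option linter.unusedSectionVars false
set_option linter.style.longLine false
set_option linter.unusedVariables false
set_option maxHeartbeats 4000000

namespace Cfsg.Agent.Lib.S3814

open Cfsg

universe u

structure BadG (G : Type u) [Group G] (π : Finset ℕ) : Prop where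
  card4 : π.card = 4
  prime : ∀ q ∈ π, q.Prime
  edge : ∀ a ∈ π, ∀ b ∈ π, a ≠ b → Edge G a b
  notri : ∀ x y z : G, x * y = y * x → x * z = z * x → y * z = z * y → orderOf x ∈ π → orderOf y ∈ π →
    orderOf z ∈ π → orderOf x ≠ orderOf y → orderOf x ≠ orderOf z → orderOf y ≠ orderOf z → False

theorem others {π : Finset ℕ} (h : π.card = 4) {a : ℕ} (ha : a ∈ π) :
    ∃ b c d, b ∈ π ∧ c ∈ π ∧ d ∈ π ∧ b ≠ c ∧ b ≠ d ∧ c ≠ d ∧ a ≠ b ∧ a ≠ c ∧ a ≠ d ∧
      ∀ q ∈ π, q = a ∨ q = b ∨ q = c ∨ q = d := by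
  classical
  have h1 : (π.erase a).card = 3 := by rw [Finset.card_erase_of_mem ha, h]
  obtain ⟨b, c, d, hbc, hbd, hcd, he⟩ := Finset.card_eq_three.mp h1
  have hb : b ∈ π.erase a := by rw [he]; simp
  have hc : c ∈ π.erase a := by rw [he]; simp
  have hd : d ∈ π.erase a := by rw [he]; simp
  refine ⟨b, c, d, Finset.mem_of_mem_erase hb, Finset.mem_of_mem_erase hc, Finset.mem_of_mem_erase hd,
    hbc, hbd, hcd, (Finset.ne_of_mem_erase hb).symm, (Finset.ne_of_mem_erase hc).symm,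
    (Finset.ne_of_mem_erase hd).symm, ?_⟩
  intro q hq
  by_cases hqa : q = a
  · exact Or.inl hqa
  · right
    have : q ∈ π.erase a := Finset.mem_erase.mpr ⟨hqa, hq⟩
    rw [he] at this
    simpa using this

variable {G : Type u} [Group G] [Finite G] {π : Finset ℕ}

namespace BadG

theorem f0 [Group.IsSolvable G] (h : BadG G π) {x : G} (hx : orderOf x ∈ π) {a b c : ℕ} (ha : a ∈ π)
    (hb : b ∈ π) (hc : c ∈ π) (hab : a ≠ b) (hac : a ≠ c) (hbc : b ≠ c) (hax : a ≠ orderOf x)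
    (hbx : b ≠ orderOf x) (hcx : c ≠ orderOf x)
    (hda : a ∣ Nat.card (Subgroup.centralizer ({x} : Set G)))
    (hdb : b ∣ Nat.card (Subgroup.centralizer ({x} : Set G)))
    (hdc : c ∣ Nat.card (Subgroup.centralizer ({x} : Set G))) : False := by
  have key : ∀ {p q : ℕ}, p ∈ π → q ∈ π → p ≠ q → p ≠ orderOf x → q ≠ orderOf x →
      Edge (Subgroup.centralizer ({x} : Set G)) p q → False := by
    intro p q hp hq hpq hpx hqx e
    obtain ⟨y, z, hy, hz, hyz⟩ := e
    have hy' : orderOf y.1 = p := by rw [Subgroup.orderOf_coe]; exact hy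
    have hz' : orderOf z.1 = q := by rw [Subgroup.orderOf_coe]; exact hz
    exact h.notri x y.1 z.1 (mem_cz.mp y.2).symm (mem_cz.mp z.2).symm (congrArg Subtype.val hyz) hx
      (by rw [hy']; exact hp) (by rw [hz']; exact hq) (by rw [hy']; exact hpx.symm)
      (by rw [hz']; exact hqx.symm) (by rw [hy', hz']; exact hpq)
  rcases t1 _ rfl (h.prime a ha) (h.prime b hb) (h.prime c hc) hab hac hbc hda hdb hdc with e | e | e
  · exact key ha hb hab hax hbx e
  · exact key ha hc hac hax hcx e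
  · exact key hb hc hbc hbx hcx e

/-- Rank two at every prime. -/
theorem rk2 [Group.IsSolvable G] (h : BadG G π) {a : ℕ} (ha : a ∈ π) : Rk2 G a := by
  classical
  by_contra hno
  have hap := h.prime a ha
  haveI := Fact.mk hap
  obtain ⟨b, c, d, hb, hc, hd, hbc, hbd, hcd, hab, hac, had, -⟩ := others h.card4 ha
  obtain ⟨y₀, -, hy₀, -, -⟩ := h.edge a ha b hb hab
  have had' : a ∣ Nat.card G := hy₀ ▸ orderOf_dvd_natCard y₀
  let P : Sylow a G := default
  have hPb : (P : Subgroup G) ≠ ⊥ := P.ne_bot_of_dvd_card had'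
  have hPp : IsPGroup a (P : Subgroup G) := P.2
  obtain ⟨z₀, hz₀⟩ := Subgroup.ne_bot_iff_exists_ne_one.mp hPb
  have hz₀1 : z₀.1 ≠ 1 := fun h => hz₀ (Subtype.ext h)
  obtain ⟨z, -, hzo, hzP⟩ := exists_mem_order hap hPp z₀.2 hz₀1
  have hz1 : z ≠ 1 := by
    intro h2
    rw [h2] at hzo
    simp at hzo
    exact hap.one_lt.ne hzo
  have hu : ∀ x ∈ (P : Subgroup G), orderOf x = a → z ∈ Subgroup.zpowers x := by
    intro x hx hxo
    by_contra hne
    obtain ⟨a₁, b₁, ha₁, hb₁, ha₁o, hb₁o, hab₁, hba₁⟩ := exists_comm_pair (P : Subgroup G) hap hPp hzP hx hzo hxo hne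
    exact hno ⟨a₁, b₁, ha₁o, hb₁o, hab₁, hba₁⟩
  have hdvd : ∀ q ∈ π, q ≠ a → q ∣ Nat.card (Subgroup.centralizer ({z} : Set G)) := by
    intro q hq hqa
    obtain ⟨y, f, hy, hf, hyf⟩ := h.edge a ha q hq hqa.symm
    obtain ⟨Q, hyQ⟩ := Cfsg.Agent.Lib.Basic.SylowUtil.exists_sylow_of_orderOf (p := a) (k := 1) (x := y)
      (by rw [hy, pow_one])
    obtain ⟨g, hg⟩ := Cfsg.Agent.Lib.Basic.SylowUtil.exists_conj_smul_eq Q P
    have hgy : g * y * g⁻¹ ∈ (P : Subgroup G) := by
      rw [← hg]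
      exact ⟨y, hyQ, rfl⟩
    have hgyo : orderOf (g * y * g⁻¹) = a := by rw [orderOf_conj', hy]
    have hzm := hu _ hgy hgyo
    have hcm : (g * f * g⁻¹) * (g * y * g⁻¹) = (g * y * g⁻¹) * (g * f * g⁻¹) := by
      calc (g * f * g⁻¹) * (g * y * g⁻¹) = g * (f * y) * g⁻¹ := by group
        _ = g * (y * f) * g⁻¹ := by rw [hyf]
        _ = (g * y * g⁻¹) * (g * f * g⁻¹) := by group
    have hmem : g * f * g⁻¹ ∈ Subgroup.centralizer ({z} : Set G) :=
      mem_cz.mpr (commute_of_mem_zpowers hzm hcm)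
    have := Subgroup.orderOf_dvd_natCard _ hmem
    rwa [orderOf_conj', hf] at this
  have hzπ : orderOf z ∈ π := by rw [hzo]; exact ha
  exact h.f0 hzπ hb hc hd hbc hbd hcd (by rw [hzo]; exact hab.symm) (by rw [hzo]; exact hac.symm)
    (by rw [hzo]; exact had.symm) (hdvd b hb hab.symm) (hdvd c hc hac.symm) (hdvd d hd had.symm)

end BadG

theorem conj_into_hall [Group.IsSolvable G] {σ : Set ℕ} {L : Subgroup G} (hL : IsPiHallOf σ L ⊤) (g : G)
    (hg : ∀ q : ℕ, q.Prime → q ∣ orderOf g → q ∈ σ) : ∃ g₀ : G, g₀ * g * g₀⁻¹ ∈ L := by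
  have hsolv : Group.IsSolvable (⊤ : Subgroup G) := inferInstance
  obtain ⟨L', hL', -, hEL'⟩ := Cfsg.Agent.Lib.Coprime.InvHall.exists_inv_hall_ge ⊥ ⊤ (by simp)
    (by simp) hsolv σ (Subgroup.zpowers g) le_top (by simp)
    (by
      intro p hp hd
      rw [Nat.card_zpowers] at hd
      exact hg p hp hd)
  obtain ⟨g₀, -, hg₀⟩ := Cfsg.Agent.Lib.Coprime.InvHall.hall_conj hsolv hL' hL
  refine ⟨g₀, ?_⟩
  rw [← hg₀]
  exact ⟨g, hEL' (Subgroup.mem_zpowers g), rfl⟩

theorem edge_in_hall [Group.IsSolvable G] {σ : Set ℕ} {L : Subgroup G} (hL : IsPiHallOf σ L ⊤) {a b : ℕ}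
    (ha : a ∈ σ) (hb : b ∈ σ) (hap : a.Prime) (hbp : b.Prime) (hab : a ≠ b) (e : Edge G a b) : Edge L a b := by
  have hcop : a.Coprime b := (Nat.coprime_primes hap hbp).mpr hab
  obtain ⟨g, hg⟩ := element_of_edge hcop e
  obtain ⟨g₀, hg₀⟩ := conj_into_hall hL g (by
    intro q hq hd
    rw [hg] at hd
    rcases (Nat.Prime.dvd_mul hq).mp hd with h | h
    · rw [(Nat.prime_dvd_prime_iff_eq hq hap).mp h]; exact ha
    · rw [(Nat.prime_dvd_prime_iff_eq hq hbp).mp h]; exact hb)
  refine edge_of_element hab hap hbp (⟨_, hg₀⟩ : L) ?_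
  rw [Subgroup.orderOf_mk, orderOf_conj', hg]

theorem rk2_sub {L : Subgroup G} {q : ℕ}
    (h : ∃ a b : G, a ∈ L ∧ b ∈ L ∧ orderOf a = q ∧ orderOf b = q ∧ a * b = b * a ∧ b ∉ Subgroup.zpowers a) :
    Rk2 L q := by
  obtain ⟨a, b, ha, hb, hao, hbo, hab, hba⟩ := h
  refine ⟨⟨a, ha⟩, ⟨b, hb⟩, by rw [Subgroup.orderOf_mk]; exact hao, by rw [Subgroup.orderOf_mk]; exact hbo,
    Subtype.ext hab, ?_⟩
  intro h2
  apply hba
  obtain ⟨k, hk⟩ := Subgroup.mem_zpowers_iff.mp h2
  exact Subgroup.mem_zpowers_iff.mpr ⟨k, by simpa using congrArg Subtype.val hk⟩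

theorem BadG.of_sub (h : BadG G π) (L : Subgroup G) (he : ∀ a ∈ π, ∀ b ∈ π, a ≠ b → Edge L a b) : BadG L π := by
  refine ⟨h.card4, h.prime, he, ?_⟩
  intro x y z hxy hxz hyz hx hy hz h1 h2 h3
  rw [← Subgroup.orderOf_coe] at hx hy hz h1 h2 h3
  rw [← Subgroup.orderOf_coe] at h1 h2 h3
  exact h.notri x.1 y.1 z.1 (congrArg Subtype.val hxy) (congrArg Subtype.val hxz) (congrArg Subtype.val hyz)
    hx hy hz h1 h2 h3

/-- Case I. -/
theorem case1_main [Group.IsSolvable G] (h : BadG G π) (N : Subgroup G) (hNn : N.Normal) (hNb : N ≠ ⊥)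
    (hNc : ∀ x ∈ N, ∀ y ∈ N, x * y = y * x) {p : ℕ} (hp : p.Prime) (hNe : ∀ x ∈ N, x ^ p = 1) (hpπ : p ∈ π)
    {a b c : ℕ} (ha : a ∈ π) (hb : b ∈ π) (hc : c ∈ π) (hab : a ≠ b) (hac : a ≠ c) (hbc : b ≠ c)
    (hap : a ≠ p) (hbp : b ≠ p) (hcp : c ≠ p)
    (hda : a ∣ Nat.card (Subgroup.centralizer (N : Set G)))
    (hdb : b ∣ Nat.card (Subgroup.centralizer (N : Set G))) : False := by
  classical
  haveI := hNn
  haveI := Fact.mk hp
  have hcpr := h.prime c hc
  obtain ⟨a₀, b₀, ha₀, hb₀, hab₀, hba₀⟩ := h.rk2 hc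
  let ρ : G →* MulAut N := MulAut.conjNormal
  have hρ : ∀ (g : G) (v : N), ((ρ g v : N) : G) = g * v.1 * g⁻¹ := fun g v => by simp [ρ]
  have hNp : IsPGroup p N := fun x => ⟨1, Subtype.ext (by simpa using hNe x.1 x.2)⟩
  have hvne : (⊤ : Subgroup N) ≠ ⊥ := by
    intro h2
    apply hNb
    rw [eq_bot_iff]
    intro x hx
    have : (⟨x, hx⟩ : N) ∈ (⊥ : Subgroup N) := h2 ▸ Subgroup.mem_top _
    simpa using congrArg Subtype.val (Subgroup.mem_bot.mp this)
  obtain ⟨g, -, hgo, v, -, hv1, hv⟩ := pprime (V := N) (fun x y => Subtype.ext (hNc _ x.2 _ y.2)) ρ hcpr hab₀ ha₀ hb₀ hba₀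
    ((Setup3.card_coprime_of_pgroup hp hcpr hcp.symm hNp).symm) ⊤ (fun _ _ => trivial) (fun _ _ => trivial) hvne
  have hv1' : v.1 ≠ 1 := fun h2 => hv1 (Subtype.ext h2)
  have hvo : orderOf v.1 = p := orderOf_eq_prime (hNe v.1 v.2) hv1'
  have hle : Subgroup.centralizer (N : Set G) ≤ Subgroup.centralizer ({v.1} : Set G) :=
    fun x hx => mem_cz.mpr (Subgroup.mem_centralizer_iff.mp hx v.1 v.2).symm
  have hdvd := Subgroup.card_dvd_of_le hle
  have hgv : g ∈ Subgroup.centralizer ({v.1} : Set G) := by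
    have h1 := congrArg Subtype.val hv
    rw [hρ] at h1
    exact mem_cz.mpr (mul_inv_eq_iff_eq_mul.mp h1)
  exact h.f0 (x := v.1) (by rw [hvo]; exact hpπ) ha hb hc hab hac hbc (by rw [hvo]; exact hap) (by rw [hvo]; exact hbp)
    (by rw [hvo]; exact hcp) (dvd_trans hda hdvd) (dvd_trans hdb hdvd) (hgo ▸ Subgroup.orderOf_dvd_natCard _ hgv)

/-- Case II. -/
theorem case2_main [Group.IsSolvable G] (h : BadG G π) (N : Subgroup G) (hNn : N.Normal) (hNb : N ≠ ⊥)
    (hNc : ∀ x ∈ N, ∀ y ∈ N, x * y = y * x) {p : ℕ} (hp : p.Prime) (hNe : ∀ x ∈ N, x ^ p = 1) (hpπ : p ∈ π)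
    {t u w : ℕ} (ht : t ∈ π) (hu : u ∈ π) (hw : w ∈ π) (htu : t ≠ u) (htw : t ≠ w) (huw : u ≠ w)
    (htp : t ≠ p) (hup : u ≠ p) (hwp : w ≠ p)
    (hGπ : ∀ q : ℕ, q.Prime → q ∣ Nat.card G → q = p ∨ q = t ∨ q = u ∨ q = w)
    (hdu : u ∣ Nat.card (Subgroup.centralizer (N : Set G)))
    (hdt : ¬ t ∣ Nat.card (Subgroup.centralizer (N : Set G)))
    (hdw : ¬ w ∣ Nat.card (Subgroup.centralizer (N : Set G))) : False := by
  classical
  haveI := hNn
  have htpr := h.prime t ht
  have hupr := h.prime u hu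
  have hwpr := h.prime w hw
  haveI := Fact.mk hp
  haveI := Fact.mk htpr
  haveI := Fact.mk hupr
  haveI := Fact.mk hwpr
  let D : Subgroup G := Subgroup.centralizer (N : Set G)
  haveI hDn : D.Normal := Subgroup.normal_centralizer
  let S : Sylow u D := default
  let U₁ : Subgroup G := (S : Subgroup D).map D.subtype
  have hU₁D : U₁ ≤ D := by
    rintro _ ⟨x, -, rfl⟩
    exact x.2
  have hU₁p : IsPGroup u U₁ := S.2.map D.subtype
  have hU₁b : U₁ ≠ ⊥ := by
    intro h2
    have h3 := S.ne_bot_of_dvd_card hdu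
    apply h3
    rw [eq_bot_iff]
    intro x hx
    have : x.1 ∈ U₁ := ⟨x, hx, rfl⟩
    rw [h2, Subgroup.mem_bot] at this
    exact Subgroup.mem_bot.mpr (Subtype.ext this)
  let K : Subgroup G := Subgroup.normalizer (U₁ : Set G)
  have hsup : K ⊔ D = ⊤ := by
    rw [eq_top_iff]
    intro g _
    obtain ⟨n, hn, k, hk, rfl⟩ := Cfsg.Agent.Lib.Basic.SylowUtil.frattini_argument' S g
    exact Subgroup.mul_mem _ (Subgroup.mem_sup_right hn) (Subgroup.mem_sup_left hk)
  have hKidx : K.index ∣ Nat.card D := by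
    have h1 := Cfsg.Agent.Lib.Solvable.Hall.card_sup_mul_card_inf K D
    rw [hsup, Nat.card_congr Subgroup.topEquiv.toEquiv] at h1
    have h2 := K.card_mul_index
    rw [← h2, mul_assoc] at h1
    have h3 := Nat.eq_of_mul_eq_mul_left (Nat.card_pos (α := K)) h1
    exact Dvd.intro _ h3
  have hsolvK : Group.IsSolvable K := inferInstance
  obtain ⟨H, hH⟩ := Cfsg.Agent.Lib.Coprime.InvHall.exists_hall ({t, w} : Set ℕ) K hsolvK
  have hHK : H ≤ K := hH.1
  have hHall : IsPiHallOf ({t, w} : Set ℕ) H ⊤ := by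
    refine ⟨le_top, hH.2.1, ?_⟩
    intro q hq hqσ hd
    rw [Subgroup.relIndex_top_right, ← Subgroup.relIndex_mul_index hHK] at hd
    rcases (Nat.Prime.dvd_mul hq).mp hd with h2 | h2
    · exact hH.2.2 q hq hqσ h2
    · have h3 := dvd_trans h2 hKidx
      rcases hqσ with rfl | hqσ
      · exact hdt h3
      · have : q = w := hqσ
        rw [this] at h3
        exact hdw h3
  haveI : Group.IsSolvable H := inferInstance
  let Z : Subgroup G := U₁ ⊓ Subgroup.centralizer (U₁ : Set G)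
  have hZU : Z ≤ U₁ := inf_le_left
  have hZp : IsPGroup u Z := hU₁p.to_le hZU
  have hZc : ∀ x ∈ Z, ∀ y ∈ Z, x * y = y * x := by
    intro x hx y hy
    exact (Subgroup.mem_centralizer_iff.mp hy.2 x hx.1)
  have hZb : Z ≠ ⊥ := by
    haveI : Nontrivial U₁ := (Subgroup.nontrivial_iff_ne_bot U₁).mpr hU₁b
    haveI := hU₁p.center_nontrivial
    obtain ⟨c, hc⟩ := exists_ne (1 : Subgroup.center U₁)
    intro h2
    have hc1 : (c : U₁).1 ∈ Z := by
      refine ⟨(c : U₁).2, Subgroup.mem_centralizer_iff.mpr (fun g hg => ?_)⟩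
      exact congrArg Subtype.val (Subgroup.mem_center_iff.mp c.2 ⟨g, hg⟩)
    rw [h2, Subgroup.mem_bot] at hc1
    exact hc (Subtype.ext (Subtype.ext hc1))
  have hKZ : K ≤ Subgroup.normalizer (Z : Set G) := by
    intro g hg
    apply Cfsg.Agent.Lib.Coprime.Three.mem_normalizer_of_conj_mem
    intro x hx
    refine ⟨(Subgroup.mem_normalizer_iff.mp hg x).mp hx.1, Subgroup.mem_centralizer_iff.mpr (fun y hy => ?_)⟩
    have hy₁ : g⁻¹ * y * g ∈ U₁ := by
      have h1 : g⁻¹ ∈ K := K.inv_mem hg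
      have := (Subgroup.mem_normalizer_iff.mp h1 y).mp hy
      simpa using this
    have h1 := Subgroup.mem_centralizer_iff.mp hx.2 _ hy₁
    calc y * (g * x * g⁻¹) = g * ((g⁻¹ * y * g) * x) * g⁻¹ := by group
      _ = g * (x * (g⁻¹ * y * g)) * g⁻¹ := by rw [h1]
      _ = (g * x * g⁻¹) * y := by group
  let ρ₁ : H →* MulAut N := (MulAut.conjNormal (H := N)).comp H.subtype
  let ρ₂ : H →* MulAut Z := Z.normalizerMonoidHom.comp (Subgroup.inclusion (hHK.trans hKZ))
  have hρ₁ : ∀ (g : H) (v : N), ((ρ₁ g v : N) : G) = g.1 * v.1 * g.1⁻¹ := fun g v => by simp [ρ₁]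
  have hρ₂ : ∀ (g : H) (v : Z), ((ρ₂ g v : Z) : G) = g.1 * v.1 * g.1⁻¹ := fun g v => rfl
  have hHprimes : ∀ q : ℕ, q.Prime → q ∣ Nat.card H → q = t ∨ q = w := fun q hq hd => hH.2.1 q hq hd
  have hNp : IsPGroup p N := fun x => ⟨1, Subtype.ext (by simpa using hNe x.1 x.2)⟩
  have hordp : ∀ g : H, (orderOf g).Prime → orderOf g.1 = t ∨ orderOf g.1 = w := by
    intro g hg
    rw [Subgroup.orderOf_coe]
    exact hHprimes _ hg (orderOf_dvd_natCard g)
  have hmemπ : ∀ g : H, (orderOf g).Prime → orderOf g.1 ∈ π ∧ orderOf g.1 ≠ p ∧ orderOf g.1 ≠ u := by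
    intro g hg
    rcases hordp g hg with h2 | h2 <;> rw [h2]
    · exact ⟨ht, htp, htu⟩
    · exact ⟨hw, hwp, huw.symm⟩
  have hNo : ∀ v : N, v ≠ 1 → orderOf v.1 = p := fun v hv =>
    orderOf_eq_prime (hNe v.1 v.2) (fun h2 => hv (Subtype.ext h2))
  have hfixN : ∀ (g : H) (v : N), ρ₁ g v = v → g.1 * v.1 = v.1 * g.1 := by
    intro g v hv
    have h1 := congrArg Subtype.val hv
    rw [hρ₁] at h1
    exact mul_inv_eq_iff_eq_mul.mp h1
  have hfixZ : ∀ (g : H) (v : Z), ρ₂ g v = v → g.1 * v.1 = v.1 * g.1 := by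
    intro g v hv
    have h1 := congrArg Subtype.val hv
    rw [hρ₂] at h1
    exact mul_inv_eq_iff_eq_mul.mp h1
  have hcopH : ∀ q : ℕ, q = p ∨ q = u → (Nat.card H).Coprime q := by
    intro q hq
    have hqp : q.Prime := by
      rcases hq with rfl | rfl
      · exact hp
      · exact hupr
    apply Nat.Coprime.symm
    apply (Nat.Prime.coprime_iff_not_dvd hqp).mpr
    intro hd
    rcases hHprimes q hqp hd with rfl | rfl
    · rcases hq with rfl | rfl
      · exact htp rfl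
      · exact htu rfl
    · rcases hq with rfl | rfl
      · exact hwp rfl
      · exact huw rfl
  have s : Setup2 ρ₁ ρ₂ t w :=
    { ht := htpr
      hw := hwpr
      htw := htw
      primes := hHprimes
      comm₁ := fun x y => Subtype.ext (hNc _ x.2 _ y.2)
      comm₂ := fun x y => Subtype.ext (hZc _ x.2 _ y.2)
      inj₁ := by
        intro g g' hgg
        have h1 : g⁻¹ * g' = 1 := by
          by_contra hne
          -- the quotient acts trivially
          set x := g⁻¹ * g' with hx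
          have hxD : x.1 ∈ D := by
            refine Subgroup.mem_centralizer_iff.mpr (fun y hy => ?_)
            have h2 : ρ₁ x = 1 := by
              rw [hx, map_mul, map_inv, hgg, inv_mul_cancel]
            have h3 := congrArg (fun f => ((f ⟨y, hy⟩ : N) : G)) h2
            simp only [hρ₁, MulAut.one_apply] at h3
            exact (mul_inv_eq_iff_eq_mul.mp h3).symm
          have hx1 : x.1 ≠ 1 := fun h2 => hne (Subtype.ext h2)
          obtain ⟨q, hq, hqd⟩ := Nat.exists_prime_and_dvd (fun h3 => hx1 (orderOf_eq_one_iff.mp h3))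
          have hq1 : q ∣ Nat.card H := by
            have h3 : q ∣ orderOf x := by rwa [Subgroup.orderOf_coe] at hqd
            exact dvd_trans h3 (orderOf_dvd_natCard x)
          have hq2 : q ∣ Nat.card D := dvd_trans hqd (Subgroup.orderOf_dvd_natCard D hxD)
          rcases hHprimes q hq hq1 with rfl | rfl
          · exact hdt hq2
          · exact hdw hq2
        have h2 : g' = g := by
          have := mul_eq_one_iff_eq_inv.mp h1
          simpa using this.symm
        exact h2.symm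
      cop₁ := by
        obtain ⟨k, hk⟩ := IsPGroup.iff_card.mp hNp
        rw [hk]
        exact Nat.Coprime.pow_right k (hcopH p (Or.inl rfl))
      cop₂ := by
        obtain ⟨k, hk⟩ := IsPGroup.iff_card.mp hZp
        rw [hk]
        exact Nat.Coprime.pow_right k (hcopH u (Or.inr rfl))
      hab := by
        intro g hg v₁ v₂ hv₁ hv₂
        by_contra hcon
        push Not at hcon
        obtain ⟨h1, h2⟩ := hcon
        have h2' : v₂.1 ≠ 1 := fun h3 => h2 (Subtype.ext h3)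
        obtain ⟨y, hy, hyo, hyZ⟩ := exists_mem_order hupr hZp v₂.2 h2'
        obtain ⟨hgπ, hgp, hgu⟩ := hmemπ g hg
        have hvo := hNo v₁ h1
        have hgy : g.1 * y = y * g.1 := commute_of_mem_zpowers hy (hfixZ g v₂ hv₂)
        have hyv : y * v₁.1 = v₁.1 * y :=
          (Subgroup.mem_centralizer_iff.mp (hU₁D (hZU hyZ)) v₁.1 v₁.2).symm
        exact h.notri g.1 v₁.1 y (hfixN g v₁ hv₁) hgy hyv.symm hgπ (by rw [hvo]; exact hpπ)
          (by rw [hyo]; exact hu) (by rw [hvo]; exact hgp) (by rw [hyo]; exact hgu)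
          (by rw [hvo, hyo]; exact hup.symm)
      hb₁ := by
        intro a b hab hap hbp hne v hva hvb
        by_contra hv1
        obtain ⟨haπ, hap', -⟩ := hmemπ a hap
        obtain ⟨hbπ, hbp', -⟩ := hmemπ b hbp
        have hvo := hNo v hv1
        exact h.notri a.1 b.1 v.1 (congrArg Subtype.val hab) (hfixN a v hva) (hfixN b v hvb) haπ hbπ
          (by rw [hvo]; exact hpπ) (by rw [Subgroup.orderOf_coe, Subgroup.orderOf_coe]; exact hne)
          (by rw [hvo]; exact hap') (by rw [hvo]; exact hbp')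
      hb₂ := by
        intro a b hab hap hbp hne v hva hvb
        by_contra hv1
        have hv1' : v.1 ≠ 1 := fun h3 => hv1 (Subtype.ext h3)
        obtain ⟨y, hy, hyo, hyZ⟩ := exists_mem_order hupr hZp v.2 hv1'
        obtain ⟨haπ, -, hau⟩ := hmemπ a hap
        obtain ⟨hbπ, -, hbu⟩ := hmemπ b hbp
        exact h.notri a.1 b.1 y (congrArg Subtype.val hab) (commute_of_mem_zpowers hy (hfixZ a v hva))
          (commute_of_mem_zpowers hy (hfixZ b v hvb)) haπ hbπ (by rw [hyo]; exact hu)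
          (by rw [Subgroup.orderOf_coe, Subgroup.orderOf_coe]; exact hne)
          (by rw [hyo]; exact hau) (by rw [hyo]; exact hbu)
      r_t := rk2_sub (rk2_in_hall hHall (q := t) (by simp) htpr (h.rk2 ht))
      r_w := rk2_sub (rk2_in_hall hHall (q := w) (by simp) hwpr (h.rk2 hw))
      vne₁ := by
        intro h2
        apply hNb
        rw [eq_bot_iff]
        intro x hx
        have : (⟨x, hx⟩ : N) ∈ (⊥ : Subgroup N) := h2 ▸ Subgroup.mem_top _
        simpa using congrArg Subtype.val (Subgroup.mem_bot.mp this)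
      vne₂ := by
        intro h2
        apply hZb
        rw [eq_bot_iff]
        intro x hx
        have : (⟨x, hx⟩ : Z) ∈ (⊥ : Subgroup Z) := h2 ▸ Subgroup.mem_top _
        simpa using congrArg Subtype.val (Subgroup.mem_bot.mp this) }
  exact s.case2

theorem edge_of_le {L L' : Subgroup G} (hle : L ≤ L') {a b : ℕ} (e : Edge L a b) : Edge L' a b := by
  obtain ⟨x, y, hx, hy, hxy⟩ := e
  refine ⟨⟨x.1, hle x.2⟩, ⟨y.1, hle y.2⟩, ?_, ?_, Subtype.ext ?_⟩
  · rw [Subgroup.orderOf_mk, Subgroup.orderOf_coe]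
    exact hx
  · rw [Subgroup.orderOf_mk, Subgroup.orderOf_coe]
    exact hy
  · have h9 : x.1 * y.1 = y.1 * x.1 := congrArg Subtype.val hxy
    exact h9

/-- Case III. -/
theorem case3_main [Group.IsSolvable G] (h : BadG G π) (N : Subgroup G) (hNn : N.Normal) (hNb : N ≠ ⊥)
    (hNc : ∀ x ∈ N, ∀ y ∈ N, x * y = y * x) (hNmin : ∀ M : Subgroup G, M.Normal → M ≤ N → M = ⊥ ∨ M = N)
    {p : ℕ} (hp : p.Prime) (hNe : ∀ x ∈ N, x ^ p = 1) (hpπ : p ∈ π)
    {t u w : ℕ} (ht : t ∈ π) (hu : u ∈ π) (hw : w ∈ π) (htu : t ≠ u) (htw : t ≠ w) (huw : u ≠ w)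
    (htp : t ≠ p) (hup : u ≠ p) (hwp : w ≠ p)
    (hπ : ∀ q ∈ π, q = p ∨ q = t ∨ q = u ∨ q = w)
    (hdt : ¬ t ∣ Nat.card (Subgroup.centralizer (N : Set G)))
    (hdu : ¬ u ∣ Nat.card (Subgroup.centralizer (N : Set G)))
    (hdw : ¬ w ∣ Nat.card (Subgroup.centralizer (N : Set G)))
    (hIH : ∀ L : Subgroup G, L ≠ ⊤ → BadG L π → False) : False := by
  classical
  haveI := hNn
  have htpr := h.prime t ht
  have hupr := h.prime u hu
  have hwpr := h.prime w hw
  haveI := Fact.mk hp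
  haveI := Fact.mk htpr
  haveI := Fact.mk hupr
  haveI := Fact.mk hwpr
  let D : Subgroup G := Subgroup.centralizer (N : Set G)
  let σ : Set ℕ := {t, u, w}
  have hsolv : Group.IsSolvable (⊤ : Subgroup G) := inferInstance
  obtain ⟨H, hH⟩ := Cfsg.Agent.Lib.Coprime.InvHall.exists_hall σ ⊤ hsolv
  haveI : Group.IsSolvable H := inferInstance
  have hHprimes : ∀ q : ℕ, q.Prime → q ∣ Nat.card H → q = t ∨ q = u ∨ q = w := fun q hq hd => hH.2.1 q hq hd
  have htσ : t ∈ σ := by simp [σ]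
  have huσ : u ∈ σ := by simp [σ]
  have hwσ : w ∈ σ := by simp [σ]
  have hσπ : ∀ q ∈ σ, q ∈ π ∧ q ≠ p := by
    rintro q (rfl | rfl | hq)
    · exact ⟨ht, htp⟩
    · exact ⟨hu, hup⟩
    · have : q = w := hq
      rw [this]
      exact ⟨hw, hwp⟩
  have hHD : ∀ x ∈ H, x ∈ D → x = 1 := by
    intro x hxH hxD
    by_contra hx1
    obtain ⟨q, hq, hqd⟩ := Nat.exists_prime_and_dvd (fun h3 => hx1 (orderOf_eq_one_iff.mp h3))
    have hq1 : q ∣ Nat.card H := dvd_trans hqd (Subgroup.orderOf_dvd_natCard H hxH)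
    have hq2 : q ∣ Nat.card D := dvd_trans hqd (Subgroup.orderOf_dvd_natCard D hxD)
    rcases hHprimes q hq hq1 with rfl | rfl | rfl
    · exact hdt hq2
    · exact hdu hq2
    · exact hdw hq2
  have hNp : IsPGroup p N := fun x => ⟨1, Subtype.ext (by simpa using hNe x.1 x.2)⟩
  have hvne : (⊤ : Subgroup N) ≠ ⊥ := by
    intro h2
    apply hNb
    rw [eq_bot_iff]
    intro x hx
    have : (⟨x, hx⟩ : N) ∈ (⊥ : Subgroup N) := h2 ▸ Subgroup.mem_top _
    simpa using congrArg Subtype.val (Subgroup.mem_bot.mp this)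
  have hcN : ∀ x y : N, x * y = y * x := fun x y => Subtype.ext (hNc _ x.2 _ y.2)
  let ρG : G →* MulAut N := MulAut.conjNormal
  have hρG : ∀ (g : G) (v : N), ((ρG g v : N) : G) = g * v.1 * g⁻¹ := fun g v => by simp [ρG]
  have hfixG : ∀ (g : G) (v : N), ρG g v = v → g * v.1 = v.1 * g := by
    intro g v hv
    have h1 := congrArg Subtype.val hv
    rw [hρG] at h1
    exact mul_inv_eq_iff_eq_mul.mp h1
  -- edges with `p`
  have hpedge : ∀ a ∈ σ, Edge (N ⊔ H : Subgroup G) p a := by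
    intro a haσ
    obtain ⟨haπ, hap⟩ := hσπ a haσ
    have hapr := h.prime a haπ
    obtain ⟨a₀, b₀, ha₀H, hb₀H, ha₀, hb₀, hab₀, hba₀⟩ := rk2_in_hall hH haσ hapr (h.rk2 haπ)
    obtain ⟨g, hg, hgo, v, -, hv1, hv⟩ := pprime (V := N) hcN ρG hapr hab₀ ha₀ hb₀ hba₀
      ((Setup3.card_coprime_of_pgroup hp hapr hap.symm hNp).symm) ⊤ (fun _ _ => trivial)
      (fun _ _ => trivial) hvne
    have hgH : g ∈ H := (Subgroup.closure_le H).mpr (by rintro x (rfl | rfl) <;> assumption) hg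
    have hvo : orderOf v.1 = p := orderOf_eq_prime (hNe v.1 v.2) (fun h3 => hv1 (Subtype.ext h3))
    refine ⟨⟨v.1, (le_sup_left : N ≤ N ⊔ H) v.2⟩, ⟨g, (le_sup_right : H ≤ N ⊔ H) hgH⟩,
      by rw [Subgroup.orderOf_mk]; exact hvo, by rw [Subgroup.orderOf_mk]; exact hgo, Subtype.ext ?_⟩
    exact (hfixG g v hv).symm
  have hsigma_edge : ∀ a ∈ σ, ∀ b ∈ σ, a ≠ b → Edge H a b := by
    intro a ha b hb hab
    obtain ⟨haπ, -⟩ := hσπ a ha
    obtain ⟨hbπ, -⟩ := hσπ b hb
    exact edge_in_hall hH ha hb (h.prime a haπ) (h.prime b hbπ) hab (h.edge a haπ b hbπ hab)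
  have hmemσ : ∀ q ∈ π, q ≠ p → q ∈ σ := by
    intro q hq hqp
    rcases hπ q hq with h1 | h1 | h1 | h1
    · exact absurd h1 hqp
    · rw [h1]; exact htσ
    · rw [h1]; exact huσ
    · rw [h1]; exact hwσ
  have hsup : N ⊔ H = ⊤ := by
    by_contra hne
    refine hIH _ hne (h.of_sub _ ?_)
    intro a ha b hb hab
    by_cases hap : a = p
    · subst hap
      exact hpedge b (hmemσ b hb hab.symm)
    · by_cases hbp : b = p
      · subst hbp
        exact (hpedge a (hmemσ a ha hab)).symm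
      · exact edge_of_le (le_sup_right : H ≤ N ⊔ H) (hsigma_edge a (hmemσ a ha hap) b (hmemσ b hb hbp) hab)
  let ρ : H →* MulAut N := (MulAut.conjNormal (H := N)).comp H.subtype
  have hρ : ∀ (g : H) (v : N), ((ρ g v : N) : G) = g.1 * v.1 * g.1⁻¹ := fun g v => by simp [ρ]
  have hfixN : ∀ (g : H) (v : N), ρ g v = v → g.1 * v.1 = v.1 * g.1 := by
    intro g v hv
    have h1 := congrArg Subtype.val hv
    rw [hρ] at h1
    exact mul_inv_eq_iff_eq_mul.mp h1
  have hordσ : ∀ g : H, (orderOf g).Prime → orderOf g.1 ∈ σ := by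
    intro g hg
    rw [Subgroup.orderOf_coe]
    exact hH.2.1 _ hg (orderOf_dvd_natCard g)
  have hcop : (Nat.card H).Coprime (Nat.card N) := by
    obtain ⟨k, hk⟩ := IsPGroup.iff_card.mp hNp
    rw [hk]
    apply Nat.Coprime.pow_right
    apply Nat.Coprime.symm
    apply (Nat.Prime.coprime_iff_not_dvd hp).mpr
    intro hd
    exact (hσπ p (hH.2.1 p hp hd)).2 rfl
  have s : Setup3 ρ t u w :=
    { ht := htpr
      hu := hupr
      hw := hwpr
      htu := htu
      htw := htw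
      huw := huw
      primes := hHprimes
      comm := hcN
      inj := by
        intro g g' hgg
        have hxD : (g⁻¹ * g').1 ∈ D := by
          refine Subgroup.mem_centralizer_iff.mpr (fun y hy => ?_)
          have h2 : ρ (g⁻¹ * g') = 1 := by
            rw [map_mul, map_inv, hgg, inv_mul_cancel]
          have h3 := congrArg (fun f => ((f ⟨y, hy⟩ : N) : G)) h2
          simp only [hρ, MulAut.one_apply] at h3
          exact (mul_inv_eq_iff_eq_mul.mp h3).symm
        have h1 := hHD _ (g⁻¹ * g').2 hxD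
        have h2 : g⁻¹ * g' = 1 := Subtype.ext h1
        have h3 : g' = g := by
          have := mul_eq_one_iff_eq_inv.mp h2
          simpa using this.symm
        exact h3.symm
      cop := hcop
      nt1 := by
        intro a b c hab hac hbc hap hbp hcp hne1 hne2 hne3
        exact h.notri a.1 b.1 c.1 (congrArg Subtype.val hab) (congrArg Subtype.val hac) (congrArg Subtype.val hbc)
          (hσπ _ (hordσ a hap)).1 (hσπ _ (hordσ b hbp)).1 (hσπ _ (hordσ c hcp)).1
          (by rw [Subgroup.orderOf_coe, Subgroup.orderOf_coe]; exact hne1)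
          (by rw [Subgroup.orderOf_coe, Subgroup.orderOf_coe]; exact hne2)
          (by rw [Subgroup.orderOf_coe, Subgroup.orderOf_coe]; exact hne3)
      nt2 := by
        intro a b hab hap hbp hne v hva hvb
        by_contra hv1
        have hvo : orderOf v.1 = p := orderOf_eq_prime (hNe v.1 v.2) (fun h3 => hv1 (Subtype.ext h3))
        obtain ⟨haπ, hap'⟩ := hσπ _ (hordσ a hap)
        obtain ⟨hbπ, hbp'⟩ := hσπ _ (hordσ b hbp)
        exact h.notri a.1 b.1 v.1 (congrArg Subtype.val hab) (hfixN a v hva) (hfixN b v hvb) haπ hbπ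
          (by rw [hvo]; exact hpπ) (by rw [Subgroup.orderOf_coe, Subgroup.orderOf_coe]; exact hne)
          (by rw [hvo]; exact hap') (by rw [hvo]; exact hbp')
      irr := by
        intro X hXn hXb v hv
        let Y : Subgroup G :=
          { carrier := {y | y ∈ N ∧ ∀ x ∈ X, x.1 * y * x.1⁻¹ = y}
            one_mem' := ⟨N.one_mem, fun x _ => by simp⟩
            mul_mem' := by
              rintro a b ⟨ha, ha2⟩ ⟨hb, hb2⟩
              refine ⟨N.mul_mem ha hb, fun x hx => ?_⟩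
              have : x.1 * (a * b) * x.1⁻¹ = (x.1 * a * x.1⁻¹) * (x.1 * b * x.1⁻¹) := by group
              rw [this, ha2 x hx, hb2 x hx]
            inv_mem' := by
              rintro a ⟨ha, ha2⟩
              refine ⟨N.inv_mem ha, fun x hx => ?_⟩
              have : x.1 * a⁻¹ * x.1⁻¹ = (x.1 * a * x.1⁻¹)⁻¹ := by group
              rw [this, ha2 x hx] }
        have hNY : N ≤ Subgroup.normalizer (Y : Set G) := by
          intro n hn
          apply Cfsg.Agent.Lib.Coprime.Three.mem_normalizer_of_conj_mem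
          intro y hy
          have : n * y * n⁻¹ = y := by
            rw [hNc n hn y hy.1]; group
          rw [this]
          exact hy
        have hHY : H ≤ Subgroup.normalizer (Y : Set G) := by
          intro g hg
          apply Cfsg.Agent.Lib.Coprime.Three.mem_normalizer_of_conj_mem
          rintro y ⟨hy, hy2⟩
          refine ⟨hNn.conj_mem y hy g, fun x hx => ?_⟩
          have hx' : (⟨g, hg⟩ : H)⁻¹ * x * (⟨g, hg⟩ : H)⁻¹⁻¹ ∈ X := hXn.conj_mem x hx _
          have h3 := hy2 _ hx'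
          have h4 : (((⟨g, hg⟩ : H)⁻¹ * x * (⟨g, hg⟩ : H)⁻¹⁻¹ : H) : G) = g⁻¹ * x.1 * g := by
            simp
          rw [h4] at h3
          calc x.1 * (g * y * g⁻¹) * x.1⁻¹
              = g * ((g⁻¹ * x.1 * g) * y * (g⁻¹ * x.1 * g)⁻¹) * g⁻¹ := by group
            _ = g * y * g⁻¹ := by rw [h3]
        have hYn : Y.Normal := by
          rw [← Subgroup.normalizer_eq_top_iff, eq_top_iff, ← hsup]
          exact sup_le hNY hHY
        rcases hNmin Y hYn (fun y hy => hy.1) with hY | hY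
        · have : v.1 ∈ Y := ⟨v.2, fun x hx => by
            have h1 := congrArg Subtype.val (hv x hx)
            rw [hρ] at h1
            exact h1⟩
          rw [hY, Subgroup.mem_bot] at this
          exact Subtype.ext this
        · exfalso
          apply hXb
          rw [eq_bot_iff]
          intro x hx
          have hxD : x.1 ∈ D := by
            refine Subgroup.mem_centralizer_iff.mpr (fun y hy => ?_)
            have hy' : y ∈ Y := hY ▸ hy
            exact (mul_inv_eq_iff_eq_mul.mp (hy'.2 x hx)).symm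
          exact Subgroup.mem_bot.mpr (Subtype.ext (hHD _ x.2 hxD))
      e_tu := hsigma_edge t htσ u huσ htu
      e_tw := hsigma_edge t htσ w hwσ htw
      e_uw := hsigma_edge u huσ w hwσ huw
      r_t := rk2_sub (rk2_in_hall hH htσ htpr (h.rk2 ht))
      r_u := rk2_sub (rk2_in_hall hH huσ hupr (h.rk2 hu))
      r_w := rk2_sub (rk2_in_hall hH hwσ hwpr (h.rk2 hw))
      vne := hvne }
  exact case3 s

/-- The main theorem. -/
theorem main_aux : ∀ (n : ℕ) {G : Type u} [Group G] [Finite G] [Group.IsSolvable G], Nat.card G = n →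
    ∀ π : Finset ℕ, BadG G π → False := by
  intro n
  induction n using Nat.strong_induction_on with
  | _ n ih =>
  intro G _ _ _ hn π h
  classical
  have hIH : ∀ L : Subgroup G, L ≠ ⊤ → BadG L π → False := by
    intro L hL hb
    have hlt : Nat.card L < n := by
      rw [← hn]
      apply lt_of_le_of_ne (Subgroup.card_le_card_group L)
      intro heq
      exact hL (Subgroup.eq_top_of_card_eq L heq)
    exact ih _ hlt rfl π hb
  have hsolv : Group.IsSolvable (⊤ : Subgroup G) := inferInstance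
  -- Step 0
  have hGπ : ∀ q : ℕ, q.Prime → q ∣ Nat.card G → q ∈ π := by
    intro q hq hqd
    by_contra hqπ
    obtain ⟨L, hL⟩ := Cfsg.Agent.Lib.Coprime.InvHall.exists_hall (π : Set ℕ) ⊤ hsolv
    refine hIH L ?_ (h.of_sub L ?_)
    · intro htop
      have h1 : q ∣ Nat.card L := by
        rw [htop, Nat.card_congr Subgroup.topEquiv.toEquiv]
        exact hqd
      exact hqπ (hL.2.1 q hq h1)
    · intro a ha b hb hab
      exact edge_in_hall hL ha hb (h.prime a ha) (h.prime b hb) hab (h.edge a ha b hb hab)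
  -- minimal normal subgroup
  obtain ⟨a₀, ha₀⟩ : ∃ a, a ∈ π := by
    exact Finset.card_pos.mp (by rw [h.card4]; norm_num)
  obtain ⟨b₀, -, -, hb₀, -, -, -, -, -, hab₀, -, -, -⟩ := others h.card4 ha₀
  obtain ⟨x₀, -, hx₀, -, -⟩ := h.edge a₀ ha₀ b₀ hb₀ hab₀
  haveI : Nontrivial G := by
    refine ⟨⟨x₀, 1, fun h2 => ?_⟩⟩
    rw [h2] at hx₀
    simp at hx₀
    exact (h.prime a₀ ha₀).one_lt.ne hx₀
  obtain ⟨N, hN⟩ := Cfsg.Agent.Lib.Solvable.MinimalNormal.exists_isMinNormal (G := G)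
  obtain ⟨p, hp, hNp, hNcm, hNe⟩ := hN.exists_isPGroup
  have hNn := hN.normal
  have hNb := hN.ne_bot
  have hNc : ∀ x ∈ N, ∀ y ∈ N, x * y = y * x := by
    intro x hx y hy
    exact congrArg Subtype.val (mul_comm' (⟨x, hx⟩ : N) ⟨y, hy⟩)
  have hpπ : p ∈ π := by
    apply hGπ p hp
    obtain ⟨x, hx⟩ := Subgroup.ne_bot_iff_exists_ne_one.mp hNb
    have hx1 : x.1 ≠ 1 := fun h2 => hx (Subtype.ext h2)
    haveI := Fact.mk hp
    have hxo : orderOf x.1 = p := orderOf_eq_prime (hNe x.1 x.2) hx1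
    rw [← hxo]
    exact orderOf_dvd_natCard _
  obtain ⟨t, u, w, ht, hu, hw, htu, htw, huw, hpt, hpu, hpw, hπ⟩ := others h.card4 hpπ
  have hGπ' : ∀ q : ℕ, q.Prime → q ∣ Nat.card G → q = p ∨ q = t ∨ q = u ∨ q = w :=
    fun q hq hd => hπ q (hGπ q hq hd)
  by_cases hdt : t ∣ Nat.card (Subgroup.centralizer (N : Set G))
  · by_cases hdu : u ∣ Nat.card (Subgroup.centralizer (N : Set G))
    · exact case1_main h N hNn hNb hNc hp hNe hpπ ht hu hw htu htw huw hpt.symm hpu.symm hpw.symm hdt hdu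
    · by_cases hdw : w ∣ Nat.card (Subgroup.centralizer (N : Set G))
      · exact case1_main h N hNn hNb hNc hp hNe hpπ ht hw hu htw htu huw.symm hpt.symm hpw.symm hpu.symm hdt hdw
      · exact case2_main h N hNn hNb hNc hp hNe hpπ hu ht hw htu.symm huw htw hpu.symm hpt.symm hpw.symm
          (fun q hq hd => by
            rcases hGπ' q hq hd with h1 | h1 | h1 | h1
            · exact Or.inl h1
            · exact Or.inr (Or.inr (Or.inl h1))
            · exact Or.inr (Or.inl h1)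
            · exact Or.inr (Or.inr (Or.inr h1))) hdt hdu hdw
  · by_cases hdu : u ∣ Nat.card (Subgroup.centralizer (N : Set G))
    · by_cases hdw : w ∣ Nat.card (Subgroup.centralizer (N : Set G))
      · exact case1_main h N hNn hNb hNc hp hNe hpπ hu hw ht huw htu.symm htw.symm hpu.symm hpw.symm hpt.symm hdu hdw
      · exact case2_main h N hNn hNb hNc hp hNe hpπ ht hu hw htu htw huw hpt.symm hpu.symm hpw.symm hGπ' hdu hdt hdw
    · by_cases hdw : w ∣ Nat.card (Subgroup.centralizer (N : Set G))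
      · exact case2_main h N hNn hNb hNc hp hNe hpπ ht hw hu htw htu huw.symm hpt.symm hpw.symm hpu.symm
          (fun q hq hd => by
            rcases hGπ' q hq hd with h1 | h1 | h1 | h1
            · exact Or.inl h1
            · exact Or.inr (Or.inl h1)
            · exact Or.inr (Or.inr (Or.inr h1))
            · exact Or.inr (Or.inr (Or.inl h1))) hdw hdt hdu
      · exact case3_main h N hNn hNb hNc (fun M hM hle => hN.eq_bot_or_eq M hM hle) hp hNe hpπ ht hu hw htu htw huw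
          hpt.symm hpu.symm hpw.symm hπ hdt hdu hdw hIH

/-- Final form of the theorem. -/
theorem four_primes {G : Type*} [Group G] [Finite G] (σ : Finset ℕ) (hσ : 4 ≤ σ.card) (hprime : ∀ p ∈ σ, p.Prime)
    (h2 : ∀ p ∈ σ, ∀ q ∈ σ, p ≠ q → ∃ g : G, orderOf g = p * q)
    (h3 : ∀ p ∈ σ, ∀ q ∈ σ, ∀ r ∈ σ, p ≠ q → q ≠ r → p ≠ r → ∀ g : G, orderOf g ≠ p * q * r) :
    ¬ Group.IsSolvable G := by
  intro hsolv
  classical
  obtain ⟨π, hπσ, hπ⟩ := Finset.exists_subset_card_eq hσ
  refine main_aux _ rfl π (G := G) ⟨hπ, fun q hq => hprime q (hπσ hq), ?_, ?_⟩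
  · intro a ha b hb hab
    obtain ⟨g, hg⟩ := h2 a (hπσ ha) b (hπσ hb) hab
    exact edge_of_element hab (hprime a (hπσ ha)) (hprime b (hπσ hb)) g (by rw [hg])
  · intro x y z hxy hxz hyz hx hy hz h1 h2' h3'
    have hxp := hprime _ (hπσ hx)
    have hyp := hprime _ (hπσ hy)
    have hzp := hprime _ (hπσ hz)
    have hc1 : (orderOf x).Coprime (orderOf y) := (Nat.coprime_primes hxp hyp).mpr h1
    have hcm : Commute x y := hxy
    have ho1 : orderOf (x * y) = orderOf x * orderOf y := hcm.orderOf_mul_eq_mul_orderOf_of_coprime hc1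
    have hcm2 : Commute (x * y) z := by
      show (x * y) * z = z * (x * y)
      rw [mul_assoc, hyz, ← mul_assoc, hxz, mul_assoc]
    have hc2 : (orderOf (x * y)).Coprime (orderOf z) := by
      rw [ho1]
      exact Nat.Coprime.mul_left ((Nat.coprime_primes hxp hzp).mpr h2') ((Nat.coprime_primes hyp hzp).mpr h3')
    have ho2 := hcm2.orderOf_mul_eq_mul_orderOf_of_coprime hc2
    rw [ho1] at ho2
    exact h3 _ (hπσ hx) _ (hπσ hy) _ (hπσ hz) h1 h3' h2' _ ho2

end Cfsg.Agent.Lib.S3814
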